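import Mathlib
import Cfsg.Prelude.Def_LieExceptional
import Cfsg.Agent.Lib.Helper12.CN

set_option autoImplicit false
set_option linter.style.haveILetI false
set_option linter.unusedSectionVars false

namespace Cfsg.Agent.Lib.Helper12

universe u

variable {G : Type u} [Group G] [Finite G]

/-- a `p`-element normalising a nontrivial `p`-subgroup `Z` centralises a nonidentity element
of the centre of `Z` -/
theorem exists_central_fixed (p : ℕ) [Fact p.Prime]
    (Z : Subgroup G) (hZ : IsPGroup p Z) (hZ1 : Z ≠ ⊥)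
    (u : G) (hu : ∃ k : ℕ, u ^ p ^ k = 1) (hnorm : ∀ z ∈ Z, u * z * u⁻¹ ∈ Z) :
    ∃ z ∈ Z, z ≠ 1 ∧ u * z = z * u ∧ ∀ w ∈ Z, w * z = z * w := by
  have hpu : IsPGroup p (Subgroup.zpowers u) := isPGroup_zpowers_of_pow Fact.out u hu
  have hun : Subgroup.zpowers u ≤ Subgroup.normalizer (Z : Set G) := by
    rw [Subgroup.zpowers_le]
    exact mem_normalizer_of_conj Z u hnorm
  obtain ⟨T, hT⟩ : ∃ T : Subgroup G, T = Z ⊔ Subgroup.zpowers u := ⟨_, rfl⟩
  have hTp : IsPGroup p T := by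
    rw [hT]; exact IsPGroup.to_sup_of_normal_left' hZ hpu hun
  haveI : Group.IsNilpotent T := hTp.isNilpotent
  have hZT : Z ≤ T := by rw [hT]; exact le_sup_left
  have huT : u ∈ T := by rw [hT]; exact Subgroup.mem_sup_right (Subgroup.mem_zpowers u)
  haveI : (Z.subgroupOf T).Normal :=
    (Subgroup.normal_subgroupOf_iff_le_normalizer hZT).mpr
      (by rw [hT]; exact sup_le Subgroup.le_normalizer hun)
  have hne : Z.subgroupOf T ≠ ⊥ := by
    intro h
    apply hZ1
    rw [Subgroup.subgroupOf_eq_bot] at h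
    have := disjoint_iff.mp h
    rwa [inf_eq_left.mpr hZT] at this
  have hcen := normal_inf_center_ne_bot' (Z.subgroupOf T) hne
  obtain ⟨t, ht, ht1⟩ : ∃ t ∈ Z.subgroupOf T ⊓ Subgroup.center T, t ≠ 1 := by
    by_contra hcon
    exact hcen ((Subgroup.eq_bot_iff_forall _).mpr
      (fun t ht => by_contra (fun h1 => hcon ⟨t, ht, h1⟩)))
  refine ⟨(t : G), Subgroup.mem_subgroupOf.mp ht.1, fun h => ht1 (Subtype.ext h), ?_, ?_⟩
  · have := (Subgroup.mem_center_iff.mp ht.2) ⟨u, huT⟩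
    exact congrArg Subtype.val this
  · intro w hw
    have := (Subgroup.mem_center_iff.mp ht.2) ⟨w, hZT hw⟩
    exact congrArg Subtype.val this

/-- a subgroup containing a Sylow subgroup for every prime is everything -/
theorem eq_top_of_sylow_le {K : Type*} [Group K] [Finite K] (C : Subgroup K)
    (h : ∀ q : ℕ, ∀ _ : Fact q.Prime, ∃ Q : Sylow q K, (Q : Subgroup K) ≤ C) : C = ⊤ := by
  rw [← Subgroup.index_eq_one, Nat.eq_one_iff_not_exists_prime_dvd]
  intro q hq hdvd
  haveI := Fact.mk hq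
  obtain ⟨Q, hQ⟩ := h q ⟨hq⟩
  exact (Sylow.not_dvd_index Q) (dvd_trans hdvd (Subgroup.index_dvd_of_le hQ))

/-- a Sylow `p`-subgroup of the subgroup `H`, as a subgroup of the ambient group -/
noncomputable def sylP (H : Subgroup G) (p : ℕ) : Subgroup G :=
  ((Classical.arbitrary (Sylow p H) : Sylow p H) : Subgroup H).map H.subtype

theorem sylP_le (H : Subgroup G) (p : ℕ) : sylP H p ≤ H := by
  rintro _ ⟨x, -, rfl⟩
  exact x.2

theorem pelt_of_mem_sylP (H : Subgroup G) (p : ℕ) {h : G} (hh : h ∈ sylP H p) :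
    ∃ k : ℕ, h ^ p ^ k = 1 := by
  obtain ⟨x, hx, rfl⟩ := hh
  obtain ⟨k, hk⟩ := (Classical.arbitrary (Sylow p H)).isPGroup' ⟨x, hx⟩
  refine ⟨k, ?_⟩
  have h1 : x ^ p ^ k = 1 := by
    simpa only [Subgroup.coe_pow, Subgroup.coe_one] using congrArg Subtype.val hk
  have h2 := congrArg Subtype.val h1
  simpa only [Subgroup.coe_pow, Subgroup.coe_one, Subgroup.subtype_apply] using h2

theorem sylP_isPGroup (H : Subgroup G) (p : ℕ) : IsPGroup p (sylP H p) := by
  rintro ⟨h, hh⟩
  obtain ⟨k, hk⟩ := pelt_of_mem_sylP H p hh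
  exact ⟨k, Subtype.ext (by simpa only [Subgroup.coe_pow, Subgroup.coe_one] using hk)⟩

theorem mem_sylP {H : Subgroup G} (hH : Group.IsNilpotent H) (p : ℕ) [Fact p.Prime] {h : G}
    (hh : h ∈ H) (hk : ∃ k : ℕ, h ^ p ^ k = 1) : h ∈ sylP H p := by
  haveI := hH
  have hpg : IsPGroup p (Subgroup.zpowers (⟨h, hh⟩ : H)) :=
    isPGroup_zpowers_of_pow Fact.out _ (by
      obtain ⟨k, hk⟩ := hk
      exact ⟨k, Subtype.ext (by simpa only [Subgroup.coe_pow, Subgroup.coe_one] using hk)⟩)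
  obtain ⟨Q, hQ⟩ := hpg.exists_le_sylow
  have hQeq : Q = Classical.arbitrary (Sylow p H) := by
    haveI := Sylow.unique_of_normal (Classical.arbitrary (Sylow p H)) inferInstance
    exact Subsingleton.elim _ _
  refine ⟨⟨h, hh⟩, ?_, rfl⟩
  rw [← hQeq]
  exact hQ (Subgroup.mem_zpowers _)

theorem sylP_ne_bot {H : Subgroup G} (hH : Group.IsNilpotent H) (p : ℕ) [Fact p.Prime]
    (hd : p ∣ Nat.card H) : sylP H p ≠ ⊥ := by
  obtain ⟨x, hx⟩ := exists_prime_orderOf_dvd_card' (G := H) p hd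
  intro h
  have hxP : (x : G) ∈ sylP H p := by
    refine mem_sylP hH p x.2 ⟨1, ?_⟩
    have := pow_orderOf_eq_one x
    rw [hx] at this
    rw [pow_one]
    simpa only [Subgroup.coe_pow, Subgroup.coe_one] using congrArg Subtype.val this
  rw [h, Subgroup.mem_bot] at hxP
  have hx1 : x = 1 := Subtype.ext hxP
  rw [hx1, orderOf_one] at hx
  exact (Fact.out : p.Prime).one_lt.ne hx

theorem conj_sylP {H : Subgroup G} (hH : Group.IsNilpotent H) (p : ℕ) [Fact p.Prime] (c : G)
    (hc : ∀ h ∈ H, c * h * c⁻¹ ∈ H) : ∀ w ∈ sylP H p, c * w * c⁻¹ ∈ sylP H p := by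
  intro w hw
  obtain ⟨k, hk⟩ := pelt_of_mem_sylP H p hw
  exact mem_sylP hH p (hc w (sylP_le H p hw)) ⟨k, by rw [conj_pow, hk, mul_one, mul_inv_cancel]⟩

/-- the centre of the Sylow `p`-subgroup of a nilpotent subgroup is central -/
theorem central_of_sylP {H : Subgroup G} (hH : Group.IsNilpotent H) (p : ℕ) [Fact p.Prime]
    {z : G} (hz : z ∈ sylP H p) (hzc : ∀ w ∈ sylP H p, w * z = z * w) :
    ∀ h ∈ H, h * z = z * h := by
  have hp : p.Prime := Fact.out
  have hzH := sylP_le H p hz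
  have hzp : ∃ k : ℕ, (⟨z, hzH⟩ : H) ^ p ^ k = 1 := by
    obtain ⟨k, hk⟩ := pelt_of_mem_sylP H p hz
    exact ⟨k, Subtype.ext (by simpa only [Subgroup.coe_pow, Subgroup.coe_one] using hk)⟩
  have htop : Subgroup.centralizer ({(⟨z, hzH⟩ : H)} : Set H) = ⊤ := by
    apply eq_top_of_sylow_le
    intro q hq
    by_cases hqp : q = p
    · refine ⟨hqp ▸ Classical.arbitrary (Sylow p H), ?_⟩
      subst hqp
      intro a ha
      rw [Subgroup.mem_centralizer_singleton_iff]
      apply Subtype.ext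
      exact hzc a ⟨a, ha, rfl⟩
    · refine ⟨Classical.arbitrary (Sylow q H), ?_⟩
      intro b hb
      rw [Subgroup.mem_centralizer_singleton_iff]
      have hbq : ∃ k : ℕ, b ^ q ^ k = 1 := by
        obtain ⟨k, hk⟩ := (Classical.arbitrary (Sylow q H)).isPGroup' ⟨b, hb⟩
        exact ⟨k, by simpa only [Subgroup.coe_pow, Subgroup.coe_one] using congrArg Subtype.val hk⟩
      exact nilp_comm hH hq.out hp hqp b ⟨z, hzH⟩ hbq hzp
  intro h hh
  have : (⟨h, hh⟩ : H) ∈ Subgroup.centralizer ({(⟨z, hzH⟩ : H)} : Set H) := by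
    rw [htop]; exact Subgroup.mem_top _
  rw [Subgroup.mem_centralizer_singleton_iff] at this
  exact congrArg Subtype.val this

section CN

variable (hCN : Cfsg.IsCNGroup G) {H : Subgroup G} (hH : Group.IsNilpotent H)
  (hmax : ∀ L : Subgroup G, Group.IsNilpotent L → H ≤ L → L = H)

include hCN hH hmax

/-- the centraliser of a nonidentity element of the centre of a Sylow subgroup of a maximal
nilpotent subgroup `H` of a CN-group is `H` -/
theorem cn_cent_eq (p : ℕ) [Fact p.Prime]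
    {z : G} (hz : z ∈ sylP H p) (hz1 : z ≠ 1) (hzc : ∀ w ∈ sylP H p, w * z = z * w) :
    Subgroup.centralizer ({z} : Set G) = H := by
  apply hmax _ (hCN z hz1)
  intro h hh
  exact Subgroup.mem_centralizer_singleton_iff.mpr (central_of_sylP hH p hz hzc h hh)

/-- the Sylow subgroups of a maximal nilpotent subgroup of a CN-group are maximal
`p`-subgroups -/
theorem cn_lemK (p : ℕ) [Fact p.Prime] (hP1 : sylP H p ≠ ⊥) (R : Subgroup G)
    (hR : IsPGroup p R) (hPR : sylP H p ≤ R) : R ≤ sylP H p := by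
  by_contra hnot
  haveI : Group.IsNilpotent R := hR.isNilpotent
  have hlt : (sylP H p).subgroupOf R < ⊤ :=
    lt_top_iff_ne_top.mpr (fun h => hnot (Subgroup.subgroupOf_eq_top.mp h))
  have hnc := Group.normalizerCondition_of_isNilpotent (G := R) _ hlt
  obtain ⟨u', hu'n, hu'P⟩ := SetLike.exists_of_lt hnc
  have huP : (u' : G) ∉ sylP H p := fun h => hu'P (Subgroup.mem_subgroupOf.mpr h)
  have hnorm : ∀ w ∈ sylP H p, (u' : G) * w * (u' : G)⁻¹ ∈ sylP H p := by
    intro w hw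
    have := (Subgroup.mem_normalizer_iff.mp hu'n ⟨w, hPR hw⟩).mp (Subgroup.mem_subgroupOf.mpr hw)
    exact Subgroup.mem_subgroupOf.mp this
  have hup : ∃ k : ℕ, (u' : G) ^ p ^ k = 1 := by
    obtain ⟨k, hk⟩ := hR u'
    exact ⟨k, by simpa only [Subgroup.coe_pow, Subgroup.coe_one] using congrArg Subtype.val hk⟩
  obtain ⟨z, hz, hz1, huz, hzc⟩ :=
    exists_central_fixed p (sylP H p) (sylP_isPGroup H p) hP1 u' hup hnorm
  have hcent := cn_cent_eq hCN hH hmax p hz hz1 hzc
  have huH : (u' : G) ∈ H := by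
    rw [← hcent]; exact Subgroup.mem_centralizer_singleton_iff.mpr huz
  exact huP (mem_sylP hH p huH hup)

/-- a maximal nilpotent subgroup of a CN-group is a Hall subgroup -/
theorem cn_max_hall : (Nat.card H).Coprime H.index := by
  refine Nat.coprime_of_dvd ?_
  intro p hp hpH hpI
  haveI := Fact.mk hp
  have hP1 := sylP_ne_bot hH p hpH
  obtain ⟨Pst, hPst⟩ := (sylP_isPGroup H p).exists_le_sylow
  have hle := cn_lemK hCN hH hmax p hP1 Pst Pst.isPGroup' hPst
  exact (Sylow.not_dvd_index Pst)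
    (dvd_trans hpI (Subgroup.index_dvd_of_le (hle.trans (sylP_le H p))))

end CN

end Cfsg.Agent.Lib.Helper12
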