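import Mathlib
import Cfsg.Prelude.Def_OddOrderChar
import Cfsg.Agent.Lib.Helper12.GenChar

set_option autoImplicit false

namespace Cfsg.Agent.Lib.Helper12

open Cfsg.Agent.Lib.Helper2
open scoped ComplexConjugate

variable {G : Type*} [Group G]

theorem conjFun_apply (χ : G → ℂ) (g : G) : Cfsg.conjFun χ g = conj (χ g) := rfl

theorem conjFun_conjFun (χ : G → ℂ) : Cfsg.conjFun (Cfsg.conjFun χ) = χ := by
  funext g
  simp [conjFun_apply]

theorem classInner_conjFun_conjFun [Fintype G] (a b : G → ℂ) :
    Cfsg.classInner (Cfsg.conjFun a) (Cfsg.conjFun b) = conj (Cfsg.classInner a b) := by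
  simp only [classInner_def, conjFun_apply, map_mul, map_inv₀, map_sum, Complex.conj_natCast,
    Complex.conj_conj]

theorem classInner_conjFun_left [Fintype G] (a b : G → ℂ) :
    Cfsg.classInner (Cfsg.conjFun a) b = conj (Cfsg.classInner a (Cfsg.conjFun b)) := by
  rw [← classInner_conjFun_conjFun, conjFun_conjFun]

/-- the value at `1` of an irreducible character is fixed by complex conjugation -/
theorem irr_conj_apply_one {χ : G → ℂ} (h : Cfsg.IsIrrCharacter G χ) :
    Cfsg.conjFun χ 1 = χ 1 := by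
  obtain ⟨n, -, hn⟩ := irr_apply_one h
  rw [conjFun_apply, hn, Complex.conj_natCast]

theorem char_conj_apply_one {χ : G → ℂ} (h : Cfsg.IsCharacter G χ) :
    Cfsg.conjFun χ 1 = χ 1 := by
  obtain ⟨n, hn⟩ := char_apply_one h
  rw [conjFun_apply, hn, Complex.conj_natCast]

/-- an irreducible character is never the negative of an irreducible character -/
theorem irr_ne_neg_irr {μ ν : G → ℂ} (hμ : Cfsg.IsIrrCharacter G μ)
    (hν : Cfsg.IsIrrCharacter G ν) : μ ≠ -ν := by
  intro h
  obtain ⟨n, hn, hn'⟩ := irr_apply_one hμ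
  obtain ⟨m, hm, hm'⟩ := irr_apply_one hν
  have := congrFun h 1
  rw [Pi.neg_apply, hn', hm'] at this
  have h2 : ((n + m : ℕ) : ℂ) = 0 := by
    push_cast
    linear_combination this
  have h3 : n + m = 0 := by exact_mod_cast h2
  omega

end Cfsg.Agent.Lib.Helper12
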