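import Mathlib

/-!
Helper lemmas (helper12): a two-generator `p`-group (`p` odd) of the shape `⟨a⟩⟨b⟩` with
`⟨a⟩` normalised by `b`, all of whose commutators are central of order dividing `p`, cannot be
generated by the elements `β u β⁻¹ u⁻¹` for a coprime group of automorphisms unless it is abelian.
-/

set_option autoImplicit false

namespace Cfsg.Agent.Lib.Helper12.MetaCop

open scoped commutatorElement

section Class2

variable {S : Type*} [Group S]

/-- right linearity of the commutator when commutators are central -/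
theorem comm_mul_right (hcen : ∀ x y w : S, ⁅x, y⁆ * w = w * ⁅x, y⁆) (x u v : S) :
    ⁅x, u * v⁆ = ⁅x, u⁆ * ⁅x, v⁆ := by
  have h := hcen x v u
  have e : ⁅x, u * v⁆ = ⁅x, u⁆ * (u * ⁅x, v⁆ * u⁻¹) := by
    simp only [commutatorElement_def]; group
  rw [e, ← h, mul_inv_cancel_right]

/-- left linearity of the commutator when commutators are central -/
theorem comm_mul_left (hcen : ∀ x y w : S, ⁅x, y⁆ * w = w * ⁅x, y⁆) (x y u : S) :
    ⁅x * y, u⁆ = ⁅x, u⁆ * ⁅y, u⁆ := by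
  have h := hcen y u x
  have e : ⁅x * y, u⁆ = (x * ⁅y, u⁆ * x⁻¹) * ⁅x, u⁆ := by
    simp only [commutatorElement_def]; group
  rw [e, ← h, mul_inv_cancel_right, hcen y u]

/-- `u ↦ ⁅x, u⁆` as a homomorphism -/
def cr (hcen : ∀ x y w : S, ⁅x, y⁆ * w = w * ⁅x, y⁆) (x : S) : S →* S where
  toFun u := ⁅x, u⁆
  map_one' := by simp
  map_mul' u v := comm_mul_right hcen x u v

/-- `x ↦ ⁅x, u⁆` as a homomorphism -/
def cl (hcen : ∀ x y w : S, ⁅x, y⁆ * w = w * ⁅x, y⁆) (u : S) : S →* S where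
  toFun x := ⁅x, u⁆
  map_one' := by simp
  map_mul' x y := comm_mul_left hcen x y u

theorem cr_apply (hcen : ∀ x y w : S, ⁅x, y⁆ * w = w * ⁅x, y⁆) (x u : S) :
    cr hcen x u = ⁅x, u⁆ := rfl

theorem cl_apply (hcen : ∀ x y w : S, ⁅x, y⁆ * w = w * ⁅x, y⁆) (u x : S) :
    cl hcen u x = ⁅x, u⁆ := rfl

theorem comm_zpow_right (hcen : ∀ x y w : S, ⁅x, y⁆ * w = w * ⁅x, y⁆) (x u : S) (i : ℤ) :
    ⁅x, u ^ i⁆ = ⁅x, u⁆ ^ i := by
  have := map_zpow (cr hcen x) u i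
  simpa only [cr_apply] using this

theorem comm_zpow_left (hcen : ∀ x y w : S, ⁅x, y⁆ * w = w * ⁅x, y⁆) (x u : S) (i : ℤ) :
    ⁅x ^ i, u⁆ = ⁅x, u⁆ ^ i := by
  have := map_zpow (cl hcen u) x i
  simpa only [cl_apply] using this

theorem comm_inv_left (hcen : ∀ x y w : S, ⁅x, y⁆ * w = w * ⁅x, y⁆) (x u : S) :
    ⁅x⁻¹, u⁆ = ⁅x, u⁆⁻¹ := by
  have := map_inv (cl hcen u) x
  simpa only [cl_apply] using this

theorem comm_pow_left (hcen : ∀ x y w : S, ⁅x, y⁆ * w = w * ⁅x, y⁆) (x u : S) (n : ℕ) :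
    ⁅x ^ n, u⁆ = ⁅x, u⁆ ^ n := by
  have := map_pow (cl hcen u) x n
  simpa only [cl_apply] using this

theorem pow_aux (X Y x y zn zs : S) (h1 : ∀ w, zn * w = w * zn) (h2 : ∀ w, zs * w = w * zs)
    (h3 : Y * x = zn * x * Y) : X * Y * zs * (x * y) = X * x * (Y * y) * (zs * zn) := by
  calc X * Y * zs * (x * y) = X * (Y * x) * y * zs := by
        rw [mul_assoc (X * Y), h2]; group
    _ = X * (zn * x * Y) * y * zs := by rw [h3]
    _ = zn * (X * x * (Y * y)) * zs := by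
        rw [← mul_assoc X, ← mul_assoc X, ← h1 X]; group
    _ = X * x * (Y * y) * (zs * zn) := by
        rw [h1, mul_assoc, ← h2 zn]

/-- the power formula in class two -/
theorem mul_pow_class2 (hcen : ∀ x y w : S, ⁅x, y⁆ * w = w * ⁅x, y⁆) (x y : S) (n : ℕ) :
    (x * y) ^ n = x ^ n * y ^ n * ⁅y, x⁆ ^ (∑ i ∈ Finset.range n, i) := by
  induction n with
  | zero => simp
  | succ n ih =>
    have h1 : y ^ n * x = ⁅y, x⁆ ^ n * x * y ^ n := by
      have := comm_pow_left hcen y x n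
      rw [← this]
      simp only [commutatorElement_def]; group
    have hz : ∀ (m : ℕ) (w : S), ⁅y, x⁆ ^ m * w = w * ⁅y, x⁆ ^ m := by
      intro m w
      exact ((Commute.pow_left (hcen y x w) m)).eq
    rw [pow_succ (x * y) n, ih, pow_succ x n, pow_succ y n, Finset.sum_range_succ, pow_add]
    exact pow_aux _ _ _ _ _ _ (hz n) (hz _) h1

/-- `p`-divisible powers are multiplicative -/
theorem mul_pow_of_dvd (hcen : ∀ x y w : S, ⁅x, y⁆ * w = w * ⁅x, y⁆) {p : ℕ} (hp : p.Prime)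
    (hp2 : p ≠ 2) (hexp : ∀ x y : S, ⁅x, y⁆ ^ p = 1) (n : ℕ) (hn : p ∣ n) (x y : S) :
    (x * y) ^ n = x ^ n * y ^ n := by
  rw [mul_pow_class2 hcen]
  have h1 : p ∣ ∑ i ∈ Finset.range n, i := by
    have h2 : p ∣ (∑ i ∈ Finset.range n, i) * 2 := by
      rw [Finset.sum_range_id_mul_two]; exact dvd_mul_of_dvd_left hn _
    have h3 : Nat.Coprime p 2 := (Nat.coprime_primes hp Nat.prime_two).mpr hp2
    exact h3.dvd_of_dvd_mul_right h2
  obtain ⟨m, hm⟩ := h1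
  rw [hm, pow_mul, hexp, one_pow, mul_one]

/-- the `n`-th power map as a homomorphism, `p ∣ n` -/
def pw (hcen : ∀ x y w : S, ⁅x, y⁆ * w = w * ⁅x, y⁆) {p : ℕ} (hp : p.Prime)
    (hp2 : p ≠ 2) (hexp : ∀ x y : S, ⁅x, y⁆ ^ p = 1) (n : ℕ) (hn : p ∣ n) : S →* S where
  toFun x := x ^ n
  map_one' := one_pow n
  map_mul' x y := mul_pow_of_dvd hcen hp hp2 hexp n hn x y

theorem pw_apply (hcen : ∀ x y w : S, ⁅x, y⁆ * w = w * ⁅x, y⁆) {p : ℕ} (hp : p.Prime)
    (hp2 : p ≠ 2) (hexp : ∀ x y : S, ⁅x, y⁆ ^ p = 1) (n : ℕ) (hn : p ∣ n) (x : S) :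
    pw hcen hp hp2 hexp n hn x = x ^ n := rfl

end Class2

section Key2

variable {S : Type*} [Group S] [Finite S] {B : Type*} [Group B] [Finite B]

open scoped IsMulCommutative in
/-- The class-two case: a `p`-group `S = ⟨a⟩⟨b⟩` (`p` odd) with central commutators of exponent `p`
that is generated by the elements `β u β⁻¹ u⁻¹` for a coprime automorphism group is abelian. -/
theorem key2 (p : ℕ) [hpf : Fact p.Prime] (hp2 : p ≠ 2)
    (hS : IsPGroup p S) (ψ : B →* MulAut S) (hcop : (Nat.card B).Coprime p)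
    (hgen : ∀ L : Subgroup S, (∀ (β : B) (u : S), ψ β u * u⁻¹ ∈ L) → L = ⊤)
    (a b : S) (hab : b * a * b⁻¹ ∈ Subgroup.zpowers a)
    (hdec : ∀ s : S, ∃ i j : ℤ, s = a ^ i * b ^ j)
    (hcen : ∀ x y w : S, ⁅x, y⁆ * w = w * ⁅x, y⁆) (hexp : ∀ x y : S, ⁅x, y⁆ ^ p = 1) :
    ∀ x y : S, x * y = y * x := by
  classical
  have hp : p.Prime := hpf.out
  by_contra hcon
  obtain ⟨c, hc⟩ : ∃ c : S, c = ⁅b, a⁆ := ⟨_, rfl⟩
  have hA6' : ∀ i j k l : ℤ, ⁅a ^ i * b ^ j, a ^ k * b ^ l⁆ = c ^ (j * k - i * l) := by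
    intro i j k l
    rw [comm_mul_left hcen, comm_zpow_left hcen, comm_zpow_left hcen, comm_mul_right hcen,
      comm_mul_right hcen, comm_zpow_right hcen, comm_zpow_right hcen, comm_zpow_right hcen,
      comm_zpow_right hcen, commutatorElement_self, commutatorElement_self, one_zpow, one_zpow,
      one_mul, mul_one, ← commutatorElement_inv b a, ← hc]
    rw [inv_zpow, ← zpow_neg, ← zpow_mul, ← zpow_mul, ← zpow_add]
    congr 1; ring
  have hA6 : ∀ x y : S, ∃ e : ℤ, ⁅x, y⁆ = c ^ e := by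
    intro x y
    obtain ⟨i, j, rfl⟩ := hdec x
    obtain ⟨k, l, rfl⟩ := hdec y
    exact ⟨_, hA6' i j k l⟩
  have hc1 : c ≠ 1 := by
    intro h
    apply hcon
    intro x y
    obtain ⟨e, he⟩ := hA6 x y
    rw [h, one_zpow] at he
    exact commutatorElement_eq_one_iff_mul_comm.mp he
  have hcp : c ^ p = 1 := by rw [hc]; exact hexp b a
  have hord : orderOf c = p := orderOf_eq_prime hcp hc1
  have hcz : ∀ e : ℤ, c ^ e = 1 ↔ (p : ℤ) ∣ e := by
    intro e
    rw [← orderOf_dvd_iff_zpow_eq_one, hord]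
  have hpi : Prime (p : ℤ) := Nat.prime_iff_prime_int.mp hp
  have hccen : ∀ w : S, c * w = w * c := fun w => by rw [hc]; exact hcen b a w
  have hcenter : ∀ z : S, (∀ w : S, ⁅z, w⁆ = 1) → z ∈ Subgroup.center S := by
    intro z hz
    rw [Subgroup.mem_center_iff]
    intro g
    exact (commutatorElement_eq_one_iff_mul_comm.mp (hz g)).symm
  have hcenter' : ∀ z : S, z ∈ Subgroup.center S → ∀ w : S, ⁅z, w⁆ = 1 ∧ ⁅w, z⁆ = 1 := by
    intro z hz w
    rw [Subgroup.mem_center_iff] at hz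
    exact ⟨commutatorElement_eq_one_iff_mul_comm.mpr (hz w).symm,
      commutatorElement_eq_one_iff_mul_comm.mpr (hz w)⟩
  -- `c` is a power of `a`
  obtain ⟨t, ht⟩ := Subgroup.mem_zpowers_iff.mp hab
  have hca : c = a ^ (t - 1) := by
    rw [hc, commutatorElement_def, ← ht, zpow_sub_one]
  have hk1 : ∃ k : ℕ, 1 ≤ k ∧ ∃ x : S, x ^ (p ^ k) = c := by
    by_cases hdv : (p : ℤ) ∣ t - 1
    · obtain ⟨e1, he1⟩ := hdv
      refine ⟨1, le_refl 1, a ^ e1, ?_⟩
      rw [pow_one, hca, he1, ← zpow_natCast, ← zpow_mul, mul_comm]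
    · exfalso
      obtain ⟨m, hm⟩ := hS a
      have hcop1 : IsCoprime (t - 1) ((p : ℤ) ^ m) := by
        apply IsCoprime.pow_right
        exact (hpi.coprime_iff_not_dvd.mpr hdv).symm
      obtain ⟨u, v, huv⟩ := hcop1
      have e1 : a ^ ((p : ℤ) ^ m) = 1 := by rw [← Nat.cast_pow, zpow_natCast, hm]
      have ha : a = c ^ u := by
        have h1 : a ^ (u * (t - 1) + v * (p : ℤ) ^ m) = a := by rw [huv, zpow_one]
        rw [zpow_add, zpow_mul' a u (t - 1), ← hca, zpow_mul' a v, e1, one_zpow, mul_one] at h1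
        exact h1.symm
      have hacen : ∀ w : S, a * w = w * a := by
        intro w; rw [ha]; exact ((Commute.zpow_left (hccen w) u)).eq
      apply hc1
      rw [hc, commutatorElement_def, ← hacen b]; group
  obtain ⟨N, hN⟩ : ∃ N : ℕ, ∀ x : S, x ^ (p ^ N) = 1 := by
    obtain ⟨N, hN⟩ := (IsPGroup.iff_card.mp hS)
    exact ⟨N, fun x => by rw [← hN]; exact pow_card_eq_one'⟩
  have hkmax : ∃ k : ℕ, 1 ≤ k ∧ (∃ x : S, x ^ (p ^ k) = c) ∧ ∀ w : S, w ^ (p ^ (k + 1)) ≠ c := by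
    by_contra hno
    push Not at hno
    obtain ⟨k1, hk1a, hk1b⟩ := hk1
    have hall : ∀ k : ℕ, k1 ≤ k → ∃ x : S, x ^ (p ^ k) = c := by
      intro k hk
      induction k, hk using Nat.le_induction with
      | base => exact hk1b
      | succ k hk ih => exact hno k (le_trans hk1a hk) ih
    obtain ⟨x, hx⟩ := hall (max k1 N) (le_max_left _ _)
    apply hc1
    rw [← hx]
    obtain ⟨d, hd⟩ : p ^ N ∣ p ^ (max k1 N) := pow_dvd_pow p (le_max_right _ _)
    rw [hd, pow_mul, hN, one_pow]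
  obtain ⟨k, hk1', ⟨x₀, hx₀⟩, hmax⟩ := hkmax
  have hn : p ∣ p ^ k := dvd_pow_self p (by omega)
  obtain ⟨P, hP⟩ : ∃ P : S →* S, ∀ x : S, P x = x ^ (p ^ k) :=
    ⟨pw hcen hp hp2 hexp (p ^ k) hn, fun x => rfl⟩
  have hPx₀ : P x₀ = c := by rw [hP, hx₀]
  have hmaxP : ∀ w : S, P (w ^ p) ≠ c := by
    intro w
    rw [hP, ← pow_mul, ← pow_succ']
    exact hmax w
  have hZpow : ∀ z ∈ Subgroup.center S, ∃ w : S, z = w ^ p := by
    intro z hz
    obtain ⟨i, j, rfl⟩ := hdec z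
    have h1 := (hcenter' _ hz a).1
    have h2 := (hcenter' _ hz b).1
    have e1 : ⁅a ^ i * b ^ j, a⁆ = c ^ (j * 1 - i * 0) := by
      have := hA6' i j 1 0
      rwa [zpow_one, zpow_zero, mul_one] at this
    have e2 : ⁅a ^ i * b ^ j, b⁆ = c ^ (j * 0 - i * 1) := by
      have := hA6' i j 0 1
      rwa [zpow_zero, zpow_one, one_mul] at this
    rw [e1, hcz] at h1
    rw [e2, hcz] at h2
    have hj : (p : ℤ) ∣ j := by simpa using h1
    have hi : (p : ℤ) ∣ i := by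
      have : (p:ℤ) ∣ -i := by simpa using h2
      exact (dvd_neg.mp this)
    obtain ⟨i', rfl⟩ := hi
    obtain ⟨j', rfl⟩ := hj
    refine ⟨a ^ i' * b ^ j', ?_⟩
    rw [mul_pow_of_dvd hcen hp hp2 hexp p dvd_rfl, ← zpow_natCast, ← zpow_natCast, ← zpow_mul,
      ← zpow_mul, mul_comm i', mul_comm j']
  have hS1 : ∀ ω z : S, P ω = 1 → z ∈ Subgroup.center S → P (ω * z) ≠ c := by
    intro ω z hω hz
    obtain ⟨w, rfl⟩ := hZpow z hz
    rw [map_mul, hω, one_mul]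
    exact hmaxP w
  have hdim2 : ∀ u₁ u₂ z : S, ⁅u₁, u₂⁆ ≠ 1 → ⁅z, u₁⁆ = 1 → ⁅z, u₂⁆ = 1 →
      z ∈ Subgroup.center S := by
    intro u₁ u₂ z h12 h1 h2
    obtain ⟨i₁, j₁, rfl⟩ := hdec u₁
    obtain ⟨i₂, j₂, rfl⟩ := hdec u₂
    obtain ⟨i, j, rfl⟩ := hdec z
    rw [hA6', Ne, hcz] at h12
    rw [hA6', hcz] at h1 h2
    have hi : (p : ℤ) ∣ i := by
      have h3 : (p : ℤ) ∣ i * (j₁ * i₂ - i₁ * j₂) := by
        have : i * (j₁ * i₂ - i₁ * j₂) = i₁ * (j * i₂ - i * j₂) - i₂ * (j * i₁ - i * j₁) := by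
          ring
        rw [this]
        exact dvd_sub (dvd_mul_of_dvd_right h2 _) (dvd_mul_of_dvd_right h1 _)
      exact (hpi.dvd_or_dvd h3).resolve_right h12
    have hj : (p : ℤ) ∣ j := by
      have h3 : (p : ℤ) ∣ j * (j₁ * i₂ - i₁ * j₂) := by
        have : j * (j₁ * i₂ - i₁ * j₂) = j₁ * (j * i₂ - i * j₂) - j₂ * (j * i₁ - i * j₁) := by
          ring
        rw [this]
        exact dvd_sub (dvd_mul_of_dvd_right h2 _) (dvd_mul_of_dvd_right h1 _)
      exact (hpi.dvd_or_dvd h3).resolve_right h12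
    apply hcenter
    intro w
    obtain ⟨k, l, rfl⟩ := hdec w
    rw [hA6', hcz]
    exact dvd_sub (dvd_mul_of_dvd_left hj _) (dvd_mul_of_dvd_left hi _)
  have hdec2 : ∀ u₁ u₂ u : S, ⁅u₁, u₂⁆ ≠ 1 →
      ∃ s t : ℤ, ∃ z ∈ Subgroup.center S, u = u₁ ^ s * u₂ ^ t * z := by
    intro u₁ u₂ u h12
    obtain ⟨D, hD⟩ := hA6 u₁ u₂
    obtain ⟨α, hα⟩ := hA6 u u₂
    obtain ⟨β, hβ⟩ := hA6 u u₁
    have hDp : ¬ (p : ℤ) ∣ D := by rw [← hcz, ← hD]; exact h12
    obtain ⟨m, D', hDD⟩ := (hpi.coprime_iff_not_dvd.mpr hDp)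
    refine ⟨α * D', -β * D', (u₁ ^ (α * D') * u₂ ^ (-β * D'))⁻¹ * u, ?_, by group⟩
    apply hdim2 u₁ u₂ _ h12
    · rw [comm_mul_left hcen, comm_inv_left hcen, comm_mul_left hcen, comm_zpow_left hcen,
        comm_zpow_left hcen, commutatorElement_self, one_zpow, one_mul,
        ← commutatorElement_inv u₁ u₂, hD, hβ]
      rw [inv_zpow, ← zpow_neg, ← zpow_mul, ← zpow_neg, ← zpow_add, hcz]
      exact ⟨β * m, by linear_combination (-β) * hDD⟩
    · rw [comm_mul_left hcen, comm_inv_left hcen, comm_mul_left hcen, comm_zpow_left hcen,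
        comm_zpow_left hcen, commutatorElement_self, one_zpow, mul_one, hD, hα]
      rw [← zpow_mul, ← zpow_neg, ← zpow_add, hcz]
      exact ⟨α * m, by linear_combination (-α) * hDD⟩
  have hΩab : ∀ ω₁ ω₂ : S, P ω₁ = 1 → P ω₂ = 1 → ⁅ω₁, ω₂⁆ = 1 := by
    intro ω₁ ω₂ h1 h2
    by_contra h12
    obtain ⟨s, t, z, hz, hx⟩ := hdec2 ω₁ ω₂ x₀ h12
    apply hS1 (ω₁ ^ s * ω₂ ^ t) z _ hz
    · rw [← hx]; exact hPx₀
    · rw [map_mul, map_zpow, map_zpow, h1, h2, one_zpow, one_zpow, one_mul]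
  have hψc : ∀ β : B, ∃ i : ℤ, ¬ (p : ℤ) ∣ i ∧ ψ β c = c ^ i ∧
      ∀ x y : S, ψ β ⁅x, y⁆ = ⁅x, y⁆ ^ i := by
    intro β
    obtain ⟨i, hi⟩ := hA6 (ψ β b) (ψ β a)
    have hi' : ψ β c = c ^ i := by rw [hc, map_commutatorElement, ← hc]; exact hi
    refine ⟨i, ?_, hi', ?_⟩
    · intro hdv
      rw [← hcz] at hdv
      rw [hdv] at hi'
      apply hc1
      exact (ψ β).injective (by rw [hi', map_one])
    · intro x y
      obtain ⟨e, he⟩ := hA6 x y
      rw [he, map_zpow, hi', ← zpow_mul, ← zpow_mul, mul_comm]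
  have hψP : ∀ (β : B) (x : S), P (ψ β x) = ψ β (P x) := by
    intro β x
    rw [hP, hP, map_pow]
  have hcan : ∀ (x y x' y' : S) (i : ℤ), ¬ (p : ℤ) ∣ i → ⁅x, y⁆ ^ i = ⁅x', y'⁆ ^ i →
      ⁅x, y⁆ = ⁅x', y'⁆ := by
    intro x y x' y' i hi h
    obtain ⟨e₁, he₁⟩ := hA6 x y
    obtain ⟨e₂, he₂⟩ := hA6 x' y'
    rw [he₁, he₂, ← zpow_mul, ← zpow_mul] at h
    have h3 : c ^ (e₁ * i - e₂ * i) = 1 := by rw [zpow_sub, h, mul_inv_cancel]
    rw [hcz, ← sub_mul] at h3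
    have h4 := (hpi.dvd_or_dvd h3).resolve_right hi
    rw [← hcz, zpow_sub, mul_inv_eq_one] at h4
    rw [he₁, he₂, h4]
  have hB1 : ∀ (β : B) (i : ℤ), ψ β c = c ^ i → ∃ ω : S, P ω = 1 ∧ ψ β x₀ = x₀ ^ i * ω := by
    intro β i hi
    refine ⟨(x₀ ^ i)⁻¹ * ψ β x₀, ?_, by group⟩
    rw [map_mul, map_inv, map_zpow, hψP, hPx₀, hi]
    exact inv_mul_cancel _
  by_cases hΩZ : ∀ ω : S, P ω = 1 → ω ∈ Subgroup.center S
  · have hinv : ∀ (β : B) (u : S), ⁅x₀, ψ β u⁆ = ⁅x₀, u⁆ := by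
      intro β u
      obtain ⟨i, hi1, hi3, hi2⟩ := hψc β
      obtain ⟨ω, hω1, hω2⟩ := hB1 β i hi3
      apply hcan _ _ _ _ i hi1
      have h1 := hi2 x₀ u
      rw [map_commutatorElement, hω2, comm_mul_left hcen, comm_zpow_left hcen,
        (hcenter' ω (hΩZ ω hω1) _).1, mul_one] at h1
      exact h1
    have hL := hgen (cr hcen x₀).ker (by
      intro β u
      rw [MonoidHom.mem_ker, map_mul, map_inv, cr_apply, cr_apply, hinv, mul_inv_cancel])
    have hx₀Z : x₀ ∈ Subgroup.center S := by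
      apply hcenter
      intro w
      have : w ∈ (cr hcen x₀).ker := by rw [hL]; exact Subgroup.mem_top w
      exact this
    exact hS1 1 x₀ (map_one P) hx₀Z (by rw [one_mul]; exact hPx₀)
  · push Not at hΩZ
    obtain ⟨ω₀, hω₀, hω₀Z⟩ := hΩZ
    have hII1 : ⁅ω₀, x₀⁆ ≠ 1 := by
      intro h
      have : ∃ y : S, ⁅ω₀, y⁆ ≠ 1 := by
        by_contra hno
        push Not at hno
        exact hω₀Z (hcenter ω₀ hno)
      obtain ⟨y, hy⟩ := this
      obtain ⟨s, t, z, hz, hx⟩ := hdec2 ω₀ y x₀ hy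
      rw [hx, comm_mul_right hcen, comm_mul_right hcen, comm_zpow_right hcen,
        comm_zpow_right hcen, commutatorElement_self, one_zpow, one_mul,
        (hcenter' z hz ω₀).2, mul_one] at h
      obtain ⟨e, he⟩ := hA6 ω₀ y
      rw [he] at hy h
      rw [← zpow_mul, hcz] at h
      have he' : ¬ (p:ℤ) ∣ e := by rw [← hcz]; exact hy
      obtain ⟨t', rfl⟩ := (hpi.dvd_or_dvd h).resolve_left he'
      have hyc : y ^ ((p:ℤ) * t') ∈ Subgroup.center S := by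
        apply hcenter
        intro w
        rw [comm_zpow_left hcen, mul_comm, zpow_mul, zpow_natCast, ← comm_zpow_left hcen, hexp]
      apply hS1 (ω₀ ^ s) (y ^ ((p:ℤ) * t') * z) _ (Subgroup.mul_mem _ hyc hz)
      · rw [← mul_assoc, ← hx]; exact hPx₀
      · rw [map_zpow, hω₀, one_zpow]
    have hII2 : ∀ β : B, ψ β ω₀ * ω₀⁻¹ ∈ Subgroup.center S := by
      intro β
      obtain ⟨i, hi1, hi3, hi2⟩ := hψc β
      obtain ⟨ω, hω1, hω2⟩ := hB1 β i hi3
      have hPψ : P (ψ β ω₀) = 1 := by rw [hψP, hω₀, map_one]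
      apply hdim2 ω₀ x₀ _ hII1
      · rw [comm_mul_left hcen, comm_inv_left hcen, commutatorElement_self, inv_one, mul_one]
        exact hΩab _ _ hPψ hω₀
      · rw [comm_mul_left hcen, comm_inv_left hcen]
        have h1 : ⁅ψ β ω₀, x₀⁆ = ⁅ω₀, x₀⁆ := by
          apply hcan _ _ _ _ i hi1
          have h2 := hi2 ω₀ x₀
          rw [map_commutatorElement, hω2, comm_mul_right hcen, comm_zpow_right hcen,
            hΩab _ _ hPψ hω1, mul_one] at h2
          exact h2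
        rw [h1, mul_inv_cancel]
    obtain ⟨y, hy⟩ : ∃ y : S, ⁅y, ω₀⁆ ≠ 1 := by
      by_contra hno
      push Not at hno
      apply hω₀Z
      apply hcenter
      intro w
      rw [← commutatorElement_inv, hno w, inv_one]
    have : Fintype B := Fintype.ofFinite B
    let cz : S →* Subgroup.center S := (cr hcen y).codRestrict (Subgroup.center S) (fun u => by
      rw [cr_apply, Subgroup.mem_center_iff]; intro g; exact (hcen y u g).symm)
    have hczv : ∀ u : S, ((cz u : Subgroup.center S) : S) = ⁅y, u⁆ := fun u => rfl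
    let Λ : S →* Subgroup.center S := ∏ β : B, cz.comp (ψ β).toMonoidHom
    have hΛ : ∀ u : S, Λ u = ∏ β : B, cz (ψ β u) := by
      intro u
      simp only [Λ, MonoidHom.finsetProd_apply]
      rfl
    have hΛinv : ∀ (β₀ : B) (u : S), Λ (ψ β₀ u) = Λ u := by
      intro β₀ u
      rw [hΛ, hΛ]
      refine Fintype.prod_equiv (Equiv.mulRight β₀) _ _ (fun β => ?_)
      simp only [Equiv.coe_mulRight, map_mul, MulAut.mul_apply]
    have hL := hgen Λ.ker (by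
      intro β u
      rw [MonoidHom.mem_ker, map_mul, map_inv, hΛinv, mul_inv_cancel])
    have hΛω : Λ ω₀ = 1 := by
      have : ω₀ ∈ Λ.ker := by rw [hL]; exact Subgroup.mem_top _
      exact this
    have hterm : ∀ β : B, cz (ψ β ω₀) = cz ω₀ := by
      intro β
      have : ψ β ω₀ = (ψ β ω₀ * ω₀⁻¹) * ω₀ := by group
      rw [this, map_mul]
      have h1 : cz (ψ β ω₀ * ω₀⁻¹) = 1 := by
        apply Subtype.ext
        exact (hcenter' _ (hII2 β) y).2
      rw [h1, one_mul]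
    rw [hΛ] at hΛω
    simp only [hterm, Finset.prod_const, Finset.card_univ] at hΛω
    have h5 : ⁅y, ω₀⁆ ^ Nat.card B = 1 := by
      have := congrArg Subtype.val hΛω
      rw [Nat.card_eq_fintype_card, ← hczv]
      simpa using this
    have h6 : orderOf ⁅y, ω₀⁆ ∣ Nat.card B := orderOf_dvd_of_pow_eq_one h5
    have h7 : orderOf ⁅y, ω₀⁆ ∣ p := orderOf_dvd_of_pow_eq_one (hexp y ω₀)
    have h8 : orderOf ⁅y, ω₀⁆ = 1 := Nat.eq_one_of_dvd_coprimes hcop h6 h7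
    exact hy (orderOf_eq_one_iff.mp h8)

end Key2

end Cfsg.Agent.Lib.Helper12.MetaCop
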