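import Mathlib
import Cfsg.Agent.Lib.Helper12.CN

set_option autoImplicit false
set_option linter.style.haveILetI false

namespace Cfsg.Agent.Lib.Helper12

/-- in a nilpotent group, a maximal normal abelian subgroup is self-centralising -/
theorem centralizer_eq_of_max_normal_abelian {R : Type*} [Group R] [Group.IsNilpotent R]
    (A : Subgroup R) [A.Normal] (hAc : ∀ a ∈ A, ∀ b ∈ A, a * b = b * a)
    (hmax : ∀ B : Subgroup R, B.Normal → (∀ a ∈ B, ∀ b ∈ B, a * b = b * a) → A ≤ B → B = A) :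
    Subgroup.centralizer (A : Set R) = A := by
  have hle : A ≤ Subgroup.centralizer (A : Set R) := by
    intro a ha
    rw [Subgroup.mem_centralizer_iff]
    intro b hb
    exact hAc b hb a ha
  by_contra hne
  have hN1 : (Subgroup.centralizer (A : Set R)).map (QuotientGroup.mk' A) ≠ ⊥ := by
    intro h
    apply hne
    refine le_antisymm ?_ hle
    intro x hx
    have : (QuotientGroup.mk' A) x ∈ (Subgroup.centralizer (A : Set R)).map (QuotientGroup.mk' A) :=
      ⟨x, hx, rfl⟩
    rw [h, Subgroup.mem_bot] at this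
    exact (QuotientGroup.eq_one_iff x).mp this
  haveI : ((Subgroup.centralizer (A : Set R)).map (QuotientGroup.mk' A)).Normal :=
    Subgroup.Normal.map inferInstance _ (QuotientGroup.mk'_surjective A)
  have hcen := normal_inf_center_ne_bot' _ hN1
  obtain ⟨y, hy, hy1⟩ : ∃ y ∈ (Subgroup.centralizer (A : Set R)).map (QuotientGroup.mk' A) ⊓
      Subgroup.center (R ⧸ A), y ≠ 1 := by
    by_contra hcon
    exact hcen ((Subgroup.eq_bot_iff_forall _).mpr
      (fun t ht => by_contra (fun h1 => hcon ⟨t, ht, h1⟩)))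
  obtain ⟨hyN, hyZ⟩ := Subgroup.mem_inf.mp hy
  obtain ⟨x, hxC, hxy⟩ := hyN
  have hxA : x ∉ A := by
    intro h
    apply hy1
    rw [← hxy]
    exact (QuotientGroup.eq_one_iff x).mpr h
  haveI hzn : (Subgroup.zpowers y).Normal := by
    constructor
    intro n hn g
    have hnZ : n ∈ Subgroup.center (R ⧸ A) := by
      obtain ⟨k, rfl⟩ := hn
      exact Subgroup.zpow_mem _ hyZ k
    have := Subgroup.mem_center_iff.mp hnZ g
    rw [this, mul_inv_cancel_right]
    exact hn
  have hBn : ((Subgroup.zpowers y).comap (QuotientGroup.mk' A)).Normal :=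
    Subgroup.Normal.comap hzn _
  have hAB : A ≤ (Subgroup.zpowers y).comap (QuotientGroup.mk' A) := by
    intro a ha
    rw [Subgroup.mem_comap]
    have : (QuotientGroup.mk' A) a = 1 := (QuotientGroup.eq_one_iff a).mpr ha
    rw [this]
    exact Subgroup.one_mem _
  have hdec : ∀ g ∈ (Subgroup.zpowers y).comap (QuotientGroup.mk' A),
      ∃ k : ℤ, ∃ a ∈ A, g = x ^ k * a := by
    intro g hg
    rw [Subgroup.mem_comap] at hg
    obtain ⟨k, hk⟩ := hg
    refine ⟨k, (x ^ k)⁻¹ * g, ?_, by group⟩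
    rw [← QuotientGroup.eq]
    rw [← hxy] at hk
    have : ((x ^ k : R) : R ⧸ A) = (QuotientGroup.mk' A x) ^ k := by
      simp
    rw [this]
    exact hk
  have hxk : ∀ k : ℤ, ∀ a ∈ A, a * x ^ k = x ^ k * a := by
    intro k a ha
    have hmem : x ^ k ∈ Subgroup.centralizer (A : Set R) := Subgroup.zpow_mem _ hxC k
    exact (Subgroup.mem_centralizer_iff.mp hmem) a ha
  have hBc : ∀ a ∈ (Subgroup.zpowers y).comap (QuotientGroup.mk' A),
      ∀ b ∈ (Subgroup.zpowers y).comap (QuotientGroup.mk' A), a * b = b * a := by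
    intro g1 hg1 g2 hg2
    obtain ⟨k, a1, ha1, rfl⟩ := hdec g1 hg1
    obtain ⟨l, a2, ha2, rfl⟩ := hdec g2 hg2
    have e1 := hxk l a1 ha1
    have e2 := hxk k a2 ha2
    have e3 := hAc a1 ha1 a2 ha2
    have e4 : x ^ k * x ^ l = x ^ l * x ^ k := by
      rw [← zpow_add, ← zpow_add, add_comm]
    calc x ^ k * a1 * (x ^ l * a2) = x ^ k * (a1 * x ^ l) * a2 := by group
      _ = x ^ k * (x ^ l * a1) * a2 := by rw [e1]
      _ = (x ^ k * x ^ l) * (a1 * a2) := by group
      _ = (x ^ l * x ^ k) * (a2 * a1) := by rw [e4, e3]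
      _ = x ^ l * (x ^ k * a2) * a1 := by group
      _ = x ^ l * (a2 * x ^ k) * a1 := by rw [e2]
      _ = x ^ l * a2 * (x ^ k * a1) := by group
  have hBA := hmax _ hBn hBc hAB
  apply hxA
  rw [← hBA, Subgroup.mem_comap]
  rw [← hxy]
  exact Subgroup.mem_zpowers _

end Cfsg.Agent.Lib.Helper12
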