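import Mathlib
import Cfsg.Prelude.Def_Transfer
import Cfsg.Prelude.Def_CaseTheorems
import Cfsg.Agent.S0100
import Cfsg.Agent.Lib.Helper2.PChain
import Cfsg.Agent.Lib.Helper2.ClassThree
import Cfsg.Agent.Lib.Helper12.SCN

set_option autoImplicit false
set_option linter.style.haveILetI false

namespace Cfsg.Agent.Lib.Helper12

open scoped commutatorElement

/-- a nontrivial subgroup of a nilpotent group is not its own commutator with the group -/
theorem comm_top_ne {R : Type*} [Group R] [Group.IsNilpotent R] (N : Subgroup R) (hN : N ≠ ⊥) :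
    ⁅N, (⊤ : Subgroup R)⁆ ≠ N := by
  intro h
  apply hN
  obtain ⟨n, hn⟩ := Subgroup.nilpotent_iff_lowerCentralSeries.mp (inferInstance : Group.IsNilpotent R)
  have hle : ∀ k, N ≤ (⊤ : Subgroup R).lowerCentralSeries k := by
    intro k
    induction k with
    | zero => simp
    | succ k ih =>
      rw [Subgroup.lowerCentralSeries_succ]
      calc N = ⁅N, (⊤ : Subgroup R)⁆ := h.symm
        _ ≤ _ := Subgroup.commutator_mono ih le_rfl
  have := hle n
  rw [hn] at this
  exact le_bot_iff.mp this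

/-- a set of pairwise commuting elements of order dividing `p` generates an elementary abelian
subgroup -/
theorem elemAb_closure {R : Type*} [Group R] (p : ℕ) (S : Set R)
    (hc : ∀ x ∈ S, ∀ y ∈ S, x * y = y * x) (he : ∀ x ∈ S, x ^ p = 1) :
    Cfsg.IsElementaryAbelian p (Subgroup.closure S) := by
  have hcomm : IsMulCommutative (Subgroup.closure S) := Subgroup.isMulCommutative_closure hc
  refine ⟨hcomm, ?_⟩
  intro a ha
  induction ha using Subgroup.closure_induction with
  | mem x hx => exact he x hx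
  | one => exact one_pow _
  | mul x y hx hy ihx ihy =>
    have hxy : x * y = y * x :=
      congrArg Subtype.val (hcomm.is_comm.comm (⟨x, hx⟩ : Subgroup.closure S) ⟨y, hy⟩)
    rw [(show Commute x y from hxy).mul_pow, ihx, ihy, one_mul]
  | inv x hx ih => rw [inv_pow, ih, inv_one]

/-- a normal subgroup of order `p ^ 2` and exponent `p` of a `p`-group has its commutators with
the group central of order dividing `p` -/
theorem normal_sq_comm {R : Type*} [Group R] [Finite R] (p : ℕ) [Fact p.Prime]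
    (hR : IsPGroup p R) (W : Subgroup R) [W.Normal] (hWcard : Nat.card W = p ^ 2)
    (hWe : ∀ w ∈ W, w ^ p = 1) :
    ∀ w ∈ W, ∀ g : R, ⁅w, g⁆ ∈ Subgroup.center R ∧ ⁅w, g⁆ ^ p = 1 := by
  have hpp : p.Prime := Fact.out
  haveI : Group.IsNilpotent R := hR.isNilpotent
  have hW1 : W ≠ ⊥ := by
    intro h
    rw [h, Subgroup.card_bot] at hWcard
    have : 1 < p ^ 2 := Nat.one_lt_pow (by norm_num) hpp.one_lt
    omega
  obtain ⟨K, hK⟩ : ∃ K : Subgroup R, K = ⁅W, (⊤ : Subgroup R)⁆ := ⟨_, rfl⟩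
  have hKW : K ≤ W := by rw [hK]; exact Subgroup.commutator_le_left W ⊤
  have hKne : K ≠ W := by rw [hK]; exact comm_top_ne W hW1
  haveI hKn : K.Normal := by rw [hK]; infer_instance
  have hKcard : Nat.card K ∣ p := by
    have hdvd : Nat.card K ∣ p ^ 2 := hWcard ▸ Subgroup.card_dvd_of_le hKW
    obtain ⟨j, hj, hjc⟩ := (Nat.dvd_prime_pow hpp).mp hdvd
    interval_cases j
    · rw [hjc]; simp
    · rw [hjc]; simp
    · exfalso
      exact hKne (Subgroup.eq_of_le_of_card_ge hKW (by rw [hjc, hWcard]))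
  have hKK : ⁅K, (⊤ : Subgroup R)⁆ = ⊥ := by
    by_contra hne
    have hK1 : K ≠ ⊥ := by
      intro h
      apply hne
      rw [h]
      exact Subgroup.commutator_bot_left ⊤
    have hle : ⁅K, (⊤ : Subgroup R)⁆ ≤ K := Subgroup.commutator_le_left K ⊤
    have hne' := comm_top_ne K hK1
    have hd : Nat.card (⁅K, (⊤ : Subgroup R)⁆ : Subgroup R) ∣ p :=
      dvd_trans (Subgroup.card_dvd_of_le hle) hKcard
    rcases (Nat.dvd_prime hpp).mp hd with h1 | h1
    · exact hne (Subgroup.card_eq_one.mp h1)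
    · apply hne'
      refine Subgroup.eq_of_le_of_card_ge hle ?_
      rw [h1]
      exact Nat.le_of_dvd hpp.pos hKcard
  have hKcen : K ≤ Subgroup.center R := by
    have := Subgroup.commutator_eq_bot_iff_le_centralizer.mp hKK
    rwa [Subgroup.coe_top, Subgroup.centralizer_univ] at this
  intro w hw g
  have hmem : ⁅w, g⁆ ∈ K := by
    rw [hK]; exact Subgroup.commutator_mem_commutator hw (Subgroup.mem_top g)
  exact ⟨hKcen hmem, hWe _ (hKW hmem)⟩

/-- a normal elementary abelian subgroup of order `p ^ 2` of a `p`-group of rank at least 3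
(`p` odd) lies in a larger elementary abelian subgroup -/
theorem exists_elem_abelian_gt {R : Type*} [Group R] [Finite R] (p : ℕ) [Fact p.Prime]
    (hp : p ≠ 2) (hR : IsPGroup p R) (hr : ¬ Cfsg.PRankLE p 2 R)
    (E : Subgroup R) [E.Normal] (hE : Cfsg.IsElementaryAbelian p E) (hE2 : Nat.card E = p ^ 2) :
    ∃ D : Subgroup R, E ≤ D ∧ (∀ x ∈ D, ∀ y ∈ D, x * y = y * x) ∧ (∀ x ∈ D, x ^ p = 1) ∧
      p ^ 2 < Nat.card D := by
  classical
  have hpp : p.Prime := Fact.out
  obtain ⟨hEc, hEe⟩ := hE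
  have hEcomm : ∀ a ∈ E, ∀ b ∈ E, a * b = b * a := fun a ha b hb =>
    congrArg Subtype.val (hEc.is_comm.comm (⟨a, ha⟩ : E) ⟨b, hb⟩)
  haveI : Group.IsNilpotent R := hR.isNilpotent
  obtain ⟨A3, hA3n, hA3c, hA3e, hA3card⟩ : ∃ A3 : Subgroup R, A3.Normal ∧ IsMulCommutative A3 ∧
      (∀ a ∈ A3, a ^ p = 1) ∧ Nat.card A3 = p ^ 3 := by
    by_contra hcon
    apply hr
    intro B hBc hBe
    exact Cfsg.Agent.S0100.result hp hR
      (fun A hAn hAc hAe hcard => hcon ⟨A, hAn, hAc, hAe, hcard⟩) B hBc hBe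
  haveI := hA3n
  have hA3comm : ∀ a ∈ A3, ∀ b ∈ A3, a * b = b * a := fun a ha b hb =>
    congrArg Subtype.val (hA3c.is_comm.comm (⟨a, ha⟩ : A3) ⟨b, hb⟩)
  have hidx : Nat.card R ≤ Nat.card (Subgroup.centralizer (E : Set R)) * p := by
    have := Cfsg.Agent.Lib.Helper2.card_le_card_centralizer_mul hR E 2 hE2
    simpa using this
  have hCidx : (Subgroup.centralizer (E : Set R)).index ≤ p := by
    have h1 := Subgroup.card_mul_index (Subgroup.centralizer (E : Set R))
    rw [← h1] at hidx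
    have hpos : 0 < Nat.card (Subgroup.centralizer (E : Set R)) := Nat.card_pos
    exact Nat.le_of_mul_le_mul_left hidx hpos
  obtain ⟨B, hBdef⟩ : ∃ B : Subgroup R, B = Subgroup.centralizer (E : Set R) ⊓ A3 := ⟨_, rfl⟩
  have hBcard : p ^ 2 ≤ Nat.card B := by
    have h1 := Cfsg.Agent.Lib.Helper2.card_le_card_inf_mul_index A3
      (Subgroup.centralizer (E : Set R))
    rw [hA3card, ← hBdef] at h1
    have h2 : p ^ 3 ≤ Nat.card B * p := le_trans h1 (Nat.mul_le_mul_left _ hCidx)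
    have h3 : p ^ 3 = p ^ 2 * p := by ring
    rw [h3] at h2
    exact Nat.le_of_mul_le_mul_right h2 hpp.pos
  have hBn : B.Normal := by
    rw [hBdef]; infer_instance
  haveI := hBn
  have hBA3 : B ≤ A3 := by rw [hBdef]; exact inf_le_right
  have hBC : B ≤ Subgroup.centralizer (E : Set R) := by rw [hBdef]; exact inf_le_left
  have hDdec : ∀ x ∈ E ⊔ B, ∃ e ∈ E, ∃ b ∈ B, e * b = x := by
    intro x hx
    have h1 : x ∈ ((E ⊔ B : Subgroup R) : Set R) := hx
    rw [Subgroup.normal_mul] at h1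
    exact Set.mem_mul.mp h1
  have hDcomm : ∀ x ∈ E ⊔ B, ∀ y ∈ E ⊔ B, x * y = y * x := by
    intro x hx y hy
    obtain ⟨e1, he1, b1, hb1, rfl⟩ := hDdec x hx
    obtain ⟨e2, he2, b2, hb2, rfl⟩ := hDdec y hy
    have c1 : e2 * b1 = b1 * e2 := (Subgroup.mem_centralizer_iff.mp (hBC hb1)) e2 he2
    have c2 : e1 * b2 = b2 * e1 := (Subgroup.mem_centralizer_iff.mp (hBC hb2)) e1 he1
    have c3 := hEcomm e1 he1 e2 he2
    have c4 := hA3comm b1 (hBA3 hb1) b2 (hBA3 hb2)
    calc e1 * b1 * (e2 * b2) = e1 * (b1 * e2) * b2 := by group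
      _ = e1 * (e2 * b1) * b2 := by rw [c1]
      _ = (e1 * e2) * (b1 * b2) := by group
      _ = (e2 * e1) * (b2 * b1) := by rw [c3, c4]
      _ = e2 * (e1 * b2) * b1 := by group
      _ = e2 * (b2 * e1) * b1 := by rw [c2]
      _ = e2 * b2 * (e1 * b1) := by group
  have hDe : ∀ x ∈ E ⊔ B, x ^ p = 1 := by
    intro x hx
    obtain ⟨e1, he1, b1, hb1, rfl⟩ := hDdec x hx
    have c1 : e1 * b1 = b1 * e1 := (Subgroup.mem_centralizer_iff.mp (hBC hb1)) e1 he1
    rw [(show Commute e1 b1 from c1).mul_pow, hEe e1 he1, hA3e b1 (hBA3 hb1), one_mul]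
  refine ⟨E ⊔ B, le_sup_left, hDcomm, hDe, ?_⟩
  by_contra hcon
  have hle : Nat.card (E ⊔ B : Subgroup R) ≤ Nat.card E := by rw [hE2]; exact not_lt.mp hcon
  have hDE : E = E ⊔ B := Subgroup.eq_of_le_of_card_ge le_sup_left hle
  have hBE : B ≤ E := by rw [hDE]; exact le_sup_right
  have hBeqE : B = E := Subgroup.eq_of_le_of_card_ge hBE (by rw [hE2]; exact hBcard)
  have hEA3 : E ≤ A3 := by rw [← hBeqE]; exact hBA3
  have hA3C : A3 ≤ Subgroup.centralizer (E : Set R) := by
    intro a ha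
    rw [Subgroup.mem_centralizer_iff]
    intro e he
    exact hA3comm e (hEA3 he) a ha
  have hBA : B = A3 := by rw [hBdef]; exact inf_eq_right.mpr hA3C
  have : p ^ 2 = p ^ 3 := by rw [← hE2, ← hA3card, ← hBeqE, hBA]
  have h2 : 2 = 3 := Nat.pow_right_injective hpp.two_le this
  omega

end Cfsg.Agent.Lib.Helper12
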