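import Mathlib
import Cfsg.Agent.Lib.Helper12.Narrow

set_option autoImplicit false
set_option linter.style.haveILetI false

namespace Cfsg.Agent.Lib.Helper12

open scoped commutatorElement

/-- structure of a `p`-group of rank at least 3 (`p` odd) with a maximal elementary abelian
subgroup `E` of order `p ^ 2` -/
theorem narrow_struct {R : Type*} [Group R] [Finite R] (p : ℕ) [Fact p.Prime] (hp : p ≠ 2)
    (hR : IsPGroup p R) (hr : ¬ Cfsg.PRankLE p 2 R)
    (E : Subgroup R) (hE : Cfsg.IsElementaryAbelian p E) (hE2 : Nat.card E = p ^ 2)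
    (hEmax : ∀ B : Subgroup R, Cfsg.IsElementaryAbelian p B → E ≤ B → B = E) :
    ∃ (Z1 W0 : Subgroup R), (Z1 : Set R) = {x : R | x ∈ Subgroup.center R ∧ x ^ p = 1} ∧
      Nat.card Z1 = p ∧
      (W0 : Set R) = {x : R | x ∈ Subgroup.upperCentralSeries R 2 ∧ x ^ p = 1} ∧
      Nat.card W0 = p ^ 2 ∧ W0.Normal ∧ (∀ a ∈ W0, ∀ b ∈ W0, a * b = b * a) ∧
      ¬ E ≤ Subgroup.centralizer (W0 : Set R) := by
  classical
  have hpp : p.Prime := Fact.out
  have hEea := hE
  obtain ⟨hEc, hEe⟩ := hE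
  have hEcomm : ∀ a ∈ E, ∀ b ∈ E, a * b = b * a := fun a ha b hb =>
    congrArg Subtype.val (hEc.is_comm.comm (⟨a, ha⟩ : E) ⟨b, hb⟩)
  haveI : Group.IsNilpotent R := hR.isNilpotent
  -- anything of exponent p commuting with E lies in E
  have hsup : ∀ N : Set R, (∀ a ∈ N, ∀ b ∈ N, a * b = b * a) → (∀ a ∈ N, a ^ p = 1) →
      (∀ e ∈ E, ∀ n ∈ N, e * n = n * e) → N ⊆ E := by
    intro N hNc hNe hEN
    have hD := elemAb_closure p ((E : Set R) ∪ N) (by
      rintro x (hx | hx) y (hy | hy)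
      · exact hEcomm x hx y hy
      · exact hEN x hx y hy
      · exact (hEN y hy x hx).symm
      · exact hNc x hx y hy) (by
      rintro x (hx | hx)
      · exact hEe x hx
      · exact hNe x hx)
    have hle : E ≤ Subgroup.closure ((E : Set R) ∪ N) := by
      intro e he
      exact Subgroup.subset_closure (Or.inl he)
    have := hEmax _ hD hle
    intro n hn
    have h1 : n ∈ Subgroup.closure ((E : Set R) ∪ N) := Subgroup.subset_closure (Or.inr hn)
    rw [this] at h1
    exact h1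
  have hEnn : ¬ E.Normal := by
    intro hEn
    haveI := hEn
    obtain ⟨D, hED, hDc, hDe, hDcard⟩ := exists_elem_abelian_gt p hp hR hr E hEea hE2
    have := hEmax D ⟨⟨⟨fun x y => Subtype.ext (hDc x x.2 y y.2)⟩⟩, hDe⟩ hED
    rw [this, hE2] at hDcard
    exact lt_irrefl _ hDcard
  -- Z1
  let Z1 : Subgroup R :=
    { carrier := {x | x ∈ Subgroup.center R ∧ x ^ p = 1}
      one_mem' := ⟨Subgroup.one_mem _, one_pow _⟩
      mul_mem' := fun {a b} ha hb => ⟨Subgroup.mul_mem _ ha.1 hb.1, by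
        rw [(show Commute a b from (Subgroup.mem_center_iff.mp hb.1 a)).mul_pow, ha.2, hb.2,
          one_mul]⟩
      inv_mem' := fun {a} ha => ⟨Subgroup.inv_mem _ ha.1, by rw [inv_pow, ha.2, inv_one]⟩ }
  have hZ1mem : ∀ x, x ∈ Z1 ↔ x ∈ Subgroup.center R ∧ x ^ p = 1 := fun x => Iff.rfl
  have hZ1cen : Z1 ≤ Subgroup.center R := fun x hx => ((hZ1mem x).mp hx).1
  have hZ1E : Z1 ≤ E := hsup (Z1 : Set R)
    (fun a _ b hb => (Subgroup.mem_center_iff.mp (hZ1cen hb) a))
    (fun a ha => ((hZ1mem a).mp ha).2)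
    (fun e _ n hn => (Subgroup.mem_center_iff.mp (hZ1cen hn) e))
  have hE1 : E ≠ ⊥ := by
    intro h
    rw [h, Subgroup.card_bot] at hE2
    have : 1 < p ^ 2 := Nat.one_lt_pow (by norm_num) hpp.one_lt
    omega
  haveI hRnt : Nontrivial R := by
    obtain ⟨e, he, he1⟩ : ∃ e ∈ E, e ≠ 1 := by
      by_contra hcon
      exact hE1 ((Subgroup.eq_bot_iff_forall _).mpr
        (fun t ht => by_contra (fun h1 => hcon ⟨t, ht, h1⟩)))
    exact ⟨⟨e, 1, he1⟩⟩
  have hZ1ne : Z1 ≠ ⊥ := by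
    haveI : Nontrivial (Subgroup.center R) := hR.center_nontrivial
    have hpd : p ∣ Nat.card (Subgroup.center R) := by
      obtain ⟨n, hn⟩ := (hR.to_subgroup (Subgroup.center R)).exists_card_eq
      have h1 : 1 < Nat.card (Subgroup.center R) := Finite.one_lt_card
      rw [hn] at h1 ⊢
      have hn0 : n ≠ 0 := by
        rintro rfl
        simp at h1
      exact dvd_pow_self p hn0
    obtain ⟨x, hx⟩ := exists_prime_orderOf_dvd_card' (G := Subgroup.center R) p hpd
    intro h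
    have hxp : (x : R) ^ p = 1 := by
      have := pow_orderOf_eq_one x
      rw [hx] at this
      simpa only [Subgroup.coe_pow, Subgroup.coe_one] using congrArg Subtype.val this
    have hxZ : (x : R) ∈ Z1 := (hZ1mem _).mpr ⟨x.2, hxp⟩
    rw [h, Subgroup.mem_bot] at hxZ
    have hx1 : x = 1 := Subtype.ext hxZ
    rw [hx1, orderOf_one] at hx
    exact hpp.one_lt.ne hx
  have hZ1n : Z1.Normal := by
    constructor
    intro n hn g
    rw [Subgroup.mem_center_iff.mp (hZ1cen hn) g, mul_inv_cancel_right]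
    exact hn
  have hZ1card : Nat.card Z1 = p := by
    have hdvd : Nat.card Z1 ∣ p ^ 2 := hE2 ▸ Subgroup.card_dvd_of_le hZ1E
    obtain ⟨j, hj, hjc⟩ := (Nat.dvd_prime_pow hpp).mp hdvd
    interval_cases j
    · exfalso
      apply hZ1ne
      exact Subgroup.card_eq_one.mp (by simpa using hjc)
    · simpa using hjc
    · exfalso
      have hZE : Z1 = E := Subgroup.eq_of_le_of_card_ge hZ1E (by rw [hjc, hE2])
      exact hEnn (hZE ▸ hZ1n)
  -- a normal elementary abelian subgroup of order p^2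
  obtain ⟨A3, hA3n, hA3c, hA3e, hA3card⟩ : ∃ A3 : Subgroup R, A3.Normal ∧ IsMulCommutative A3 ∧
      (∀ a ∈ A3, a ^ p = 1) ∧ Nat.card A3 = p ^ 3 := by
    by_contra hcon
    apply hr
    intro B hBc hBe
    exact Cfsg.Agent.S0100.result hp hR
      (fun A hAn hAc hAe hcard => hcon ⟨A, hAn, hAc, hAe, hcard⟩) B hBc hBe
  haveI := hA3n
  have hA3comm : ∀ a ∈ A3, ∀ b ∈ A3, a * b = b * a := fun a ha b hb =>
    congrArg Subtype.val (hA3c.is_comm.comm (⟨a, ha⟩ : A3) ⟨b, hb⟩)
  obtain ⟨W0, hW0n, hW0A3, hW0card, -⟩ :=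
    Cfsg.Agent.Lib.Helper2.exists_normal_chain hR A3 3 hA3card 2 (by norm_num)
  haveI := hW0n
  have hW0comm : ∀ a ∈ W0, ∀ b ∈ W0, a * b = b * a := fun a ha b hb =>
    hA3comm a (hW0A3 ha) b (hW0A3 hb)
  have hW0e : ∀ a ∈ W0, a ^ p = 1 := fun a ha => hA3e a (hW0A3 ha)
  have hEW0 : ¬ E ≤ Subgroup.centralizer (W0 : Set R) := by
    intro h
    have hW0E : W0 ≤ E := hsup (W0 : Set R) hW0comm hW0e
      (fun e he n hn => ((Subgroup.mem_centralizer_iff.mp (h he)) n hn).symm)
    have hWE : W0 = E := Subgroup.eq_of_le_of_card_ge hW0E (by rw [hE2, hW0card])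
    exact hEnn (hWE ▸ hW0n)
  have hW0ne : W0 ≠ ⊥ := by
    intro h
    rw [h, Subgroup.card_bot] at hW0card
    have : 1 < p ^ 2 := Nat.one_lt_pow (by norm_num) hpp.one_lt
    omega
  have hZ1W0 : Z1 ≤ W0 := by
    have hcen := normal_inf_center_ne_bot' W0 hW0ne
    have hle : W0 ⊓ Subgroup.center R ≤ Z1 ⊓ W0 := by
      intro x hx
      obtain ⟨hx1, hx2⟩ := Subgroup.mem_inf.mp hx
      exact Subgroup.mem_inf.mpr ⟨(hZ1mem x).mpr ⟨hx2, hW0e x hx1⟩, hx1⟩
    have hne : Z1 ⊓ W0 ≠ ⊥ := fun h => hcen (le_bot_iff.mp (h ▸ hle))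
    have hdvd : Nat.card (Z1 ⊓ W0 : Subgroup R) ∣ p := hZ1card ▸ Subgroup.card_dvd_of_le inf_le_left
    rcases (Nat.dvd_prime hpp).mp hdvd with h1 | h1
    · exact absurd (Subgroup.card_eq_one.mp h1) hne
    · have : Z1 ⊓ W0 = Z1 := Subgroup.eq_of_le_of_card_ge inf_le_left (by rw [h1, hZ1card])
      rw [← this]
      exact inf_le_right
  have hW0Z1 : ∀ w ∈ W0, ∀ g : R, ⁅w, g⁆ ∈ Z1 := by
    intro w hw g
    have := normal_sq_comm p hR W0 hW0card hW0e w hw g
    exact (hZ1mem _).mpr this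
  have hW0Z2 : ∀ w ∈ W0, w ∈ Subgroup.upperCentralSeries R 2 := by
    intro w hw
    rw [Subgroup.mem_upperCentralSeries_succ_iff, Subgroup.upperCentralSeries_one]
    intro g
    exact hZ1cen (hW0Z1 w hw g)
  -- commutators of elements of order p of the second centre
  have hZ2comm : ∀ x : R, x ∈ Subgroup.upperCentralSeries R 2 → x ^ p = 1 → ∀ g : R,
      ⁅x, g⁆ ∈ Z1 := by
    intro x hx hxp g
    have hc : ⁅x, g⁆ ∈ Subgroup.center R := by
      have := Subgroup.mem_upperCentralSeries_succ_iff.mp hx g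
      rwa [Subgroup.upperCentralSeries_one] at this
    refine (hZ1mem _).mpr ⟨hc, ?_⟩
    have h1 := Cfsg.Agent.Lib.Helper11.commElem_pow_left x g
      ((Subgroup.mem_center_iff.mp hc x).symm) p
    rw [← h1, hxp]
    simp [commutatorElement_def]
  have hZ2W0 : ∀ x : R, x ∈ Subgroup.upperCentralSeries R 2 → x ^ p = 1 → x ∈ W0 := by
    intro x hx hxp
    by_contra hxW
    obtain ⟨e, heE, heC⟩ := SetLike.not_le_iff_exists.mp hEW0
    obtain ⟨w1, hw1, hw1e⟩ : ∃ w1 ∈ W0, w1 * e ≠ e * w1 := by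
      by_contra hcon
      apply heC
      rw [Subgroup.mem_centralizer_iff]
      intro h hh
      by_contra h1
      exact hcon ⟨h, hh, h1⟩
    have hz0 : ⁅w1, e⁆ ∈ Z1 := hW0Z1 w1 hw1 e
    have hz01 : ⁅w1, e⁆ ≠ 1 := fun h => hw1e (commutatorElement_eq_one_iff_mul_comm.mp h)
    have hz0c := hZ1cen hz0
    have hz0p : ⁅w1, e⁆ ^ p = 1 := ((hZ1mem _).mp hz0).2
    -- [x, e] is a power of z0
    obtain ⟨k, hk⟩ : ∃ k : ℕ, ⁅w1, e⁆ ^ k = ⁅x, e⁆ := by
      have h1 : (⟨⁅x, e⁆, hZ2comm x hx hxp e⟩ : Z1) ∈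
          Subgroup.zpowers (⟨⁅w1, e⁆, hz0⟩ : Z1) :=
        mem_zpowers_of_prime_card hZ1card (fun h => hz01 (congrArg Subtype.val h))
      rw [← mem_powers_iff_mem_zpowers] at h1
      obtain ⟨k, hk⟩ := h1
      exact ⟨k, by simpa only [Subgroup.coe_pow] using congrArg Subtype.val hk⟩
    obtain ⟨v, hv⟩ : ∃ v, v = w1 ^ (k * (p - 1)) := ⟨_, rfl⟩
    have hvW : v ∈ W0 := by rw [hv]; exact Subgroup.pow_mem _ hw1 _
    have hve : ⁅v, e⁆ = ⁅w1, e⁆ ^ (k * (p - 1)) := by
      rw [hv]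
      exact Cfsg.Agent.Lib.Helper11.commElem_pow_left w1 e
        ((Subgroup.mem_center_iff.mp hz0c w1).symm) _
    obtain ⟨y, hy⟩ : ∃ y, y = x * v := ⟨_, rfl⟩
    have hvc : ⁅v, e⁆ ∈ Subgroup.center R := hZ1cen (hW0Z1 v hvW e)
    have hye : ⁅y, e⁆ = 1 := by
      have h1 : ⁅y, e⁆ = ⁅v, e⁆ * ⁅x, e⁆ := by
        have h2 : x * ⁅v, e⁆ = ⁅v, e⁆ * x := Subgroup.mem_center_iff.mp hvc x
        rw [hy]
        calc ⁅x * v, e⁆ = x * ⁅v, e⁆ * e * x⁻¹ * e⁻¹ := by
              simp only [commutatorElement_def]; group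
          _ = ⁅v, e⁆ * x * e * x⁻¹ * e⁻¹ := by rw [h2]
          _ = ⁅v, e⁆ * ⁅x, e⁆ := by simp only [commutatorElement_def]; group
      rw [h1, hve, ← hk, ← pow_add]
      have h3 : k * (p - 1) + k = k * p := by
        have : 1 ≤ p := hpp.one_lt.le
        calc k * (p - 1) + k = k * (p - 1 + 1) := by ring
          _ = k * p := by rw [Nat.sub_add_cancel this]
      rw [h3, mul_comm, pow_mul, hz0p, one_pow]
    have hyecomm : y * e = e * y := commutatorElement_eq_one_iff_mul_comm.mp hye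
    have hyp : y ^ p = 1 := by
      rw [hy]
      refine Cfsg.Agent.Lib.Helper2.mul_pow_prime_eq_one_class_two hpp hp ?_ hxp (hW0e v hvW)
      intro g
      exact (Subgroup.mem_center_iff.mp (hZ1cen (hW0Z1 v hvW x)) g).symm
    have hyZ2 : y ∈ Subgroup.upperCentralSeries R 2 := by
      rw [hy]; exact Subgroup.mul_mem _ hx (hW0Z2 v hvW)
    -- E = Z1 ⊔ ⟨e⟩
    have heZ1 : e ∉ Z1 := by
      intro h
      apply heC
      rw [Subgroup.mem_centralizer_iff]
      intro h' _
      exact (Subgroup.mem_center_iff.mp (hZ1cen h) h')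
    have hgen : ∀ f : R, f ∈ Z1 ∨ f = e → f ∈ E := by
      rintro f (hf | rfl)
      · exact hZ1E hf
      · exact heE
    have hEgen : ∀ (u : R), u ∈ E → u ∉ Z1 → Z1 ⊔ Subgroup.zpowers u = E := by
      intro u huE huZ
      have hle : Z1 ⊔ Subgroup.zpowers u ≤ E := sup_le hZ1E (by rw [Subgroup.zpowers_le]; exact huE)
      have hdvd : Nat.card (Z1 ⊔ Subgroup.zpowers u : Subgroup R) ∣ p ^ 2 :=
        hE2 ▸ Subgroup.card_dvd_of_le hle
      obtain ⟨j, hj, hjc⟩ := (Nat.dvd_prime_pow hpp).mp hdvd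
      have hlt : p < Nat.card (Z1 ⊔ Subgroup.zpowers u : Subgroup R) := by
        by_contra hcon
        have h1 : Z1 = Z1 ⊔ Subgroup.zpowers u :=
          Subgroup.eq_of_le_of_card_ge le_sup_left (by rw [hZ1card]; exact not_lt.mp hcon)
        apply huZ
        rw [h1]
        exact Subgroup.mem_sup_right (Subgroup.mem_zpowers u)
      interval_cases j
      · rw [hjc, pow_zero] at hlt
        exact absurd hlt (not_lt.mpr hpp.one_lt.le)
      · rw [hjc, pow_one] at hlt
        exact absurd hlt (lt_irrefl _)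
      · exact Subgroup.eq_of_le_of_card_ge hle (by rw [hjc, hE2])
    -- y commutes with E
    have hyE : ∀ f ∈ E, f * y = y * f := by
      intro f hf
      have hle : Z1 ⊔ Subgroup.zpowers e ≤ Subgroup.centralizer ({y} : Set R) := by
        refine sup_le ?_ ?_
        · intro z hz
          rw [Subgroup.mem_centralizer_singleton_iff]
          exact (Subgroup.mem_center_iff.mp (hZ1cen hz) y).symm
        · rw [Subgroup.zpowers_le, Subgroup.mem_centralizer_singleton_iff]
          exact hyecomm.symm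
      rw [hEgen e heE heZ1] at hle
      exact Subgroup.mem_centralizer_singleton_iff.mp (hle hf)
    have hyEmem : y ∈ E := by
      have := hsup ({y} : Set R) (by
        intro a ha b hb
        rw [Set.mem_singleton_iff] at ha hb
        rw [ha, hb]) (by
        intro a ha
        rw [Set.mem_singleton_iff] at ha
        rw [ha]; exact hyp) (by
        intro f hf n hn
        rw [Set.mem_singleton_iff] at hn
        rw [hn]; exact hyE f hf)
      exact this (Set.mem_singleton y)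
    have hyZ1 : y ∉ Z1 := by
      intro h
      apply hxW
      have hx' : x = y * v⁻¹ := by rw [hy]; group
      rw [hx']
      exact Subgroup.mul_mem _ (hZ1W0 h) (Subgroup.inv_mem _ hvW)
    -- E lies in the second centre, hence is normal
    have hEZ2 : E ≤ Subgroup.upperCentralSeries R 2 := by
      rw [← hEgen y hyEmem hyZ1]
      refine sup_le ?_ ?_
      · intro z hz
        have h1 : z ∈ Subgroup.upperCentralSeries R 1 := by
          rw [Subgroup.upperCentralSeries_one]; exact hZ1cen hz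
        exact Subgroup.upperCentralSeries_mono R (by norm_num) h1
      · rw [Subgroup.zpowers_le]; exact hyZ2
    apply hEnn
    constructor
    intro f hf g
    have h1 : ⁅g, f⁆ ∈ E := by
      have h2 : ⁅f, g⁆ ∈ Z1 := hZ2comm f (hEZ2 hf) (hEe f hf) g
      have h3 : ⁅g, f⁆ = ⁅f, g⁆⁻¹ := by simp only [commutatorElement_def]; group
      rw [h3]
      exact Subgroup.inv_mem _ (hZ1E h2)
    have h4 : g * f * g⁻¹ = ⁅g, f⁆ * f := by simp only [commutatorElement_def]; group
    rw [h4]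
    exact Subgroup.mul_mem _ h1 hf
  refine ⟨Z1, W0, rfl, hZ1card, ?_, hW0card, hW0n, hW0comm, hEW0⟩
  ext x
  constructor
  · intro hx
    exact ⟨hW0Z2 x hx, hW0e x hx⟩
  · rintro ⟨hx1, hx2⟩
    exact hZ2W0 x hx1 hx2

end Cfsg.Agent.Lib.Helper12
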