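import Mathlib

/-!
Helper lemmas (helper12): a finite solvable group of odd order acting by `2 × 2` matrices over an
algebraically closed field has a common eigenvector; in characteristic `p` the elements of its
commutator subgroup then act by matrices of order dividing `p`.
-/

set_option autoImplicit false

namespace Cfsg.Agent.Lib.Helper12.OddGL2

open Matrix
open scoped commutatorElement

section Vec

variable {K : Type*} [Field K]

/-- two non-proportional vectors span `K²` -/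
theorem span2 (v w : Fin 2 → K) (hv : v ≠ 0) (hw : ∀ c : K, w ≠ c • v) (u : Fin 2 → K) :
    ∃ a b : K, u = a • v + b • w := by
  have hD : v 0 * w 1 - v 1 * w 0 ≠ 0 := by
    intro h
    by_cases h0 : v 0 = 0
    · have h1 : v 1 ≠ 0 := by
        intro h1; apply hv; funext i; fin_cases i <;> simp [h0, h1]
      have hw0 : w 0 = 0 := by
        rw [h0] at h
        have h2 : v 1 * w 0 = 0 := by linear_combination -h
        exact (mul_eq_zero.mp h2).resolve_left h1
      apply hw (w 1 / v 1)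
      funext i; fin_cases i
      · simp [h0, hw0]
      · simp [h1]
    · apply hw (w 0 / v 0)
      funext i; fin_cases i
      · simp [h0]
      · simp only [Fin.mk_one, Fin.isValue, Pi.smul_apply, smul_eq_mul]
        field_simp
        linear_combination h
  refine ⟨(u 0 * w 1 - u 1 * w 0) / (v 0 * w 1 - v 1 * w 0),
    (v 0 * u 1 - v 1 * u 0) / (v 0 * w 1 - v 1 * w 0), ?_⟩
  funext i; fin_cases i
  · simp only [Fin.zero_eta, Fin.isValue, Pi.add_apply, Pi.smul_apply, smul_eq_mul]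
    rw [div_mul_eq_mul_div, div_mul_eq_mul_div, ← add_div, eq_div_iff hD]; ring
  · simp only [Fin.mk_one, Fin.isValue, Pi.add_apply, Pi.smul_apply, smul_eq_mul]
    rw [div_mul_eq_mul_div, div_mul_eq_mul_div, ← add_div, eq_div_iff hD]; ring

theorem indep2 (v w : Fin 2 → K) (hv : v ≠ 0) (hw : ∀ c : K, w ≠ c • v) (a b a' b' : K)
    (h : a • v + b • w = a' • v + b' • w) : a = a' ∧ b = b' := by
  have hb : b = b' := by
    by_contra hne
    have hne' : b - b' ≠ 0 := sub_ne_zero.mpr hne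
    apply hw ((a' - a) / (b - b'))
    funext i
    have hi := congrFun h i
    simp only [Pi.add_apply, Pi.smul_apply, smul_eq_mul] at hi ⊢
    field_simp
    linear_combination hi
  refine ⟨?_, hb⟩
  subst hb
  by_contra hne
  apply hv
  funext i
  have hi := congrFun h i
  simp only [Pi.add_apply, Pi.smul_apply, smul_eq_mul, Pi.zero_apply] at hi ⊢
  have h2 : (a - a') * v i = 0 := by linear_combination hi
  exact (mul_eq_zero.mp h2).resolve_left (sub_ne_zero.mpr hne)

/-- a matrix acting as the same scalar on two non-proportional vectors is scalar -/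
theorem scalar_of_two (M : Matrix (Fin 2) (Fin 2) K) (a : K) (v w : Fin 2 → K) (hv : v ≠ 0)
    (hw : ∀ c : K, w ≠ c • v) (h1 : M *ᵥ v = a • v) (h2 : M *ᵥ w = a • w) :
    M = a • (1 : Matrix (Fin 2) (Fin 2) K) := by
  apply Matrix.toLin'.injective
  apply LinearMap.ext
  intro u
  obtain ⟨s, t, rfl⟩ := span2 v w hv hw u
  simp only [Matrix.toLin'_apply, Matrix.mulVec_add, Matrix.mulVec_smul, h1, h2,
    Matrix.smul_mulVec, Matrix.one_mulVec]

end Vec

section Main

variable {Γ : Type*} [Group Γ] [Finite Γ] {K : Type*} [Field K] [IsAlgClosed K]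

/-- a finite solvable group of odd order acting on `K²` (`K` algebraically closed) has a common
eigenvector -/
theorem exists_common_eigenvector (hs : Group.IsSolvable Γ) (hodd : Odd (Nat.card Γ))
    (ρ : Γ →* Matrix (Fin 2) (Fin 2) K) :
    ∃ v : Fin 2 → K, v ≠ 0 ∧ ∀ g : Γ, ∃ c : K, ρ g *ᵥ v = c • v := by
  classical
  by_cases hsc : ∀ g : Γ, ∃ c : K, ρ g = c • (1 : Matrix (Fin 2) (Fin 2) K)
  · refine ⟨Pi.single 0 1, ?_, ?_⟩
    · intro h; have := congrFun h 0; simp at this
    · intro g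
      obtain ⟨c, hc⟩ := hsc g
      exact ⟨c, by rw [hc, Matrix.smul_mulVec, Matrix.one_mulVec]⟩
  have hinv : ∀ g : Γ, ρ g⁻¹ * ρ g = 1 := fun g => by rw [← map_mul, inv_mul_cancel, map_one]
  have hinj : ∀ (g : Γ) (u : Fin 2 → K), ρ g *ᵥ u = 0 → u = 0 := by
    intro g u hu
    have := congrArg (fun t => ρ g⁻¹ *ᵥ t) hu
    simp only [Matrix.mulVec_mulVec, hinv, Matrix.one_mulVec, Matrix.mulVec_zero] at this
    exact this
  have hdet : ∀ g : Γ, (ρ g).det ≠ 0 := by
    intro g h
    have := congrArg Matrix.det (hinv g)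
    rw [Matrix.det_mul, h, mul_zero, Matrix.det_one] at this
    exact zero_ne_one this
  obtain ⟨n, hn⟩ := (Group.isSolvable_def Γ).mp hs
  have hex : ∃ k : ℕ, ∀ g ∈ derivedSeries Γ (k + 1),
      ∃ c : K, ρ g = c • (1 : Matrix (Fin 2) (Fin 2) K) := by
    refine ⟨n, fun g hg => ?_⟩
    have h1 : derivedSeries Γ (n + 1) ≤ derivedSeries Γ n := by
      rw [derivedSeries_succ]; exact Subgroup.commutator_le_left _ _
    have h2 := h1 hg
    rw [hn, Subgroup.mem_bot] at h2
    exact ⟨1, by rw [h2, map_one, one_smul]⟩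
  obtain ⟨k, hk, hkmin⟩ : ∃ k, (∀ g ∈ derivedSeries Γ (k + 1),
      ∃ c : K, ρ g = c • (1 : Matrix (Fin 2) (Fin 2) K)) ∧
      ∃ d ∈ derivedSeries Γ k, ¬ ∃ c : K, ρ d = c • (1 : Matrix (Fin 2) (Fin 2) K) := by
    refine ⟨Nat.find hex, Nat.find_spec hex, ?_⟩
    rcases Nat.eq_zero_or_pos (Nat.find hex) with h0 | hpos
    · rw [h0, derivedSeries_zero]
      push Not at hsc
      obtain ⟨g, hg⟩ := hsc
      exact ⟨g, Subgroup.mem_top g, by push Not; exact hg⟩
    · have hmin := Nat.find_min hex (m := Nat.find hex - 1) (by omega)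
      push Not at hmin
      obtain ⟨g, hg, hg2⟩ := hmin
      rw [Nat.sub_add_cancel hpos] at hg
      exact ⟨g, hg, by push Not; exact hg2⟩
  obtain ⟨d, hdD, hdns⟩ := hkmin
  obtain ⟨D, hD⟩ : ∃ D : Subgroup Γ, D = derivedSeries Γ k := ⟨_, rfl⟩
  rw [← hD] at hdD
  have hDn : D.Normal := by rw [hD]; exact derivedSeries_normal Γ k
  have hcomm : ∀ x ∈ D, ∀ y ∈ D, ρ x * ρ y = ρ y * ρ x := by
    intro x hx y hy
    have h1 : ⁅x, y⁆ ∈ derivedSeries Γ (k + 1) := by
      rw [derivedSeries_succ, ← hD]; exact Subgroup.commutator_mem_commutator hx hy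
    obtain ⟨c, hc⟩ := hk _ h1
    have h2 : ρ x * ρ y = c • (ρ y * ρ x) := by
      have : ρ x * ρ y = ρ ⁅x, y⁆ * (ρ y * ρ x) := by
        rw [← map_mul, ← map_mul, ← map_mul]; congr 1; simp [commutatorElement_def]
      rw [this, hc, Matrix.smul_mul, Matrix.one_mul]
    have h3 : c ^ 2 = 1 := by
      have h4 := congrArg Matrix.det h2
      rw [Matrix.det_smul, Matrix.det_mul, Matrix.det_mul, Fintype.card_fin] at h4
      have hne : (ρ y).det * (ρ x).det ≠ 0 := mul_ne_zero (hdet y) (hdet x)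
      have h5 : (c ^ 2 - 1) * ((ρ y).det * (ρ x).det) = 0 := by linear_combination -h4
      exact sub_eq_zero.mp ((mul_eq_zero.mp h5).resolve_right hne)
    have h5 : c ^ orderOf ⁅x, y⁆ = 1 := by
      have h6 : ρ (⁅x, y⁆ ^ orderOf ⁅x, y⁆) = 1 := by rw [pow_orderOf_eq_one, map_one]
      rw [map_pow, hc, smul_pow, one_pow] at h6
      have h7 := congrFun (congrFun h6 0) 0
      simpa using h7
    have hoddm : Odd (orderOf ⁅x, y⁆) := Odd.of_dvd_nat hodd (orderOf_dvd_natCard _)
    obtain ⟨j, hj⟩ := hoddm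
    have hc1 : c = 1 := by
      rw [hj, pow_succ, pow_mul, h3, one_pow, one_mul] at h5; exact h5
    rw [h2, hc1, one_smul]
  obtain ⟨α, hα⟩ := Module.End.exists_eigenvalue (Matrix.toLin' (ρ d))
  obtain ⟨v, hv⟩ := hα.exists_hasEigenvector
  have hv0 : v ≠ 0 := hv.2
  have hdv : ρ d *ᵥ v = α • v := by
    have := hv.apply_eq_smul
    rwa [Matrix.toLin'_apply] at this
  have hDv : ∀ x ∈ D, ∃ c : K, ρ x *ᵥ v = c • v := by
    intro x hx
    by_contra hno
    push Not at hno
    apply hdns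
    refine ⟨α, scalar_of_two (ρ d) α v (ρ x *ᵥ v) hv0 hno hdv ?_⟩
    rw [Matrix.mulVec_mulVec, hcomm d hdD x hx, ← Matrix.mulVec_mulVec, hdv, Matrix.mulVec_smul]
  refine ⟨v, hv0, ?_⟩
  by_contra hno
  push Not at hno
  obtain ⟨g₀, hg₀⟩ := hno
  obtain ⟨w, hw⟩ : ∃ w : Fin 2 → K, w = ρ g₀ *ᵥ v := ⟨_, rfl⟩
  rw [← hw] at hg₀
  have hDw : ∀ x ∈ D, ∃ c : K, ρ x *ᵥ w = c • w := by
    intro x hx
    have hx' : g₀⁻¹ * x * g₀ ∈ D := by
      have := hDn.conj_mem x hx g₀⁻¹
      simpa using this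
    obtain ⟨c, hc⟩ := hDv _ hx'
    refine ⟨c, ?_⟩
    rw [hw, Matrix.mulVec_mulVec, ← map_mul]
    have : x * g₀ = g₀ * (g₀⁻¹ * x * g₀) := by group
    rw [this, map_mul, ← Matrix.mulVec_mulVec, hc, Matrix.mulVec_smul]
  obtain ⟨α', hα'⟩ := hDw d hdD
  have hαα' : α ≠ α' := by
    intro h
    apply hdns
    exact ⟨α, scalar_of_two (ρ d) α v w hv0 hg₀ hdv (by rw [h]; exact hα')⟩
  have hK : ∀ u : Fin 2 → K, (∃ μ : K, ρ d *ᵥ u = μ • u) →
      (∃ a : K, u = a • v) ∨ (∃ b : K, u = b • w) := by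
    intro u ⟨μ, hμ⟩
    obtain ⟨a, b, rfl⟩ := span2 v w hv0 hg₀ u
    rw [Matrix.mulVec_add, Matrix.mulVec_smul, Matrix.mulVec_smul, hdv, hα', smul_add, smul_smul,
      smul_smul, smul_smul, smul_smul] at hμ
    obtain ⟨h1, h2⟩ := indep2 v w hv0 hg₀ _ _ _ _ hμ
    by_cases ha : a = 0
    · right; exact ⟨b, by rw [ha, zero_smul, zero_add]⟩
    · left
      have hb : b = 0 := by
        by_contra hb
        apply hαα'
        have e1 : α = μ := mul_left_cancel₀ ha (by linear_combination h1)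
        have e2 : α' = μ := mul_left_cancel₀ hb (by linear_combination h2)
        rw [e1, e2]
      exact ⟨a, by rw [hb, zero_smul, add_zero]⟩
  have hgD : ∀ (g : Γ) (u : Fin 2 → K), (∀ x ∈ D, ∃ c : K, ρ x *ᵥ u = c • u) →
      ∃ μ : K, ρ d *ᵥ (ρ g *ᵥ u) = μ • (ρ g *ᵥ u) := by
    intro g u hu
    have hx' : g⁻¹ * d * g ∈ D := by
      have := hDn.conj_mem d hdD g⁻¹
      simpa using this
    obtain ⟨c, hc⟩ := hu _ hx'
    refine ⟨c, ?_⟩
    rw [Matrix.mulVec_mulVec, ← map_mul]
    have : d * g = g * (g⁻¹ * d * g) := by group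
    rw [this, map_mul, ← Matrix.mulVec_mulVec, hc, Matrix.mulVec_smul]
  have hsq : ∀ g : Γ, ∃ a : K, ρ (g * g) *ᵥ v = a • v := by
    intro g
    rcases hK _ (hgD g v hDv) with ⟨a, ha⟩ | ⟨b, hb⟩
    · exact ⟨a * a, by
        rw [map_mul, ← Matrix.mulVec_mulVec, ha, Matrix.mulVec_smul, ha, smul_smul]⟩
    · rcases hK _ (hgD g w hDw) with ⟨a', ha'⟩ | ⟨b', hb'⟩
      · exact ⟨b * a', by
          rw [map_mul, ← Matrix.mulVec_mulVec, hb, Matrix.mulVec_smul, ha', smul_smul]⟩
      · exfalso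
        have h0 : ρ g *ᵥ (b' • v - b • w) = 0 := by
          rw [Matrix.mulVec_sub, Matrix.mulVec_smul, Matrix.mulVec_smul, hb, hb', smul_smul,
            smul_smul, mul_comm, sub_self]
        have h1 := hinj g _ h0
        have h2 : b' • v + (0:K) • w = (0:K) • v + b • w := by
          rw [zero_smul, zero_smul, add_zero, zero_add]; exact sub_eq_zero.mp h1
        obtain ⟨h3, h4⟩ := indep2 v w hv0 hg₀ _ _ _ _ h2
        have : ρ g *ᵥ v = 0 := by rw [hb, ← h4, zero_smul]
        exact hv0 (hinj g v this)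
  have hpowI : ∀ (g : Γ) (n : ℕ), (∃ a : K, ρ g *ᵥ v = a • v) →
      ∃ a : K, ρ (g ^ n) *ᵥ v = a • v := by
    intro g n ⟨a, ha⟩
    induction n with
    | zero => exact ⟨1, by rw [pow_zero, map_one, Matrix.one_mulVec, one_smul]⟩
    | succ n ih =>
      obtain ⟨a', ha'⟩ := ih
      exact ⟨a * a', by
        rw [pow_succ, map_mul, ← Matrix.mulVec_mulVec, ha, Matrix.mulVec_smul, ha', smul_smul]⟩
  have hoddg : Odd (orderOf g₀) := Odd.of_dvd_nat hodd (orderOf_dvd_natCard _)
  obtain ⟨j, hj⟩ := hoddg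
  have hg₀' : g₀ = (g₀ * g₀) ^ (j + 1) := by
    rw [← pow_two, ← pow_mul]
    have : 2 * (j + 1) = orderOf g₀ + 1 := by omega
    rw [this, pow_succ, pow_orderOf_eq_one, one_mul]
  obtain ⟨a, ha⟩ := hpowI (g₀ * g₀) (j + 1) (hsq g₀)
  rw [← hg₀', ← hw] at ha
  exact hg₀ a ha

/-- in characteristic `p`, commutators act with order dividing `p` -/
theorem pow_p_eq_one (p : ℕ) [Fact p.Prime] [CharP K p] (hs : Group.IsSolvable Γ)
    (hodd : Odd (Nat.card Γ)) (ρ : Γ →* Matrix (Fin 2) (Fin 2) K) (x : Γ)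
    (hx : x ∈ commutator Γ) : ρ x ^ p = 1 := by
  classical
  have hp : p.Prime := Fact.out
  obtain ⟨v, hv0, hv⟩ := exists_common_eigenvector hs hodd ρ
  choose c hc using hv
  have hsm : ∀ a b : K, a • v = b • v → a = b := by
    intro a b h
    have h1 : (a - b) • v = 0 := by rw [sub_smul, h, sub_self]
    exact sub_eq_zero.mp ((smul_eq_zero.mp h1).resolve_right hv0)
  let lam : Γ →* K :=
    { toFun := c
      map_one' := by
        apply hsm
        rw [← hc, map_one, Matrix.one_mulVec, one_smul]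
      map_mul' := by
        intro g h
        apply hsm
        rw [← hc, map_mul, ← Matrix.mulVec_mulVec, hc h, Matrix.mulVec_smul, hc g, smul_smul,
          mul_comm] }
  have hlam : ∀ g, lam g = c g := fun g => rfl
  have h1 : lam.toHomUnits x = 1 :=
    (MonoidHom.mem_ker).mp (Abelianization.commutator_subset_ker lam.toHomUnits hx)
  have hcx : c x = 1 := by
    have := congrArg Units.val h1
    rw [← hlam]
    simpa using this
  let δ : Γ →* Kˣ := Matrix.GeneralLinearGroup.det.comp ρ.toHomUnits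
  have h2 : δ x = 1 := (MonoidHom.mem_ker).mp (Abelianization.commutator_subset_ker δ hx)
  have hdet : (ρ x).det = 1 := by
    have := congrArg Units.val h2
    simpa [δ] using this
  obtain ⟨M, hM⟩ : ∃ M : Matrix (Fin 2) (Fin 2) K, M = ρ x := ⟨_, rfl⟩
  rw [← hM] at hdet ⊢
  have hMv : M *ᵥ v = v := by rw [hM, hc, hcx, one_smul]
  have hdet2 : (M - 1).det = 0 := by
    apply Matrix.exists_mulVec_eq_zero_iff.mp
    exact ⟨v, hv0, by rw [Matrix.sub_mulVec, hMv, Matrix.one_mulVec, sub_self]⟩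
  rw [Matrix.det_fin_two] at hdet hdet2
  simp only [Matrix.sub_apply, Matrix.one_apply_eq, Matrix.one_apply_ne, ne_eq, Fin.isValue,
    zero_ne_one, one_ne_zero, not_false_eq_true, sub_zero] at hdet2
  have htr : M 0 0 + M 1 1 = 2 := by linear_combination hdet - hdet2
  have hN : (M - 1) * (M - 1) = 0 := by
    ext i j
    fin_cases i <;> fin_cases j
    · simp [Matrix.mul_apply, Fin.sum_univ_two]
      linear_combination (M 0 0) * htr - hdet
    · simp [Matrix.mul_apply, Fin.sum_univ_two]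
      linear_combination (M 0 1) * htr
    · simp [Matrix.mul_apply, Fin.sum_univ_two]
      linear_combination (M 1 0) * htr
    · simp [Matrix.mul_apply, Fin.sum_univ_two]
      linear_combination (M 1 1) * htr - hdet
  have hN2 : (M - 1) ^ p = 0 := pow_eq_zero_of_le hp.two_le (by rw [pow_two, hN])
  have hM1 : M = 1 + (M - 1) := by abel
  rw [hM1, add_pow_char_of_commute p (Commute.one_left _), one_pow, hN2, add_zero]

end Main

end Cfsg.Agent.Lib.Helper12.OddGL2
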