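import Mathlib
import Cfsg.Prelude.Def_Local
import Cfsg.Prelude.Def_Transfer
import Cfsg.Agent.Lib.Helper12.PLen1b
import Cfsg.Agent.Lib.Helper12.Narrow
import Cfsg.Agent.Lib.Helper11.OmegaOne
import Cfsg.Agent.Lib.Helper11.ThompsonAB
import Cfsg.Agent.Lib.Helper1.SZ

set_option autoImplicit false
set_option linter.style.haveILetI false
set_option linter.unusedSectionVars false

namespace Cfsg.Agent.Lib.Helper12

open Cfsg Cfsg.Agent.Lib.Helper6 Cfsg.Agent.Lib.Helper14
open Pointwise

universe u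

variable {G : Type u} [Group G] [Finite G] {p : ℕ} [hp : Fact p.Prime]

/-- `p`-length one, `p` odd: a `p'`-subgroup normalised by a maximal elementary abelian
`p`-subgroup lies in `O_{p'}(G)` -/
theorem plen1_pprime_le (hp2 : p ≠ 2) [Group.IsSolvable G] (hpl : PLengthLE p 1 G)
    (E L : Subgroup G) (hE : IsElementaryAbelian p E)
    (hEmax : ∀ B : Subgroup G, IsElementaryAbelian p B → E ≤ B → B = E)
    (hL : (Nat.card L).Coprime p) (hEL : E ≤ Subgroup.normalizer (L : Set G)) :
    L ≤ pPrimeCore p G := by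
  classical
  have hpp : p.Prime := hp.1
  obtain ⟨V, W, hVn, hWn, hVW, hVc, hWp, hWi, hHH⟩ := plen1_hh hpl
  haveI := hVn
  haveI := hWn
  obtain ⟨hEc, hEe⟩ := hE
  have hEcomm : ∀ a ∈ E, ∀ b ∈ E, a * b = b * a := fun a ha b hb =>
    congrArg Subtype.val (hEc.is_comm.comm (⟨a, ha⟩ : E) ⟨b, hb⟩)
  have hEp : IsPGroup p E := fun e => ⟨1, Subtype.ext (by
    have := hEe e e.2
    simpa only [pow_one, Subgroup.coe_pow, Subgroup.coe_one] using this)⟩
  obtain ⟨S, hES⟩ := hEp.exists_le_sylow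
  have hW : W = V ⊔ (S : Subgroup G) := eq_sup_sylow hVW hWp hWi S
  have hSW : (S : Subgroup G) ≤ W := by rw [hW]; exact le_sup_right
  have hScard : ∃ n, Nat.card (S : Subgroup G) = p ^ n := S.isPGroup'.exists_card_eq
  have hVS : V ⊓ (S : Subgroup G) = ⊥ := by
    obtain ⟨n, hn⟩ := hScard
    exact (Subgroup.disjoint_of_coprime_natCard (by rw [hn]; exact Nat.Coprime.pow_right n hVc)).eq_bot
  have hVsolv : Group.IsSolvable V := inferInstance
  -- p'-elements of W lie in V
  have hP1 : ∀ x ∈ W, (orderOf x).Coprime p → x ∈ V := by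
    intro x hx hxo
    obtain ⟨k, hk⟩ := hWp x hx
    have hcop : (orderOf x).Coprime (p ^ k) := Nat.Coprime.pow_right k hxo
    have hle : Subgroup.zpowers (x ^ p ^ k) ≤ Subgroup.zpowers x :=
      Subgroup.zpowers_le.mpr (Subgroup.pow_mem _ (Subgroup.mem_zpowers x) _)
    have heq : Subgroup.zpowers (x ^ p ^ k) = Subgroup.zpowers x :=
      Subgroup.eq_of_le_of_card_ge hle (by
        rw [Nat.card_zpowers, Nat.card_zpowers, Nat.Coprime.orderOf_pow hcop])
    have : x ∈ Subgroup.zpowers (x ^ p ^ k) := by rw [heq]; exact Subgroup.mem_zpowers x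
    exact (Subgroup.zpowers_le.mpr hk) this
  -- products of elements of V and L are p'-elements
  have hQ : ∀ k ∈ V, ∀ l ∈ L, (orderOf (k * l)).Coprime p := by
    intro k hk l hl
    have h1 : (k * l) ^ Nat.card L ∈ V := by
      rw [← QuotientGroup.eq_one_iff, QuotientGroup.mk_pow, QuotientGroup.mk_mul,
        (QuotientGroup.eq_one_iff k).mpr hk, one_mul, ← QuotientGroup.mk_pow]
      have : l ^ Nat.card L = 1 := by
        have e : ((⟨l, hl⟩ : L) ^ Nat.card L : L) = 1 := pow_card_eq_one'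
        simpa only [Subgroup.coe_pow, Subgroup.coe_one] using congrArg Subtype.val e
      rw [this]
      rfl
    have h2 : ((k * l) ^ Nat.card L) ^ Nat.card V = 1 := by
      have e : ((⟨(k * l) ^ Nat.card L, h1⟩ : V) ^ Nat.card V : V) = 1 := pow_card_eq_one'
      simpa only [Subgroup.coe_pow, Subgroup.coe_one] using congrArg Subtype.val e
    rw [← pow_mul] at h2
    exact Nat.Coprime.coprime_dvd_left (orderOf_dvd_of_pow_eq_one h2) (Nat.Coprime.mul_left hL hVc)
  -- [L, E] ⊆ V
  have hLE : ∀ l ∈ L, ∀ e ∈ E, l * e * l⁻¹ * e⁻¹ ∈ V := by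
    intro l hl e he
    have h1 : e * l⁻¹ * e⁻¹ ∈ L :=
      (Subgroup.mem_normalizer_iff.mp (hEL he) l⁻¹).mp (L.inv_mem hl)
    have h2 : l * e * l⁻¹ * e⁻¹ ∈ L := by
      have e1 : l * e * l⁻¹ * e⁻¹ = l * (e * l⁻¹ * e⁻¹) := by group
      rw [e1]; exact L.mul_mem hl h1
    have h3 : l * e * l⁻¹ * e⁻¹ ∈ W :=
      W.mul_mem (hWn.conj_mem e (hSW (hES he)) l) (W.inv_mem (hSW (hES he)))
    refine hP1 _ h3 ?_
    exact Nat.Coprime.coprime_dvd_left (Subgroup.orderOf_dvd_natCard L h2) hL
  -- the key claim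
  have hclaim : ∀ b : G, (∃ k ∈ V, ∃ l ∈ L, b = k * l) → (∀ e ∈ E, b * e = e * b) → b ∈ V := by
    rintro b ⟨k, hk, l, hl, rfl⟩ hbE
    -- a conjugating element
    have hB : (S : Subgroup G).map (MulAut.conj (k * l)).toMonoidHom ≤ V ⊔ (S : Subgroup G) := by
      rw [← hW]
      rintro _ ⟨s, hs, rfl⟩
      exact hWn.conj_mem s (hSW hs) (k * l)
    obtain ⟨v, hvV, hv⟩ := Cfsg.Agent.Lib.Helper1.sz_conj_rel (S : Subgroup G) V
      (by rw [Subgroup.normalizer_eq_top]; exact le_top)
      (by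
        obtain ⟨n, hn⟩ := hScard
        rw [hn]; exact (Nat.Coprime.pow_right n hVc).symm) (Or.inr hVsolv) _ hB
      (Subgroup.card_map_of_injective (MulAut.conj (k * l)).injective)
    have hvS : ∀ s ∈ (S : Subgroup G), v⁻¹ * ((k * l) * s * (k * l)⁻¹) * v ∈ (S : Subgroup G) := by
      intro s hs
      have h1 : (k * l) * s * (k * l)⁻¹ ∈ MulAut.conj v • (S : Subgroup G) := by
        rw [hv]; exact ⟨s, hs, rfl⟩
      rw [Subgroup.mem_pointwise_smul_iff_inv_smul_mem] at h1
      simpa [MulAut.smul_def, mul_assoc] using h1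
    have hvE : ∀ e ∈ E, v⁻¹ * e * v = e := by
      intro e he
      have h1 := hvS e (hES he)
      have h2 : (k * l) * e * (k * l)⁻¹ = e := by
        rw [hbE e he, mul_inv_cancel_right]
      rw [h2] at h1
      have h3 : v⁻¹ * e * v * e⁻¹ ∈ V ⊓ (S : Subgroup G) := by
        refine Subgroup.mem_inf.mpr ⟨?_, Subgroup.mul_mem _ h1 (Subgroup.inv_mem _ (hES he))⟩
        have e1 : v⁻¹ * e * v * e⁻¹ = v⁻¹ * (e * v * e⁻¹) := by group
        rw [e1]
        exact V.mul_mem (V.inv_mem hvV) (hVn.conj_mem v hvV e)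
      rw [hVS, Subgroup.mem_bot] at h3
      exact mul_inv_eq_one.mp h3
    obtain ⟨n, hn⟩ : ∃ n, n = v⁻¹ * (k * l) := ⟨_, rfl⟩
    have hnS : ∀ s ∈ (S : Subgroup G), n * s * n⁻¹ ∈ (S : Subgroup G) := by
      intro s hs
      have := hvS s hs
      have e1 : n * s * n⁻¹ = v⁻¹ * ((k * l) * s * (k * l)⁻¹) * v := by rw [hn]; group
      rw [e1]; exact this
    have hnE : ∀ e ∈ E, n * e = e * n := by
      intro e he
      have h1 := hvE e he
      have h2 := hbE e he
      rw [hn]
      calc v⁻¹ * (k * l) * e = v⁻¹ * ((k * l) * e) := by group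
        _ = v⁻¹ * (e * (k * l)) := by rw [h2]
        _ = (v⁻¹ * e * v) * v⁻¹ * (k * l) := by group
        _ = e * (v⁻¹ * (k * l)) := by rw [h1]; group
    have hno : (orderOf n).Coprime p := by
      have e1 : n = (v⁻¹ * k) * l := by rw [hn]; group
      rw [e1]
      exact hQ _ (V.mul_mem (V.inv_mem hvV) hk) l hl
    have hnN : n ∈ Subgroup.normalizer ((S : Subgroup G) : Set G) := mem_normalizer_of_conj _ _ hnS
    -- n centralises C_S(E)
    have hA1 : Subgroup.zpowers n ≤
        Subgroup.centralizer (((S : Subgroup G) ⊓ Subgroup.centralizer (E : Set G) : Subgroup G) : Set G) := by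
      refine Cfsg.Agent.Lib.Helper11.omega_one p hp2 _ _ (S.isPGroup'.to_le inf_le_left) ?_ ?_ ?_
      · rw [Subgroup.zpowers_le]
        apply mem_normalizer_of_conj
        intro x hx
        obtain ⟨hxS, hxC⟩ := Subgroup.mem_inf.mp hx
        refine Subgroup.mem_inf.mpr ⟨hnS x hxS, ?_⟩
        rw [Subgroup.mem_centralizer_iff] at hxC ⊢
        intro e he
        have h1 := hxC e he
        have h2 := hnE e he
        have h2' : e * n⁻¹ = n⁻¹ * e := by
          have h5 : n⁻¹ * (n * e) * n⁻¹ = n⁻¹ * (e * n) * n⁻¹ := by rw [h2]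
          simpa [mul_assoc] using h5
        calc e * (n * x * n⁻¹) = (e * n) * x * n⁻¹ := by group
          _ = (n * e) * x * n⁻¹ := by rw [h2]
          _ = n * (e * x) * n⁻¹ := by group
          _ = n * (x * e) * n⁻¹ := by rw [h1]
          _ = n * x * (e * n⁻¹) := by group
          _ = n * x * (n⁻¹ * e) := by rw [h2']
          _ = n * x * n⁻¹ * e := by group
      · rw [Nat.card_zpowers]; exact hno
      · intro x hx hxp
        obtain ⟨hxS, hxC⟩ := Subgroup.mem_inf.mp hx
        rw [Subgroup.mem_centralizer_iff] at hxC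
        have hD := elemAb_closure p ((E : Set G) ∪ {x}) (by
          rintro a (ha | ha) b (hb | hb)
          · exact hEcomm a ha b hb
          · rw [Set.mem_singleton_iff] at hb
            rw [hb]; exact hxC a ha
          · rw [Set.mem_singleton_iff] at ha
            rw [ha]; exact (hxC b hb).symm
          · rw [Set.mem_singleton_iff] at ha hb
            rw [ha, hb]) (by
          rintro a (ha | ha)
          · exact hEe a ha
          · rw [Set.mem_singleton_iff] at ha
            rw [ha]; exact hxp)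
        have hle : E ≤ Subgroup.closure ((E : Set G) ∪ {x}) := fun e he =>
          Subgroup.subset_closure (Or.inl he)
        have heq := hEmax _ hD hle
        have hxE : x ∈ E := by
          rw [← heq]; exact Subgroup.subset_closure (Or.inr rfl)
        rw [Subgroup.zpowers_le, Subgroup.mem_centralizer_singleton_iff]
        exact hnE x hxE
    have hA2 : ⁅Subgroup.zpowers n, E⁆ = ⊥ := by
      rw [Subgroup.commutator_eq_bot_iff_le_centralizer, Subgroup.zpowers_le,
        Subgroup.mem_centralizer_iff]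
      intro e he
      exact (hnE e he).symm
    have hA3 := Cfsg.Agent.Lib.Helper11.thompson_AxB p (Subgroup.zpowers n) E
      (by
        rw [Nat.card_zpowers]
        exact fun h => hpp.one_lt.ne' (Nat.dvd_one.mp (by
          have := Nat.dvd_gcd h (dvd_refl p)
          rwa [hno] at this)))
      hEp hA2 (Nat.card (S : Subgroup G)) (S : Subgroup G) S.isPGroup'
      (by rw [Subgroup.zpowers_le]; exact hnN) (hES.trans Subgroup.le_normalizer)
      (Subgroup.le_centralizer_iff.mp hA1) le_rfl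
    have hnS' : ∀ s ∈ (S : Subgroup G), n * s = s * n := by
      intro s hs
      have := Subgroup.mem_centralizer_iff.mp (hA3 hs) n (Subgroup.mem_zpowers n)
      exact this
    -- Hall–Higman
    have hnW : n ∈ W := by
      apply hHH
      intro w hw
      rw [hW] at hw
      have h1 : w ∈ ((V ⊔ (S : Subgroup G) : Subgroup G) : Set G) := hw
      rw [Subgroup.normal_mul] at h1
      obtain ⟨v', hv', s, hs, rfl⟩ := Set.mem_mul.mp h1
      have h2 := hnS' s hs
      have e1 : n * (v' * s) * n⁻¹ * (v' * s)⁻¹ = (n * v' * n⁻¹) * ((n * s) * n⁻¹ * s⁻¹) * v'⁻¹ := by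
        group
      rw [e1, h2]
      have e2 : s * n * n⁻¹ * s⁻¹ = 1 := by group
      rw [e2, mul_one]
      exact V.mul_mem (hVn.conj_mem v' hv' n) (V.inv_mem hv')
    have hnV : n ∈ V := hP1 n hnW hno
    have e3 : k * l = v * n := by rw [hn]; group
    rw [e3]
    exact V.mul_mem hvV hnV
  -- conclusion
  refine le_trans ?_ (le_pPrimeCore p hVn hVc)
  intro l hl
  have hB : E.map (MulAut.conj l).toMonoidHom ≤ V ⊔ E := by
    rintro _ ⟨e, he, rfl⟩
    have e1 : (MulAut.conj l).toMonoidHom e = (l * e * l⁻¹ * e⁻¹) * e := by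
      simp [MulAut.conj_apply]
    rw [e1]
    exact Subgroup.mul_mem_sup (hLE l hl e he) he
  obtain ⟨k, hkV, hk⟩ := Cfsg.Agent.Lib.Helper1.sz_conj_rel E V
    (by rw [Subgroup.normalizer_eq_top]; exact le_top)
    (by
      obtain ⟨n, hn⟩ := hEp.exists_card_eq
      rw [hn]; exact (Nat.Coprime.pow_right n hVc).symm) (Or.inr hVsolv) _ hB
    (Subgroup.card_map_of_injective (MulAut.conj l).injective)
  have hkE : ∀ e ∈ E, k⁻¹ * (l * e * l⁻¹) * k ∈ E := by
    intro e he
    have h1 : l * e * l⁻¹ ∈ MulAut.conj k • E := by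
      rw [hk]; exact ⟨e, he, by simp [MulAut.conj_apply]⟩
    rw [Subgroup.mem_pointwise_smul_iff_inv_smul_mem] at h1
    simpa [MulAut.smul_def, mul_assoc] using h1
  have hbE : ∀ e ∈ E, (k⁻¹ * l) * e = e * (k⁻¹ * l) := by
    intro e he
    have h1 := hkE e he
    have h3 : k⁻¹ * (l * e * l⁻¹) * k * e⁻¹ ∈ V ⊓ (S : Subgroup G) := by
      refine Subgroup.mem_inf.mpr ⟨?_, Subgroup.mul_mem _ (hES h1) (Subgroup.inv_mem _ (hES he))⟩
      have e1 : k⁻¹ * (l * e * l⁻¹) * k * e⁻¹ = k⁻¹ * (l * e * l⁻¹ * e⁻¹) * (e * k * e⁻¹) := by group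
      rw [e1]
      exact V.mul_mem (V.mul_mem (V.inv_mem hkV) (hLE l hl e he)) (hVn.conj_mem k hkV e)
    rw [hVS, Subgroup.mem_bot] at h3
    have h4 : k⁻¹ * (l * e * l⁻¹) * k = e := mul_inv_eq_one.mp h3
    calc k⁻¹ * l * e = (k⁻¹ * (l * e * l⁻¹) * k) * (k⁻¹ * l) := by group
      _ = e * (k⁻¹ * l) := by rw [h4]
  have hbV := hclaim (k⁻¹ * l) ⟨k⁻¹, V.inv_mem hkV, l, hl, rfl⟩ hbE
  have e4 : l = k * (k⁻¹ * l) := by group
  rw [e4]
  exact V.mul_mem hkV hbV

end Cfsg.Agent.Lib.Helper12
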