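import Mathlib
import Cfsg.Agent.Lib.Helper12.OddGL2

/-!
Helper lemmas (helper12): a finite solvable group of odd order acting on an elementary abelian
`p`-group of order at most `p²`: the `p`-th powers of the elements of its commutator subgroup act
trivially.
-/

set_option autoImplicit false
set_option linter.style.haveILetI false

namespace Cfsg.Agent.Lib.Helper12.Rk2Aut

open scoped commutatorElement

section Small

variable {V Γ : Type*} [CommGroup V] [Finite V] [Group Γ] [Finite Γ]

/-- automorphisms of a cyclic group commute -/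
theorem mulAut_comm_of_cyclic {V : Type*} [Group V] [IsCyclic V] (α β : MulAut V) :
    α * β = β * α := by
  obtain ⟨g, hg⟩ := IsCyclic.exists_generator (α := V)
  obtain ⟨i, hi⟩ := Subgroup.mem_zpowers_iff.mp (hg (α g))
  obtain ⟨j, hj⟩ := Subgroup.mem_zpowers_iff.mp (hg (β g))
  ext v
  obtain ⟨k, rfl⟩ := Subgroup.mem_zpowers_iff.mp (hg v)
  simp only [MulAut.mul_apply, map_zpow, ← hi, ← hj, ← zpow_mul]
  congr 1; ring

/-- linear version: a two-dimensional space over `ZMod p` -/
theorem lin_pow_trivial {W : Type*} [AddCommGroup W] (p : ℕ) [Fact p.Prime] [Module (ZMod p) W]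
    [Module.Finite (ZMod p) W] (hfr : Module.finrank (ZMod p) W = 2)
    (hs : Group.IsSolvable Γ) (hodd : Odd (Nat.card Γ))
    (ψ : Γ →* Module.End (ZMod p) W) (x : Γ) (hx : x ∈ commutator Γ) : ψ (x ^ p) = 1 := by
  classical
  let b : Module.Basis (Fin 2) (ZMod p) W := Module.finBasisOfFinrankEq (ZMod p) W hfr
  let ρ : Γ →* Matrix (Fin 2) (Fin 2) (AlgebraicClosure (ZMod p)) :=
    { toFun := fun g => (LinearMap.toMatrix b b (ψ g)).map
        (algebraMap (ZMod p) (AlgebraicClosure (ZMod p)))
      map_one' := by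
        rw [map_one, LinearMap.toMatrix_one, Matrix.map_one _ (map_zero _) (map_one _)]
      map_mul' := fun g h => by
        rw [map_mul, LinearMap.toMatrix_mul, Matrix.map_mul] }
  have key := Cfsg.Agent.Lib.Helper12.OddGL2.pow_p_eq_one p hs hodd ρ x hx
  have h1 : ρ (x ^ p) = 1 := by rw [map_pow, key]
  have h2' : (LinearMap.toMatrix b b (ψ (x ^ p))).map
      (algebraMap (ZMod p) (AlgebraicClosure (ZMod p))) =
      (1 : Matrix (Fin 2) (Fin 2) (ZMod p)).map
        (algebraMap (ZMod p) (AlgebraicClosure (ZMod p))) := by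
    rw [Matrix.map_one _ (map_zero _) (map_one _)]; exact h1
  have h2 : LinearMap.toMatrix b b (ψ (x ^ p)) = 1 :=
    Matrix.map_injective (algebraMap (ZMod p) (AlgebraicClosure (ZMod p))).injective h2'
  apply (LinearMap.toMatrix b b).injective
  rw [h2, LinearMap.toMatrix_one]

/-- additive version with the module structure as an instance argument -/
theorem add_pow_trivial {W : Type*} [AddCommGroup W] [Finite W] (p : ℕ) [Fact p.Prime]
    [Module (ZMod p) W] (hcard : Nat.card W = p ^ 2)
    (hs : Group.IsSolvable Γ) (hodd : Odd (Nat.card Γ))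
    (φ : Γ → W →+ W) (h1 : ∀ w, φ 1 w = w) (hmul : ∀ g h w, φ (g * h) w = φ g (φ h w))
    (x : Γ) (hx : x ∈ commutator Γ) (w : W) : φ (x ^ p) w = w := by
  classical
  have hp : p.Prime := Fact.out
  haveI : Module.Finite (ZMod p) W := Module.Finite.of_finite
  have hfr : Module.finrank (ZMod p) W = 2 := by
    have h1 := Module.natCard_eq_pow_finrank (K := ZMod p) (V := W)
    rw [hcard, Nat.card_zmod] at h1
    exact (Nat.pow_right_injective hp.two_le h1).symm
  let ψ : Γ →* Module.End (ZMod p) W :=
    { toFun := fun g => (φ g).toZModLinearMap p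
      map_one' := by
        apply LinearMap.ext; intro v
        rw [AddMonoidHom.coe_toZModLinearMap, h1]; rfl
      map_mul' := fun g h => by
        apply LinearMap.ext; intro v
        rw [AddMonoidHom.coe_toZModLinearMap, hmul]; rfl }
  have h3 := lin_pow_trivial p hfr hs hodd ψ x hx
  have h4 := congrArg (fun f : Module.End (ZMod p) W => f w) h3
  exact h4

/-- the module structure on an elementary abelian group -/
@[reducible] def zmodMod (p : ℕ) (hV : ∀ v : V, v ^ p = 1) : Module (ZMod p) (Additive V) :=
  AddCommGroup.zmodModule (n := p) (fun v => by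
    have h1 := hV v.toMul
    have h2 : p • v = Additive.ofMul (v.toMul ^ p) := rfl
    rw [h2, h1]; rfl)

/-- the case of order `p²` -/
theorem comm_pow_trivial_sq (p : ℕ) [Fact p.Prime] (hV : ∀ v : V, v ^ p = 1)
    (hcard : Nat.card V = p ^ 2) (hs : Group.IsSolvable Γ) (hodd : Odd (Nat.card Γ))
    (φ : Γ →* MulAut V) (x : Γ) (hx : x ∈ commutator Γ) : φ (x ^ p) = 1 := by
  classical
  have hcard' : Nat.card (Additive V) = p ^ 2 := hcard
  ext v
  have h := @add_pow_trivial Γ _ _ (Additive V) _ _ p _ (zmodMod p hV) hcard' hs hodd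
    (fun g => (MulEquiv.toAdditive (φ g)).toAddMonoidHom)
    (fun w => by
      show Additive.ofMul ((φ 1) w.toMul) = w
      rw [map_one]; rfl)
    (fun g h w => by
      show Additive.ofMul ((φ (g * h)) w.toMul) = Additive.ofMul ((φ g) ((φ h) w.toMul))
      rw [map_mul]; rfl)
    x hx (Additive.ofMul v)
  exact congrArg Additive.toMul h

/-- general case: order at most `p²` -/
theorem comm_pow_trivial (p : ℕ) [Fact p.Prime] (hV : ∀ v : V, v ^ p = 1)
    (hcard : Nat.card V ≤ p ^ 2) (hs : Group.IsSolvable Γ) (hodd : Odd (Nat.card Γ))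
    (φ : Γ →* MulAut V) (x : Γ) (hx : x ∈ commutator Γ) : φ (x ^ p) = 1 := by
  have hp : p.Prime := Fact.out
  have hVp : IsPGroup p V := fun v => ⟨1, by rw [pow_one]; exact hV v⟩
  obtain ⟨n, hn⟩ := IsPGroup.iff_card.mp hVp
  have hn2 : n ≤ 2 := by
    rw [hn] at hcard
    exact (Nat.pow_le_pow_iff_right hp.one_lt).mp hcard
  rcases Nat.lt_or_ge n 2 with hlt | hge
  · have hcyc : IsCyclic V := by
      interval_cases n
      · rw [pow_zero] at hn
        have : Subsingleton V := (Nat.card_eq_one_iff_unique.mp hn).1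
        exact isCyclic_of_subsingleton
      · rw [pow_one] at hn
        exact isCyclic_of_prime_card hn
    have h1 : φ x = 1 := by
      have hle : commutator Γ ≤ φ.ker := by
        rw [commutator_def, Subgroup.commutator_le]
        intro g _ h _
        rw [MonoidHom.mem_ker, map_commutatorElement, commutatorElement_eq_one_iff_mul_comm]
        exact mulAut_comm_of_cyclic _ _
      exact MonoidHom.mem_ker.mp (hle hx)
    rw [map_pow, h1, one_pow]
  · have hn' : n = 2 := le_antisymm hn2 hge
    rw [hn'] at hn
    exact comm_pow_trivial_sq p hV hn hs hodd φ x hx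

end Small

end Cfsg.Agent.Lib.Helper12.Rk2Aut
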