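import Mathlib
import Cfsg.Prelude.Def_CaseTheorems
import Cfsg.Agent.S0093
import Cfsg.Agent.S0121
import Cfsg.Agent.Lib.Helper21.CoprimeAbs
import Cfsg.Agent.Lib.Helper11.AutRank2
import Cfsg.Agent.Lib.Helper12.MetaCop
import Cfsg.Agent.Lib.Helper12.Rk2Aut

/-!
Helper lemmas (helper12): a finite solvable group of odd order acting on a `p`-group of rank at
most two (`p` odd): the elements of its commutator subgroup act as `p`-elements.
-/

set_option autoImplicit false
set_option linter.style.haveILetI false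

namespace Cfsg.Agent.Lib.Helper12.Rk2Main

open scoped commutatorElement
open Cfsg.Agent.Lib.Helper12.MetaCop

section Fix

variable {X : Type*} [Group X]

/-- an automorphism of order prime to `p` moving `x` by a fixed element of order `p` fixes `x` -/
theorem fix_of_quot (α : MulAut X) (m p : ℕ) (hm : α ^ m = 1) (hcop : m.Coprime p) (x : X)
    (h1 : α (x⁻¹ * α x) = x⁻¹ * α x) (h2 : (x⁻¹ * α x) ^ p = 1) : α x = x := by
  obtain ⟨ω, hω⟩ : ∃ ω, ω = x⁻¹ * α x := ⟨_, rfl⟩
  rw [← hω] at h1 h2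
  have hαx : α x = x * ω := by rw [hω]; group
  have hk : ∀ k : ℕ, (α ^ k) ω = ω := by
    intro k
    induction k with
    | zero => simp
    | succ k ih => rw [pow_succ, MulAut.mul_apply, h1, ih]
  have hk2 : ∀ k : ℕ, (α ^ k) x = x * ω ^ k := by
    intro k
    induction k with
    | zero => simp
    | succ k ih => rw [pow_succ, MulAut.mul_apply, hαx, map_mul, ih, hk, pow_succ, mul_assoc]
  have h3 := hk2 m
  rw [hm, MulAut.one_apply] at h3
  have h4 : ω ^ m = 1 := by
    have h5 : x * ω ^ m = x * 1 := by rw [mul_one]; exact h3.symm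
    exact mul_left_cancel h5
  have h5 : ω = 1 := by
    have d1 := orderOf_dvd_of_pow_eq_one h4
    have d2 := orderOf_dvd_of_pow_eq_one h2
    exact orderOf_eq_one_iff.mp (Nat.eq_one_of_dvd_coprimes hcop d1 d2)
  rw [hαx, h5, mul_one]

/-- a `p'`-automorphism of a `p`-group of class two (`p` odd, commutators of order `p`) fixing all
elements of order `p` is trivial -/
theorem omega_fix (p : ℕ) [Fact p.Prime] (hp2 : p ≠ 2) (hX : IsPGroup p X)
    (hcen : ∀ x y w : X, ⁅x, y⁆ * w = w * ⁅x, y⁆) (hexp : ∀ x y : X, ⁅x, y⁆ ^ p = 1)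
    (α : MulAut X) (m : ℕ) (hm : α ^ m = 1) (hcop : m.Coprime p)
    (hfix : ∀ x : X, x ^ p = 1 → α x = x) : α = 1 := by
  have hp : p.Prime := Fact.out
  have key : ∀ j : ℕ, ∀ x : X, x ^ (p ^ j) = 1 → α x = x := by
    intro j
    induction j with
    | zero => intro x hx; rw [pow_zero, pow_one] at hx; rw [hx, map_one]
    | succ j ih =>
      intro x hx
      have h1 : α (x ^ p) = x ^ p := ih _ (by rw [← pow_mul, ← pow_succ']; exact hx)
      have h2 : (x⁻¹ * α x) ^ p = 1 := by
        rw [mul_pow_of_dvd hcen hp hp2 hexp p (dvd_refl p), inv_pow, ← map_pow, h1,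
          inv_mul_cancel]
      exact fix_of_quot α m p hm hcop x (hfix _ h2) h2
  ext x
  obtain ⟨k, hk⟩ := hX x
  exact key k x hk

/-- a `p'`-automorphism of a group of exponent `p` and class two that is trivial on the
abelianization is trivial -/
theorem fix_of_abel (p : ℕ) (hexpT : ∀ t : X, t ^ p = 1)
    (hcen : ∀ x y w : X, ⁅x, y⁆ * w = w * ⁅x, y⁆)
    (α : MulAut X) (m : ℕ) (hm : α ^ m = 1) (hcop : m.Coprime p)
    (hab : ∀ t : X, t⁻¹ * α t ∈ commutator X) : α = 1 := by
  have hle : commutator X ≤ Subgroup.center X := by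
    rw [commutator_eq_closure, Subgroup.closure_le]
    rintro _ ⟨g₁, g₂, rfl⟩
    exact Subgroup.mem_center_iff.mpr (fun w => (hcen g₁ g₂ w).symm)
  have hcz : ∀ c ∈ commutator X, ∀ w : X, c * w = w * c := fun c hc w =>
    (Subgroup.mem_center_iff.mp (hle hc) w).symm
  have hcomm : ∀ a b : X, α ⁅a, b⁆ = ⁅a, b⁆ := by
    intro a b
    obtain ⟨c, hc⟩ : ∃ c, c = a⁻¹ * α a := ⟨_, rfl⟩
    obtain ⟨d, hd⟩ : ∃ d, d = b⁻¹ * α b := ⟨_, rfl⟩
    have hc' : c ∈ commutator X := hc ▸ hab a
    have hd' : d ∈ commutator X := hd ▸ hab b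
    have ha : α a = a * c := by rw [hc]; group
    have hb : α b = b * d := by rw [hd]; group
    rw [map_commutatorElement, ha, hb, comm_mul_left hcen, comm_mul_right hcen,
      comm_mul_right hcen]
    have e1 : ⁅a, d⁆ = 1 := commutatorElement_eq_one_iff_mul_comm.mpr (hcz d hd' a).symm
    have e2 : ⁅c, b⁆ = 1 := commutatorElement_eq_one_iff_mul_comm.mpr (hcz c hc' b)
    have e3 : ⁅c, d⁆ = 1 := commutatorElement_eq_one_iff_mul_comm.mpr (hcz c hc' d)
    rw [e1, e2, e3, mul_one, mul_one, mul_one]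
  have hfixc : commutator X ≤ (α.toMonoidHom).eqLocus (MonoidHom.id X) := by
    rw [commutator_eq_closure, Subgroup.closure_le]
    rintro _ ⟨g₁, g₂, rfl⟩
    exact hcomm g₁ g₂
  ext t
  exact fix_of_quot α m p hm hcop t (hfixc (hab t)) (hexpT _)

end Fix

section Res

variable {P : Type*} [Group P] [Finite P] {Γ : Type*} [Group Γ]

/-- restriction of an action by automorphisms to an invariant subgroup -/
noncomputable def resHom (κ : Γ →* MulAut P) (T : Subgroup P)
    (h : ∀ g : Γ, ∀ t ∈ T, κ g t ∈ T) : Γ →* MulAut ↥T where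
  toFun g := Cfsg.Agent.Lib.Helper11.restrictAut (κ g) T (h g)
  map_one' := by
    ext t
    rw [Cfsg.Agent.Lib.Helper11.restrictAut_apply, map_one]; rfl
  map_mul' g₁ g₂ := by
    ext t
    rw [MulAut.mul_apply, Cfsg.Agent.Lib.Helper11.restrictAut_apply,
      Cfsg.Agent.Lib.Helper11.restrictAut_apply, Cfsg.Agent.Lib.Helper11.restrictAut_apply,
      map_mul]; rfl

theorem resHom_apply (κ : Γ →* MulAut P) (T : Subgroup P)
    (h : ∀ g : Γ, ∀ t ∈ T, κ g t ∈ T) (g : Γ) (t : T) :
    ((resHom κ T h g t : T) : P) = κ g t := rfl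

/-- the induced action on the abelianization -/
noncomputable def abHom {X : Type*} [Group X] (ψ : Γ →* MulAut X) :
    Γ →* MulAut (Abelianization X) where
  toFun g := MulEquiv.abelianizationCongr (ψ g)
  map_one' := by
    ext v
    obtain ⟨t, rfl⟩ := QuotientGroup.mk_surjective v
    change MulEquiv.abelianizationCongr (ψ 1) (Abelianization.of t) = Abelianization.of t
    rw [abelianizationCongr_of, map_one]; rfl
  map_mul' g₁ g₂ := by
    ext v
    obtain ⟨t, rfl⟩ := QuotientGroup.mk_surjective v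
    change MulEquiv.abelianizationCongr (ψ (g₁ * g₂)) (Abelianization.of t) =
      MulEquiv.abelianizationCongr (ψ g₁)
        (MulEquiv.abelianizationCongr (ψ g₂) (Abelianization.of t))
    rw [abelianizationCongr_of, abelianizationCongr_of, abelianizationCongr_of, map_mul]; rfl

theorem abHom_of {X : Type*} [Group X] (ψ : Γ →* MulAut X) (g : Γ) (t : X) :
    abHom ψ g (Abelianization.of t) = Abelianization.of (ψ g t) :=
  abelianizationCongr_of _ _

end Res

section Main

variable {P : Type*} [Group P] [Finite P] {Γ : Type*} [Group Γ] [Finite Γ]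

omit [Finite P] in
/-- the rank bound passes to subgroups -/
theorem prank_sub (p : ℕ) (hrk : Cfsg.PRankLE p 2 P) (T : Subgroup P) :
    Cfsg.PRankLE p 2 ↥T := by
  intro A hA hAp
  have h1 := hrk (A.map T.subtype) inferInstance (by
    rintro _ ⟨a, ha, rfl⟩
    have := hAp a ha
    change ((a : ↥T) : P) ^ p = 1
    rw [← Subgroup.coe_pow, this, Subgroup.coe_one])
  rwa [Subgroup.card_map_of_injective T.subtype_injective] at h1

/-- a group of exponent `p`, class two and rank at most two has abelianization of order at most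
`p²` -/
theorem card_abel_le {T : Type*} [Group T] [Finite T] (p : ℕ) [Fact p.Prime]
    (hrk : Cfsg.PRankLE p 2 T) (hexp : ∀ t : T, t ^ p = 1)
    (hcen : ∀ x y w : T, ⁅x, y⁆ * w = w * ⁅x, y⁆) : Nat.card (Abelianization T) ≤ p ^ 2 := by
  classical
  have hp : p.Prime := Fact.out
  have hT : IsPGroup p T := fun t => ⟨1, by rw [pow_one]; exact hexp t⟩
  have hidx : Nat.card (commutator T) * Nat.card (Abelianization T) = Nat.card T :=
    Subgroup.card_mul_index (commutator T)
  by_cases hcomm : ∀ a b : T, a * b = b * a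
  · have h1 := hrk ⊤ ⟨⟨fun a b => Subtype.ext (hcomm a b)⟩⟩ (fun a _ => hexp a)
    rw [Subgroup.card_top] at h1
    calc Nat.card (Abelianization T)
        ≤ Nat.card (commutator T) * Nat.card (Abelianization T) :=
          Nat.le_mul_of_pos_left _ Nat.card_pos
      _ = Nat.card T := hidx
      _ ≤ p ^ 2 := h1
  · push Not at hcomm
    obtain ⟨a, b, hab⟩ := hcomm
    have hZ : Subgroup.center T ≠ ⊤ := by
      intro h
      have : a ∈ Subgroup.center T := h ▸ Subgroup.mem_top a
      exact hab (Subgroup.mem_center_iff.mp this b).symm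
    have hcl : ∀ x y : T, ⁅x, y⁆ ∈ Subgroup.center T := fun x y =>
      Subgroup.mem_center_iff.mpr (fun w => (hcen x y w).symm)
    have h1 := Cfsg.Agent.Lib.Helper11.card_le_of_rank2 hT hrk hexp hcl hZ
    have hZp : Nat.card (Subgroup.center T) ≤ p := by
      obtain ⟨x, hx⟩ : ∃ x : T, x ∉ Subgroup.center T := by
        by_contra h
        push Not at h
        exact hZ (eq_top_iff.mpr (fun y _ => h y))
      have hBc := Cfsg.Agent.Lib.Helper11.comm_closure_insert (Subgroup.center T)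
        (fun a ha b _ => (Subgroup.mem_center_iff.mp ha b).symm) x
        (fun a ha => (Subgroup.mem_center_iff.mp ha x).symm)
      obtain ⟨B, hB⟩ : ∃ B : Subgroup T,
          B = Subgroup.closure (insert x (Subgroup.center T : Set T)) := ⟨_, rfl⟩
      rw [← hB] at hBc
      have hBcard : Nat.card B ≤ p ^ 2 :=
        hrk B ⟨⟨fun a b => Subtype.ext (hBc a a.2 b b.2)⟩⟩ (fun a _ => hexp a)
      have hlt : Subgroup.center T < B := by
        refine lt_of_le_of_ne ?_ ?_
        · rw [hB]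
          exact fun z hz => Subgroup.subset_closure (Set.mem_insert_of_mem _ hz)
        · intro h
          apply hx
          rw [h, hB]
          exact Subgroup.subset_closure (Set.mem_insert _ _)
      have hlt' := Cfsg.Agent.Lib.Helper11.card_lt_of_lt_ar hlt
      obtain ⟨z, hz⟩ := IsPGroup.iff_card.mp (hT.to_subgroup (Subgroup.center T))
      obtain ⟨b', hb'⟩ := IsPGroup.iff_card.mp (hT.to_subgroup B)
      rw [hz, hb'] at hlt'
      rw [hb'] at hBcard
      have e1 : z < b' := (Nat.pow_lt_pow_iff_right hp.one_lt).mp hlt'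
      have e2 : b' ≤ 2 := (Nat.pow_le_pow_iff_right hp.one_lt).mp hBcard
      rw [hz]
      calc p ^ z ≤ p ^ 1 := Nat.pow_le_pow_right hp.pos (by omega)
        _ = p := pow_one p
    have hCp : p ≤ Nat.card (commutator T) := by
      obtain ⟨c, hc⟩ := IsPGroup.iff_card.mp (hT.to_subgroup (commutator T))
      have hne : Nat.card (commutator T) ≠ 1 := by
        intro h1
        rw [Subgroup.card_eq_one] at h1
        apply hab
        have : ⁅a, b⁆ ∈ commutator T :=
          Subgroup.commutator_mem_commutator (Subgroup.mem_top a) (Subgroup.mem_top b)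
        rw [h1, Subgroup.mem_bot] at this
        exact commutatorElement_eq_one_iff_mul_comm.mp this
      rw [hc] at hne ⊢
      have : c ≠ 0 := by rintro rfl; exact hne (pow_zero p)
      calc p = p ^ 1 := (pow_one p).symm
        _ ≤ p ^ c := Nat.pow_le_pow_right hp.pos (by omega)
    have h2 : p * Nat.card (Abelianization T) ≤ p * p ^ 2 := by
      calc p * Nat.card (Abelianization T)
          ≤ Nat.card (commutator T) * Nat.card (Abelianization T) :=
            Nat.mul_le_mul_right _ hCp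
        _ = Nat.card T := hidx
        _ ≤ p ^ 2 * Nat.card (Subgroup.center T) := h1
        _ ≤ p ^ 2 * p := Nat.mul_le_mul_left _ hZp
        _ = p * p ^ 2 := mul_comm _ _
    exact Nat.le_of_mul_le_mul_left h2 hp.pos

/-- **Main theorem.** A finite solvable group of odd order acting on a `p`-group of rank at most
two (`p` odd): every element of the commutator subgroup acts as a `p`-element. -/
theorem rk2_main (p : ℕ) [Fact p.Prime] (hp2 : p ≠ 2) (hP : IsPGroup p P)
    (hrk : Cfsg.PRankLE p 2 P) (hs : Group.IsSolvable Γ) (hodd : Odd (Nat.card Γ))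
    (κ : Γ →* MulAut P) (x : Γ) (hx : x ∈ commutator Γ) : ∃ k : ℕ, κ (x ^ p ^ k) = 1 := by
  classical
  have hp : p.Prime := Fact.out
  obtain ⟨H, hHchar, hfr, hHc, hCH⟩ := Cfsg.Agent.S0093.result hP
  have hHp : IsPGroup p ↥H := hP.to_subgroup H
  have F2 : ∀ x ∈ H, ∀ w ∈ H, x ^ p * w = w * x ^ p := by
    intro x hx w hw
    have h1 : (⟨x, hx⟩ : ↥H) ^ p ∈ frattini ↥H :=
      Cfsg.Agent.Lib.Helper21.pow_mem_frattini' hHp _
    have h2 : x ^ p ∈ Subgroup.centralizer (H : Set P) := hfr ⟨_, h1, rfl⟩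
    exact (Subgroup.mem_centralizer_iff.mp h2 w hw).symm
  have F1 : ∀ x ∈ H, ∀ y ∈ H, ∀ w ∈ H, ⁅x, y⁆ * w = w * ⁅x, y⁆ := by
    intro x hx y hy w hw
    haveI : Group.IsNilpotent ↥H := hHp.isNilpotent
    have h1 : ⁅(⟨x, hx⟩ : ↥H), ⟨y, hy⟩⁆ ∈ frattini ↥H :=
      Cfsg.Agent.Lib.Helper18.commutator_le_frattini_of_isNilpotent
        (Subgroup.commutator_mem_commutator (Subgroup.mem_top _) (Subgroup.mem_top _))
    have h2 : ⁅x, y⁆ ∈ Subgroup.centralizer (H : Set P) := hfr ⟨_, h1, rfl⟩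
    exact (Subgroup.mem_centralizer_iff.mp h2 w hw).symm
  have hcenH : ∀ x y w : ↥H, ⁅x, y⁆ * w = w * ⁅x, y⁆ := by
    intro x y w
    apply Subtype.ext
    exact F1 x x.2 y y.2 w w.2
  have hexpH : ∀ x y : ↥H, ⁅x, y⁆ ^ p = 1 := by
    intro x y
    rw [← comm_pow_left hcenH, commutatorElement_eq_one_iff_mul_comm]
    apply Subtype.ext
    exact F2 x x.2 y y.2
  obtain ⟨T, hTdef⟩ : ∃ T : Subgroup P,
      T = (pw hcenH hp hp2 hexpH p (dvd_refl p)).ker.map H.subtype := ⟨_, rfl⟩
  have hTmem : ∀ t : P, t ∈ T ↔ t ∈ H ∧ t ^ p = 1 := by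
    intro t
    rw [hTdef]
    constructor
    · rintro ⟨u, hu, rfl⟩
      refine ⟨u.2, ?_⟩
      have : u ^ p = 1 := hu
      exact congrArg Subtype.val this
    · rintro ⟨hH, hp1⟩
      exact ⟨⟨t, hH⟩, Subtype.ext hp1, rfl⟩
  have hTH : T ≤ H := fun t ht => ((hTmem t).mp ht).1
  have hHinv : ∀ g : Γ, ∀ t ∈ H, κ g t ∈ H := by
    intro g t ht
    have h := hHchar.fixed (κ g)
    rw [← h] at ht
    exact ht
  have hTinv : ∀ g : Γ, ∀ t ∈ T, κ g t ∈ T := by
    intro g t ht
    rw [hTmem] at ht ⊢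
    exact ⟨hHinv g t ht.1, by rw [← map_pow, ht.2, map_one]⟩
  have hexpT : ∀ t : ↥T, t ^ p = 1 := fun t => Subtype.ext ((hTmem t).mp t.2).2
  have hcenT : ∀ x y w : ↥T, ⁅x, y⁆ * w = w * ⁅x, y⁆ := by
    intro x y w
    apply Subtype.ext
    exact F1 x (hTH x.2) y (hTH y.2) w (hTH w.2)
  have hcardV := card_abel_le p (prank_sub p hrk T) hexpT hcenT
  have hexpV : ∀ v : Abelianization ↥T, v ^ p = 1 := by
    intro v
    obtain ⟨t, rfl⟩ := QuotientGroup.mk_surjective v
    change (Abelianization.of t) ^ p = 1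
    rw [← map_pow, hexpT, map_one]
  obtain ⟨Φ, hΦ⟩ : ∃ Φ : Γ →* MulAut (Abelianization ↥T), Φ = abHom (resHom κ T hTinv) :=
    ⟨_, rfl⟩
  have h1 : Φ (x ^ p) = 1 :=
    Cfsg.Agent.Lib.Helper12.Rk2Aut.comm_pow_trivial p hexpV hcardV hs hodd Φ x hx
  have hΓpos : 0 < orderOf (x ^ p) := orderOf_pos _
  obtain ⟨k, m, hm, hkm⟩ := Nat.exists_eq_pow_mul_and_not_dvd hΓpos.ne' p hp.ne_one
  refine ⟨k + 1, ?_⟩
  obtain ⟨y, hy⟩ : ∃ y, y = x ^ p ^ (k + 1) := ⟨_, rfl⟩
  rw [← hy]
  have hy' : y = (x ^ p) ^ p ^ k := by rw [hy, ← pow_mul, ← pow_succ']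
  have hym : y ^ m = 1 := by
    rw [hy', ← pow_mul, ← hkm]
    exact pow_orderOf_eq_one _
  have hcop : m.Coprime p := Nat.Coprime.symm ((Nat.Prime.coprime_iff_not_dvd hp).mpr hm)
  have hΦy : Φ y = 1 := by rw [hy', map_pow, h1, one_pow]
  have hαm : (κ y) ^ m = 1 := by rw [← map_pow, hym, map_one]
  have hT1 : resHom κ T hTinv y = 1 := by
    apply fix_of_abel p hexpT hcenT (resHom κ T hTinv y) m
      (by rw [← map_pow, hym, map_one]) hcop
    intro t
    have h2 : Φ y (Abelianization.of t) = Abelianization.of t := by rw [hΦy]; rfl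
    rw [hΦ, abHom_of] at h2
    rw [← Abelianization.ker_of, MonoidHom.mem_ker, map_mul, map_inv, h2, inv_mul_cancel]
  have hTfix : ∀ t ∈ T, κ y t = t := by
    intro t ht
    have := congrArg (fun f : MulAut ↥T => ((f ⟨t, ht⟩ : ↥T) : P)) hT1
    exact this
  have hH1 : resHom κ H hHinv y = 1 := by
    apply omega_fix p hp2 hHp hcenH hexpH (resHom κ H hHinv y) m
      (by rw [← map_pow, hym, map_one]) hcop
    intro u hu
    apply Subtype.ext
    have : (u : P) ∈ T := (hTmem _).mpr ⟨u.2, congrArg Subtype.val hu⟩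
    exact hTfix _ this
  have hHfix : ∀ t ∈ H, κ y t = t := by
    intro t ht
    have := congrArg (fun f : MulAut ↥H => ((f ⟨t, ht⟩ : ↥H) : P)) hH1
    exact this
  exact Cfsg.Agent.S0121.result hP H hHchar hfr hHc hCH (κ y)
    (Nat.Coprime.coprime_dvd_left (orderOf_dvd_of_pow_eq_one hαm) hcop) hHfix

end Main

section Sub

variable {G : Type*} [Group G]

/-- the conjugation action of a subgroup of the normalizer -/
def conjHom (R A : Subgroup G) (hA : A ≤ Subgroup.normalizer (R : Set G)) : ↥A →* MulAut ↥R where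
  toFun a :=
    { toFun := fun r => ⟨a * r * (a : G)⁻¹, (Subgroup.mem_normalizer_iff.mp (hA a.2) r).mp r.2⟩
      invFun := fun r => ⟨(a : G)⁻¹ * r * a, by
        have h := (Subgroup.mem_normalizer_iff.mp (hA a.2) ((a : G)⁻¹ * r * a)).mpr (by
          have e : (a : G) * ((a : G)⁻¹ * r * a) * (a : G)⁻¹ = r := by group
          rw [e]; exact r.2)
        exact h⟩
      left_inv := fun r => Subtype.ext (by
        change (a : G)⁻¹ * (a * r * (a : G)⁻¹) * a = r
        group)
      right_inv := fun r => Subtype.ext (by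
        change (a : G) * ((a : G)⁻¹ * r * a) * (a : G)⁻¹ = r
        group)
      map_mul' := fun r s => Subtype.ext (by
        change (a : G) * ((r : G) * s) * (a : G)⁻¹ = (a * r * (a : G)⁻¹) * (a * s * (a : G)⁻¹)
        group) }
  map_one' := by
    ext r
    change ((1 : ↥A) : G) * r * ((1 : ↥A) : G)⁻¹ = r
    rw [Subgroup.coe_one]; group
  map_mul' a b := by
    ext r
    change ((a * b : ↥A) : G) * r * ((a * b : ↥A) : G)⁻¹ =
      (a : G) * ((b : G) * r * (b : G)⁻¹) * (a : G)⁻¹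
    rw [Subgroup.coe_mul]; group

theorem conjHom_apply (R A : Subgroup G) (hA : A ≤ Subgroup.normalizer (R : Set G)) (a : ↥A)
    (r : ↥R) : ((conjHom R A hA a r : ↥R) : G) = a * r * (a : G)⁻¹ := rfl

/-- subgroup form of the main theorem -/
theorem rk2_sub [Finite G] (p : ℕ) [Fact p.Prime] (hp : p ≠ 2) (R A : Subgroup G)
    (hR : IsPGroup p R) (hr : Cfsg.PRankLE p 2 R)
    (hA : A ≤ Subgroup.normalizer (R : Set G)) (hAs : Group.IsSolvable A)
    (hAodd : Odd (Nat.card A)) :
    ∀ x ∈ ⁅A, A⁆, ∃ k : ℕ, x ^ p ^ k ∈ Subgroup.centralizer (R : Set G) := by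
  intro x hx
  rw [← Subgroup.map_subtype_commutator] at hx
  obtain ⟨x', hx', rfl⟩ := hx
  obtain ⟨k, hk⟩ := rk2_main p hp hR hr hAs hAodd (conjHom R A hA) x' hx'
  refine ⟨k, ?_⟩
  rw [Subgroup.mem_centralizer_iff]
  intro r hr'
  have h1 := congrArg (fun f : MulAut ↥R => ((f ⟨r, hr'⟩ : ↥R) : G)) hk
  have h2 : ((x' ^ p ^ k : ↥A) : G) * r * ((x' ^ p ^ k : ↥A) : G)⁻¹ = r := h1
  rw [Subgroup.coe_pow] at h2
  have h3 : (A.subtype x') ^ p ^ k * r = r * (A.subtype x') ^ p ^ k := by
    have e : (x' : G) ^ p ^ k * r = ((x' : G) ^ p ^ k * r * ((x' : G) ^ p ^ k)⁻¹) *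
        (x' : G) ^ p ^ k := by group
    change (x' : G) ^ p ^ k * r = r * (x' : G) ^ p ^ k
    rw [e, h2]
  exact h3.symm

end Sub

end Cfsg.Agent.Lib.Helper12.Rk2Main
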