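import Mathlib
import Cfsg.Prelude.Def_CaseTheorems
import Cfsg.Prelude.Def_OddOrderLocal
import Cfsg.Agent.S0009
import Cfsg.Agent.S0640
import Cfsg.Agent.Lib.Helper21.FittingK
import Cfsg.Agent.Lib.Helper12.Rk2Main
import Cfsg.Agent.Lib.Helper12.CN

/-!
Helper lemmas (helper12): solvable groups of odd order in which every `O_p(G)` has rank at most
two: the derived subgroup is nilpotent, and there are characteristic Hall subgroups for the sets
of primes above a bound.
-/

set_option autoImplicit false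
set_option linter.style.haveILetI false

namespace Cfsg.Agent.Lib.Helper12.Rk2Fit

open scoped commutatorElement
open Cfsg.Agent.Lib.Helper12

variable {G : Type*} [Group G] [Finite G]

omit [Finite G] in
/-- a subgroup containing the derived subgroup is normal -/
theorem normal_of_comm_le (H : Subgroup G) (h : commutator G ≤ H) : H.Normal := by
  constructor
  intro n hn g
  have e : g * n * g⁻¹ = ⁅g, n⁆ * n := by rw [commutatorElement_def]; group
  rw [e]
  exact H.mul_mem (h (Subgroup.commutator_mem_commutator (Subgroup.mem_top g)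
    (Subgroup.mem_top n))) hn

omit [Finite G] in
/-- the rank bound passes to smaller subgroups -/
theorem prank_of_le (p k : ℕ) {H K : Subgroup G} (h : H ≤ K) (hK : Cfsg.PRankLE p k ↥K) :
    Cfsg.PRankLE p k ↥H := by
  intro A hA hAp
  have h1 := hK ((A.map H.subtype).subgroupOf K) inferInstance (by
    intro x hx
    rw [Subgroup.mem_subgroupOf] at hx
    obtain ⟨a, ha, hax⟩ := hx
    apply Subtype.ext
    rw [Subgroup.coe_pow, ← hax, Subgroup.coe_one]
    have := hAp a ha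
    change ((a : ↥H) : G) ^ p = 1
    rw [← Subgroup.coe_pow, this, Subgroup.coe_one])
  have e : Nat.card ↥((A.map H.subtype).subgroupOf K) = Nat.card A := by
    rw [Nat.card_congr (Subgroup.subgroupOfEquivOfLe
      ((Subgroup.map_subtype_le A).trans h)).toEquiv,
      Subgroup.card_map_of_injective H.subtype_injective]
  rwa [e] at h1

/-- in a group of odd order `O_2` is trivial -/
theorem pcore_two_eq_bot (hodd : Odd (Nat.card G)) : Cfsg.pCore 2 G = ⊥ := by
  haveI : Fact (Nat.Prime 2) := ⟨Nat.prime_two⟩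
  have h := Cfsg.Agent.Lib.Helper1.pCore_isPGroup (G := G) 2
  obtain ⟨k, hk⟩ := IsPGroup.iff_card.mp h
  have hdvd : Nat.card ↥(Cfsg.pCore 2 G) ∣ Nat.card G := Subgroup.card_subgroup_dvd_card _
  rw [hk] at hdvd
  rcases Nat.eq_zero_or_pos k with rfl | hpos
  · rw [pow_zero] at hk
    exact Subgroup.card_eq_one.mp hk
  · exfalso
    have : 2 ∣ Nat.card G := (dvd_pow_self 2 hpos.ne').trans hdvd
    exact (Nat.not_even_iff_odd.mpr hodd) (even_iff_two_dvd.mpr this)

/-- a `q`-element of the Fitting subgroup lies in `O_q` -/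
theorem mem_pCore_of_mem_fitting (q : ℕ) [Fact q.Prime] (t : G)
    (ht : t ∈ Cfsg.fittingSubgroup G) (j : ℕ) (htq : t ^ q ^ j = 1) : t ∈ Cfsg.pCore q G := by
  have hq : q.Prime := Fact.out
  have hF : Cfsg.fittingSubgroup G ≤ Cfsg.pCore q G ⊔ Cfsg.pPrimeCore q G := by
    rw [Cfsg.Agent.S0009.result (G := G)]
    apply iSup_le
    intro p
    haveI : Fact (p : ℕ).Prime := ⟨p.2⟩
    by_cases hpq : (p : ℕ) = q
    · rw [hpq]; exact le_sup_left
    · refine le_trans ?_ le_sup_right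
      apply Cfsg.Agent.Lib.Helper1.le_pPrimeCore q (Cfsg.Agent.Lib.Helper1.pCore_normal p)
      obtain ⟨k, hk⟩ := IsPGroup.iff_card.mp (Cfsg.Agent.Lib.Helper1.pCore_isPGroup (G := G) p)
      rw [hk]
      exact Nat.Coprime.pow_left k ((Nat.coprime_primes p.2 hq).mpr hpq)
  obtain ⟨a, ha, b, hb, hab⟩ := Subgroup.mem_sup_of_normal_right.mp (hF ht)
  have hK := Cfsg.Agent.Lib.Helper1.pPrimeCore_coprime (G := G) q
  have hPq := Cfsg.Agent.Lib.Helper1.pCore_isPGroup (G := G) q
  have hcomm : a * b = b * a := by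
    have h1 : a * b * a⁻¹ * b⁻¹ ∈ Cfsg.pCore q G := by
      have : a * b * a⁻¹ * b⁻¹ = a * (b * a⁻¹ * b⁻¹) := by group
      rw [this]
      exact (Cfsg.pCore q G).mul_mem ha
        (Subgroup.Normal.conj_mem inferInstance _ ((Cfsg.pCore q G).inv_mem ha) b)
    have h2 : a * b * a⁻¹ * b⁻¹ ∈ Cfsg.pPrimeCore q G :=
      (Cfsg.pPrimeCore q G).mul_mem (Subgroup.Normal.conj_mem inferInstance _ hb a)
        ((Cfsg.pPrimeCore q G).inv_mem hb)
    obtain ⟨k, hk⟩ := hPq ⟨_, h1⟩
    have hk' : (a * b * a⁻¹ * b⁻¹) ^ q ^ k = 1 := congrArg Subtype.val hk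
    have d1 : orderOf (a * b * a⁻¹ * b⁻¹) ∣ q ^ k := orderOf_dvd_of_pow_eq_one hk'
    have d2 : orderOf (a * b * a⁻¹ * b⁻¹) ∣ Nat.card ↥(Cfsg.pPrimeCore q G) := by
      have := orderOf_dvd_natCard (⟨_, h2⟩ : ↥(Cfsg.pPrimeCore q G))
      rwa [Subgroup.orderOf_mk] at this
    have h3 : a * b * a⁻¹ * b⁻¹ = 1 :=
      orderOf_eq_one_iff.mp (Nat.eq_one_of_dvd_coprimes (Nat.Coprime.pow_right k hK) d2 d1)
    calc a * b = (a * b * a⁻¹ * b⁻¹) * (b * a) := by group
      _ = b * a := by rw [h3, one_mul]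
  obtain ⟨i, hi⟩ := hPq ⟨a, ha⟩
  have hi' : a ^ q ^ i = 1 := congrArg Subtype.val hi
  have hb1 : b ^ q ^ (i + j) = 1 := by
    have e : t ^ q ^ (i + j) = a ^ q ^ (i + j) * b ^ q ^ (i + j) := by
      rw [← hab, (show Commute a b from hcomm).mul_pow]
    have e1 : t ^ q ^ (i + j) = 1 := by rw [pow_add, mul_comm, pow_mul, htq, one_pow]
    have e2 : a ^ q ^ (i + j) = 1 := by rw [pow_add, pow_mul, hi', one_pow]
    rw [e1, e2, one_mul] at e
    exact e.symm
  have hb2 : b = 1 := by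
    have d1 : orderOf b ∣ q ^ (i + j) := orderOf_dvd_of_pow_eq_one hb1
    have d2 : orderOf b ∣ Nat.card ↥(Cfsg.pPrimeCore q G) := by
      have := orderOf_dvd_natCard (⟨b, hb⟩ : ↥(Cfsg.pPrimeCore q G))
      rwa [Subgroup.orderOf_mk] at this
    exact orderOf_eq_one_iff.mp (Nat.eq_one_of_dvd_coprimes (Nat.Coprime.pow_right _ hK) d2 d1)
  rw [← hab, hb2, mul_one]
  exact ha

/-- an element all of whose prime divisors exceed `s` centralizes `O_s` when the latter has rank
at most two -/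
theorem cent_of_big (hodd : Odd (Nat.card G)) (s : ℕ) [Fact s.Prime]
    (hrk : Cfsg.PRankLE s 2 ↥(Cfsg.pCore s G)) (g : G)
    (hg : ∀ q : ℕ, q.Prime → q ∣ orderOf g → s < q) (b : G) (hb : b ∈ Cfsg.pCore s G) :
    g * b = b * g := by
  by_cases hs2 : s = 2
  · subst hs2
    rw [pcore_two_eq_bot hodd, Subgroup.mem_bot] at hb
    rw [hb, mul_one, one_mul]
  have hs : s.Prime := Fact.out
  obtain ⟨κ, hκ⟩ : ∃ κ : ↥(⊤ : Subgroup G) →* MulAut ↥(Cfsg.pCore s G),
      κ = Rk2Main.conjHom (Cfsg.pCore s G) ⊤ (by rw [Subgroup.normalizer_eq_top]) := ⟨_, rfl⟩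
  have h1 : κ ⟨g, Subgroup.mem_top g⟩ = 1 := by
    by_contra hne
    have hne' : orderOf (κ ⟨g, Subgroup.mem_top g⟩) ≠ 1 := fun h => hne (orderOf_eq_one_iff.mp h)
    obtain ⟨q, hq, hqd⟩ := Nat.exists_prime_and_dvd hne'
    have hd1 : orderOf (κ ⟨g, Subgroup.mem_top g⟩) ∣ orderOf g := by
      have := orderOf_map_dvd κ (⟨g, Subgroup.mem_top g⟩ : ↥(⊤ : Subgroup G))
      rwa [Subgroup.orderOf_mk] at this
    have hsq := hg q hq (hqd.trans hd1)
    have h4 : q ∣ Nat.card (MulAut ↥(Cfsg.pCore s G)) := hqd.trans (orderOf_dvd_natCard _)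
    have := (Cfsg.Agent.S0640.result hs2 (Cfsg.Agent.Lib.Helper1.pCore_isPGroup s) hrk q hq
      (by omega) h4).2
    omega
  rw [hκ] at h1
  have h2 := congrArg (fun f : MulAut ↥(Cfsg.pCore s G) =>
    ((f ⟨b, hb⟩ : ↥(Cfsg.pCore s G)) : G)) h1
  have h3 : g * b * g⁻¹ = b := h2
  calc g * b = (g * b * g⁻¹) * g := by group
    _ = b * g := by rw [h3]

variable [Group.IsSolvable G]

/-- elements of the derived subgroup act on `O_s` as `s`-elements -/
theorem comm_centralizes (hodd : Odd (Nat.card G)) (s : ℕ) [Fact s.Prime]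
    (hrk : Cfsg.PRankLE s 2 ↥(Cfsg.pCore s G)) :
    ∀ x ∈ commutator G, ∃ k : ℕ,
      x ^ s ^ k ∈ Subgroup.centralizer (Cfsg.pCore s G : Set G) := by
  intro x hx
  by_cases hs2 : s = 2
  · subst hs2
    refine ⟨0, ?_⟩
    rw [pcore_two_eq_bot hodd, Subgroup.mem_centralizer_iff]
    intro y hy
    have : y = 1 := Subgroup.mem_bot.mp hy
    rw [this, one_mul, mul_one]
  · have hmain := Rk2Main.rk2_sub s hs2 (Cfsg.pCore s G) (⊤ : Subgroup G)
      (Cfsg.Agent.Lib.Helper1.pCore_isPGroup s) hrk (by rw [Subgroup.normalizer_eq_top])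
      inferInstance (by rw [Subgroup.card_top]; exact hodd)
    exact hmain x (by rwa [commutator_def] at hx)

/-- the derived subgroup lies in the Fitting subgroup -/
theorem commutator_le_fitting (hodd : Odd (Nat.card G))
    (hrk : ∀ s : ℕ, s.Prime → Cfsg.PRankLE s 2 ↥(Cfsg.pCore s G)) :
    commutator G ≤ Cfsg.fittingSubgroup G := by
  apply Cfsg.Agent.Lib.Helper21.le_fitting_of_coprime_centralize (commutator G)
  rintro q p hq hp hpq x hx ⟨j, hj⟩ y hy
  haveI : Fact p.Prime := ⟨hp⟩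
  obtain ⟨k, hk⟩ := comm_centralizes hodd p (hrk p hp) x hx
  have ho : orderOf x ∣ q ^ j := orderOf_dvd_of_pow_eq_one hj
  have hc : (p ^ k).Coprime (orderOf x) :=
    Nat.Coprime.coprime_dvd_right ho (Nat.Coprime.pow k j ((Nat.coprime_primes hp hq).mpr hpq))
  obtain ⟨m, hm⟩ := exists_pow_eq_self_of_coprime hc
  have hxc : x ∈ Subgroup.centralizer (Cfsg.pCore p G : Set G) := by
    rw [← hm]
    exact Subgroup.pow_mem _ hk m
  exact (Subgroup.mem_centralizer_iff.mp hxc y hy).symm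

/-- the derived subgroup is nilpotent -/
theorem commutator_nilpotent (hodd : Odd (Nat.card G))
    (hrk : ∀ s : ℕ, s.Prime → Cfsg.PRankLE s 2 ↥(Cfsg.pCore s G)) :
    Group.IsNilpotent ↥(commutator G) := by
  have hle := commutator_le_fitting hodd hrk
  haveI : Group.IsNilpotent ↥(Cfsg.fittingSubgroup G) :=
    Cfsg.Agent.Lib.Helper21.fittingSubgroup_isNilpotent
  have h1 : Group.IsNilpotent ↥((commutator G).subgroupOf (Cfsg.fittingSubgroup G)) :=
    inferInstance
  exact (Group.isNilpotent_congr (Subgroup.subgroupOfEquivOfLe hle)).mp h1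

/-- characteristic subgroups of a Sylow subgroup inside its derived subgroup are normal -/
theorem char_sylow_normal (hodd : Odd (Nat.card G))
    (hrk : ∀ s : ℕ, s.Prime → Cfsg.PRankLE s 2 ↥(Cfsg.pCore s G))
    (q : ℕ) [Fact q.Prime] (S : Sylow q G) (T : Subgroup ↥(S : Subgroup G))
    (hT : T.Characteristic)
    (hTS : T.map (S : Subgroup G).subtype ≤ ⁅(S : Subgroup G), (S : Subgroup G)⁆) :
    (T.map (S : Subgroup G).subtype).Normal := by
  obtain ⟨Tm, hTm⟩ : ∃ Tm : Subgroup G, Tm = T.map (S : Subgroup G).subtype := ⟨_, rfl⟩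
  rw [← hTm] at hTS ⊢
  have hcF := commutator_le_fitting hodd hrk
  have hTmS : Tm ≤ (S : Subgroup G) := by rw [hTm]; exact Subgroup.map_subtype_le T
  have hTq : Tm ≤ Cfsg.pCore q G := by
    intro t ht
    have h1 : t ∈ commutator G := by
      have : ⁅(S : Subgroup G), (S : Subgroup G)⁆ ≤ commutator G := by
        rw [commutator_def]; exact Subgroup.commutator_mono le_top le_top
      exact this (hTS ht)
    obtain ⟨j, hj⟩ := S.isPGroup' ⟨t, hTmS ht⟩
    exact mem_pCore_of_mem_fitting q t (hcF h1) j (congrArg Subtype.val hj)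
  have hN1 : Subgroup.normalizer ((S : Subgroup G) : Set G) ≤
      Subgroup.normalizer (Tm : Set G) := by
    intro n hn
    apply mem_normalizer_of_conj
    intro z hz
    rw [hTm] at hz ⊢
    obtain ⟨t, ht, rfl⟩ := hz
    have hchar := hT.fixed (Rk2Main.conjHom (S : Subgroup G)
      (Subgroup.normalizer ((S : Subgroup G) : Set G)) le_rfl ⟨n, hn⟩)
    have ht' : t ∈ T.comap (Rk2Main.conjHom (S : Subgroup G)
        (Subgroup.normalizer ((S : Subgroup G) : Set G)) le_rfl ⟨n, hn⟩).toMonoidHom := by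
      rw [hchar]; exact ht
    exact ⟨_, ht', rfl⟩
  have hN2 : commutator G ≤ Subgroup.normalizer (Tm : Set G) := by
    refine hcF.trans ?_
    rw [Cfsg.Agent.S0009.result (G := G)]
    apply iSup_le
    intro p
    haveI : Fact (p : ℕ).Prime := ⟨p.2⟩
    intro c hc
    by_cases hpq : (p : ℕ) = q
    · have hc' : c ∈ Cfsg.pCore q G := by rw [← hpq]; exact hc
      have hcS : c ∈ (S : Subgroup G) := Cfsg.Agent.Lib.Helper1.pCore_le_sylow S hc'
      exact hN1 (Subgroup.le_normalizer hcS)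
    · apply mem_normalizer_of_conj
      intro z hz
      have hcomm : c * z = z * c :=
        Cfsg.Agent.Lib.Helper21.commute_of_normal_pGroups hpq
          (Cfsg.Agent.Lib.Helper1.pCore_isPGroup (p : ℕ))
          (Cfsg.Agent.Lib.Helper1.pCore_isPGroup q) hc (hTq hz)
      have : c * z * c⁻¹ = z := by rw [hcomm]; group
      rw [this]
      exact hz
  have hNS : (S : Subgroup G) ≤ (S : Subgroup G) ⊔ commutator G := le_sup_left
  haveI : ((S : Subgroup G) ⊔ commutator G).Normal := normal_of_comm_le _ le_sup_right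
  have hfr := Sylow.normalizer_sup_eq_top' S hNS
  rw [← Subgroup.normalizer_eq_top_iff, eq_top_iff, ← hfr]
  exact sup_le hN1 (sup_le (Subgroup.le_normalizer.trans hN1) hN2)

/-- the elements all of whose prime divisors exceed `p` form a characteristic Hall subgroup -/
theorem exists_char_hall (hodd : Odd (Nat.card G))
    (hrk : ∀ s : ℕ, s.Prime → Cfsg.PRankLE s 2 ↥(Cfsg.pCore s G)) (p : ℕ) :
    ∃ N : Subgroup G, N.Characteristic ∧ Cfsg.IsPiHall {q | q.Prime ∧ p < q} N := by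
  classical
  obtain ⟨c, hc⟩ : ∃ c : ℕ, c = p.factorial := ⟨_, rfl⟩
  have hc1 : ∀ s : ℕ, s.Prime → s ≤ p → s ∣ c := fun s hs hsp => by
    rw [hc]; exact Nat.dvd_factorial hs.pos hsp
  have hc2 : ∀ q : ℕ, q.Prime → q ∣ c → q ≤ p := fun q hq hqc => by
    rw [hc] at hqc; exact (hq.dvd_factorial).mp hqc
  have hcF := commutator_le_fitting hodd hrk
  haveI hFn : (Cfsg.fittingSubgroup G).Normal := Cfsg.Agent.Lib.Helper21.fittingSubgroup_normal
  obtain ⟨Y, hY⟩ : ∃ Y : Subgroup G,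
      Y = sSup {H | ∃ s : ℕ, s.Prime ∧ s ≤ p ∧ H = Cfsg.pCore s G} := ⟨_, rfl⟩
  obtain ⟨X, hX⟩ : ∃ X : Subgroup G,
      X = sSup {H | ∃ q : ℕ, q.Prime ∧ p < q ∧ H = Cfsg.pCore q G} := ⟨_, rfl⟩
  haveI hXn : X.Normal := by
    rw [hX]
    apply Subgroup.sSup_normal
    rintro H ⟨q, _, _, rfl⟩
    infer_instance
  have hF : Cfsg.fittingSubgroup G ≤ X ⊔ Y := by
    rw [Cfsg.Agent.S0009.result (G := G)]
    apply iSup_le
    intro s
    by_cases hsp : (s : ℕ) ≤ p
    · exact le_trans (by rw [hY]; exact le_sSup ⟨s, s.2, hsp, rfl⟩) le_sup_right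
    · exact le_trans (by rw [hX]; exact le_sSup ⟨s, s.2, not_le.mp hsp, rfl⟩) le_sup_left
  have hXY : ∀ x ∈ X, ∀ y ∈ Y, x * y = y * x := by
    have h1 : X ≤ Subgroup.centralizer (Y : Set G) := by
      rw [hX]
      apply sSup_le
      rintro H ⟨q, hq, hpq, rfl⟩
      intro a ha
      rw [Subgroup.mem_centralizer_iff]
      have h2 : Y ≤ Subgroup.centralizer ({a} : Set G) := by
        rw [hY]
        apply sSup_le
        rintro H ⟨s, hs, hsp, rfl⟩
        intro b hb
        rw [Subgroup.mem_centralizer_iff]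
        intro a' ha'
        rw [Set.mem_singleton_iff] at ha'
        subst ha'
        haveI : Fact q.Prime := ⟨hq⟩
        haveI : Fact s.Prime := ⟨hs⟩
        exact Cfsg.Agent.Lib.Helper21.commute_of_normal_pGroups (by omega : q ≠ s)
          (Cfsg.Agent.Lib.Helper1.pCore_isPGroup q) (Cfsg.Agent.Lib.Helper1.pCore_isPGroup s)
          ha hb
      intro y hy
      exact (Subgroup.mem_centralizer_iff.mp (h2 hy) a (Set.mem_singleton a)).symm
    intro x hx y hy
    exact (Subgroup.mem_centralizer_iff.mp (h1 hx) y hy).symm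
  have hXord : ∀ x ∈ X, (orderOf x).Coprime c := by
    intro x hx
    by_contra hcon
    obtain ⟨s, hs, hs1, hs2⟩ := Nat.Prime.not_coprime_iff_dvd.mp hcon
    have hsp := hc2 s hs hs2
    have hle : X ≤ Cfsg.pPrimeCore s G := by
      rw [hX]
      apply sSup_le
      rintro H ⟨q, hq, hpq, rfl⟩
      haveI : Fact q.Prime := ⟨hq⟩
      apply Cfsg.Agent.Lib.Helper1.le_pPrimeCore s (Cfsg.Agent.Lib.Helper1.pCore_normal q)
      obtain ⟨k, hk⟩ := IsPGroup.iff_card.mp (Cfsg.Agent.Lib.Helper1.pCore_isPGroup (G := G) q)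
      rw [hk]
      exact Nat.Coprime.pow_left k ((Nat.coprime_primes hq hs).mpr (by omega))
    have hK := Cfsg.Agent.Lib.Helper1.pPrimeCore_coprime (G := G) s
    have d : orderOf x ∣ Nat.card ↥(Cfsg.pPrimeCore s G) := by
      have := orderOf_dvd_natCard (⟨x, hle hx⟩ : ↥(Cfsg.pPrimeCore s G))
      rwa [Subgroup.orderOf_mk] at this
    have : s ∣ Nat.card ↥(Cfsg.pPrimeCore s G) := hs1.trans d
    exact (Nat.Prime.coprime_iff_not_dvd hs).mp hK.symm this
  obtain ⟨M, hM⟩ : ∃ M : Subgroup G, ∀ g : G, g ∈ M ↔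
      ∃ k : ℕ, k.Coprime c ∧ g ^ k ∈ Cfsg.fittingSubgroup G := by
    refine ⟨{ carrier := {g | ∃ k : ℕ, k.Coprime c ∧ g ^ k ∈ Cfsg.fittingSubgroup G}
              mul_mem' := ?_
              one_mem' := ⟨1, Nat.coprime_one_left c, by
                rw [pow_one]; exact Subgroup.one_mem _⟩
              inv_mem' := ?_ }, fun g => Iff.rfl⟩
    · rintro g h ⟨k, hk, hgk⟩ ⟨l, hl, hhl⟩
      refine ⟨k * l, Nat.Coprime.mul_left hk hl, ?_⟩
      have hcomm : Commute (QuotientGroup.mk' (Cfsg.fittingSubgroup G) g)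
          (QuotientGroup.mk' (Cfsg.fittingSubgroup G) h) := by
        have h1 : ⁅g, h⁆ ∈ Cfsg.fittingSubgroup G :=
          hcF (Subgroup.commutator_mem_commutator (Subgroup.mem_top g) (Subgroup.mem_top h))
        have h2 : QuotientGroup.mk' (Cfsg.fittingSubgroup G) ⁅g, h⁆ = 1 :=
          (QuotientGroup.eq_one_iff _).mpr h1
        rw [map_commutatorElement] at h2
        exact commutatorElement_eq_one_iff_commute.mp h2
      have e1 : QuotientGroup.mk' (Cfsg.fittingSubgroup G) ((g * h) ^ (k * l)) =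
          (QuotientGroup.mk' (Cfsg.fittingSubgroup G) g) ^ (k * l) *
            (QuotientGroup.mk' (Cfsg.fittingSubgroup G) h) ^ (k * l) := by
        rw [map_pow, map_mul, hcomm.mul_pow]
      have e2 : (QuotientGroup.mk' (Cfsg.fittingSubgroup G) g) ^ (k * l) = 1 := by
        rw [pow_mul, ← map_pow]
        have : QuotientGroup.mk' (Cfsg.fittingSubgroup G) (g ^ k) = 1 :=
          (QuotientGroup.eq_one_iff _).mpr hgk
        rw [this, one_pow]
      have e3 : (QuotientGroup.mk' (Cfsg.fittingSubgroup G) h) ^ (k * l) = 1 := by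
        rw [mul_comm, pow_mul, ← map_pow]
        have : QuotientGroup.mk' (Cfsg.fittingSubgroup G) (h ^ l) = 1 :=
          (QuotientGroup.eq_one_iff _).mpr hhl
        rw [this, one_pow]
      rw [e2, e3, one_mul] at e1
      exact (QuotientGroup.eq_one_iff _).mp e1
    · rintro g ⟨k, hk, hgk⟩
      exact ⟨k, hk, by rw [inv_pow]; exact Subgroup.inv_mem _ hgk⟩
  obtain ⟨N, hN⟩ : ∃ N : Subgroup G, N = Subgroup.centralizer (Y : Set G) ⊓ M := ⟨_, rfl⟩
  have hPiN : ∀ g : G, (orderOf g).Coprime c → g ∈ N := by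
    intro g hg
    rw [hN]
    refine ⟨?_, (hM g).mpr ⟨orderOf g, hg, by
      rw [pow_orderOf_eq_one]; exact Subgroup.one_mem _⟩⟩
    show g ∈ Subgroup.centralizer (Y : Set G)
    rw [Subgroup.mem_centralizer_iff]
    have h2 : Y ≤ Subgroup.centralizer ({g} : Set G) := by
      rw [hY]
      apply sSup_le
      rintro H ⟨s, hs, hsp, rfl⟩
      haveI : Fact s.Prime := ⟨hs⟩
      intro b hb
      rw [Subgroup.mem_centralizer_iff]
      intro g' hg'
      rw [Set.mem_singleton_iff] at hg'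
      subst hg'
      refine cent_of_big hodd s (hrk s hs) g' ?_ b hb
      intro q hq hqd
      by_contra hle
      have hqc : q ∣ c := hc1 q hq (by omega)
      have : q ∣ Nat.gcd (orderOf g') c := Nat.dvd_gcd hqd hqc
      rw [hg] at this
      exact hq.one_lt.ne' (Nat.dvd_one.mp this)
    intro y hy
    exact (Subgroup.mem_centralizer_iff.mp (h2 hy) g (Set.mem_singleton g)).symm
  have hNcen : ∀ n ∈ N, ∃ j : ℕ, j.Coprime c ∧ ∀ n' ∈ N, n ^ j * n' = n' * n ^ j := by
    intro n hn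
    rw [hN] at hn
    obtain ⟨k, hk, hnk⟩ := (hM n).mp hn.2
    obtain ⟨x, hx, y, hy, hxy⟩ := Subgroup.mem_sup_of_normal_left.mp (hF hnk)
    refine ⟨k * orderOf x, Nat.Coprime.mul_left hk (hXord x hx), ?_⟩
    intro n' hn'
    rw [hN] at hn'
    have e : n ^ (k * orderOf x) = y ^ orderOf x := by
      rw [pow_mul, ← hxy, (show Commute x y from hXY x hx y hy).mul_pow, pow_orderOf_eq_one,
        one_mul]
    rw [e]
    exact Subgroup.mem_centralizer_iff.mp hn'.1 _ (Subgroup.pow_mem _ hy _)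
  have hidx : ((Subgroup.center ↥N).index).Coprime c := by
    by_contra hcon
    obtain ⟨s, hs, hs1, hs2⟩ := Nat.Prime.not_coprime_iff_dvd.mp hcon
    haveI : Fact s.Prime := ⟨hs⟩
    rw [Subgroup.index_eq_card] at hs1
    obtain ⟨ybar, hy⟩ := exists_prime_orderOf_dvd_card' s hs1
    obtain ⟨n, rfl⟩ := QuotientGroup.mk'_surjective _ ybar
    obtain ⟨j, hj, hjc⟩ := hNcen n n.2
    have h1 : (QuotientGroup.mk' (Subgroup.center ↥N) n) ^ j = 1 := by
      rw [← map_pow]
      apply (QuotientGroup.eq_one_iff _).mpr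
      rw [Subgroup.mem_center_iff]
      intro n'
      apply Subtype.ext
      rw [Subgroup.coe_mul, Subgroup.coe_mul, Subgroup.coe_pow]
      exact (hjc n' n'.2).symm
    have h2 : s ∣ j := by
      rw [← hy]; exact orderOf_dvd_of_pow_eq_one h1
    have : s ∣ Nat.gcd j c := Nat.dvd_gcd h2 hs2
    rw [hj] at this
    exact hs.one_lt.ne' (Nat.dvd_one.mp this)
  have hmul : ∀ a b : G, (orderOf a).Coprime c → (orderOf b).Coprime c →
      (orderOf (a * b)).Coprime c := by
    intro a b ha hb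
    obtain ⟨τ, hτ⟩ : ∃ τ : ↥N →* Subgroup.center ↥N, ∀ n : ↥N,
        ((τ n : Subgroup.center ↥N) : ↥N) = n ^ (Subgroup.center ↥N).index :=
      ⟨MonoidHom.transferCenterPow ↥N, fun n => rfl⟩
    have haN := hPiN a ha
    have hbN := hPiN b hb
    have d1 : orderOf (τ ⟨a, haN⟩) ∣ orderOf a := by
      have h := orderOf_map_dvd τ (⟨a, haN⟩ : ↥N)
      have e : orderOf (⟨a, haN⟩ : ↥N) = orderOf a := Subgroup.orderOf_mk a haN
      rw [e] at h
      exact h
    have d2 : orderOf (τ ⟨b, hbN⟩) ∣ orderOf b := by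
      have h := orderOf_map_dvd τ (⟨b, hbN⟩ : ↥N)
      have e : orderOf (⟨b, hbN⟩ : ↥N) = orderOf b := Subgroup.orderOf_mk b hbN
      rw [e] at h
      exact h
    have h1 : (orderOf (τ ⟨a, haN⟩)).Coprime c := Nat.Coprime.coprime_dvd_left d1 ha
    have h2 : (orderOf (τ ⟨b, hbN⟩)).Coprime c := Nat.Coprime.coprime_dvd_left d2 hb
    have hcm : Commute (τ ⟨a, haN⟩) (τ ⟨b, hbN⟩) := by
      show τ ⟨a, haN⟩ * τ ⟨b, hbN⟩ = τ ⟨b, hbN⟩ * τ ⟨a, haN⟩
      apply Subtype.ext
      exact (Subgroup.mem_center_iff.mp (τ ⟨b, hbN⟩).2) (τ ⟨a, haN⟩ : ↥N)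
    have h3 : (orderOf (τ ⟨a, haN⟩ * τ ⟨b, hbN⟩)).Coprime c :=
      Nat.Coprime.coprime_dvd_left (Commute.orderOf_mul_dvd_mul_orderOf hcm)
        (Nat.Coprime.mul_left h1 h2)
    rw [← map_mul] at h3
    have h4 : orderOf (τ (⟨a, haN⟩ * ⟨b, hbN⟩)) =
        orderOf ((a * b) ^ (Subgroup.center ↥N).index) := by
      rw [← Subgroup.orderOf_coe, hτ, ← Subgroup.orderOf_coe]
      rfl
    rw [h4] at h3
    have h5 : orderOf (a * b) ∣ (Subgroup.center ↥N).index *
        orderOf ((a * b) ^ (Subgroup.center ↥N).index) := by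
      apply orderOf_dvd_of_pow_eq_one
      rw [pow_mul, pow_orderOf_eq_one]
    exact Nat.Coprime.coprime_dvd_left h5 (Nat.Coprime.mul_left hidx h3)
  obtain ⟨Hpi, hHpi⟩ : ∃ Hpi : Subgroup G, ∀ g : G, g ∈ Hpi ↔ (orderOf g).Coprime c :=
    ⟨{ carrier := {g | (orderOf g).Coprime c}
       mul_mem' := fun {a b} ha hb => hmul a b ha hb
       one_mem' := by
         show (orderOf (1 : G)).Coprime c
         rw [orderOf_one]; exact Nat.coprime_one_left c
       inv_mem' := fun {a} ha => by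
         show (orderOf a⁻¹).Coprime c
         rw [orderOf_inv]; exact ha }, fun g => Iff.rfl⟩
  refine ⟨Hpi, ?_, ?_, ?_⟩
  · constructor
    intro φ
    ext g
    rw [Subgroup.mem_comap, hHpi, hHpi]
    have : orderOf (φ.toMonoidHom g) = orderOf g := MulEquiv.orderOf_eq φ g
    rw [this]
  · intro q hq hqd
    haveI : Fact q.Prime := ⟨hq⟩
    obtain ⟨h, hh⟩ := exists_prime_orderOf_dvd_card' q hqd
    have h1 : (orderOf (h : G)).Coprime c := (hHpi _).mp h.2
    rw [Subgroup.orderOf_coe, hh] at h1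
    refine ⟨hq, ?_⟩
    by_contra hle
    have : q ∣ c := hc1 q hq (not_lt.mp hle)
    exact (Nat.Prime.coprime_iff_not_dvd hq).mp h1 this
  · rintro q hq ⟨-, hpq⟩ hdvd
    haveI : Fact q.Prime := ⟨hq⟩
    obtain ⟨Sq⟩ : Nonempty (Sylow q G) := inferInstance
    have hle : (Sq : Subgroup G) ≤ Hpi := by
      intro g hg
      obtain ⟨k, hk⟩ := Sq.isPGroup' ⟨g, hg⟩
      have hk' : g ^ q ^ k = 1 := congrArg Subtype.val hk
      rw [hHpi]
      exact Nat.Coprime.coprime_dvd_left (orderOf_dvd_of_pow_eq_one hk')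
        (Nat.Coprime.pow_left k ((Nat.Prime.coprime_iff_not_dvd hq).mpr
          (fun h => absurd (hc2 q hq h) (not_le.mpr hpq))))
    exact Sq.not_dvd_index (hdvd.trans (Subgroup.index_dvd_of_le hle))

end Cfsg.Agent.Lib.Helper12.Rk2Fit
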