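import Mathlib
import Cfsg.Agent.Lib.Helper15.SpW
import Cfsg.Agent.Lib.Helper26.GenOrdP
import Cfsg.Agent.S4623

/-!
Sylow 2-subgroups of `Sp_{2n}(F)`, `F` a finite field of odd order: every square lies in the
commutator subgroup, given the same statement for `Sp_2(F)` (`main`, hypothesis `hbase`).

The subgroup `T n Q T0 = iota(Q^n) * piHom(T0)` of the monomial subgroup of
`Cfsg.Agent.Lib.Helper15.SpW` is a Sylow 2-subgroup when `Q`, `T0` are Sylow 2-subgroups of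
`Sp_2(F)` and of the symmetric group; it is generated by `iota(Q^n)` and `piHom(T0)`.
-/

set_option autoImplicit false

namespace Cfsg.Agent.Lib.Helper12.SpAb

open Matrix Cfsg.Agent.Lib.Helper15.SpW

open scoped Pointwise

noncomputable section

theorem map_mem_commutator {G H : Type*} [Group G] [Group H] (f : G →* H) {c : G}
    (hc : c ∈ commutator G) : f c ∈ commutator H := by
  rw [← Abelianization.ker_of, MonoidHom.mem_ker]
  have h1 : commutator G ≤ ((Abelianization.of : H →* Abelianization H).comp f).ker :=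
    Abelianization.commutator_subset_ker _
  exact h1 hc

theorem pi_sq_mem_commutator {n : ℕ} {Q : Type*} [Group Q]
    (hQ : ∀ u : Q, u ^ 2 ∈ commutator Q) (h : Fin n → Q) :
    h ^ 2 ∈ commutator (Fin n → Q) := by
  classical
  apply Cfsg.Agent.Lib.Helper26.GenOrdP.pow_mem_commutator_of_closure 2
    {x : Fin n → Q | ∃ i u, x = Pi.mulSingle i u}
  · rw [eq_top_iff]
    intro x _
    apply Subgroup.pi_mem_of_mulSingle_mem
    intro i
    exact Subgroup.subset_closure ⟨i, x i, rfl⟩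
  · rintro _ ⟨i, u, rfl⟩
    have h1 : (Pi.mulSingle i u : Fin n → Q) ^ 2 =
        MonoidHom.mulSingle (fun _ : Fin n => Q) i (u ^ 2) := by
      rw [map_pow]; rfl
    rw [h1]
    exact map_mem_commutator _ (hQ u)

variable {F : Type*} [Field F]

/-- The subgroup `iota(Q^n) * piHom(T0)` of the monomial subgroup. -/
def T (n : ℕ) (Q : Subgroup (Sp2 F)) (T0 : Subgroup (Equiv.Perm (Fin n))) :
    Subgroup ↥(symplecticGroup (Fin n) F) where
  carrier := {x | ∃ (g : Fin n → Sp2 F) (σ : Equiv.Perm (Fin n)),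
    (∀ i, g i ∈ Q) ∧ σ ∈ T0 ∧ x = iota F n g * piHom F n σ}
  mul_mem' := by
    rintro x y ⟨g, σ, hg, hσ, rfl⟩ ⟨h, τ, hh, hτ, rfl⟩
    refine ⟨g * (fun i => h (σ⁻¹ i)), σ * τ, fun i => Q.mul_mem (hg i) (hh _),
      T0.mul_mem hσ hτ, ?_⟩
    calc iota F n g * piHom F n σ * (iota F n h * piHom F n τ)
        = iota F n g * (piHom F n σ * iota F n h) * piHom F n τ := by
          simp only [mul_assoc]
      _ = iota F n g * (iota F n (fun i => h (σ⁻¹ i)) * piHom F n σ) * piHom F n τ := by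
          rw [Cfsg.Agent.Lib.Helper15.SpW.star]
      _ = (iota F n g * iota F n (fun i => h (σ⁻¹ i))) * (piHom F n σ * piHom F n τ) := by
          simp only [mul_assoc]
      _ = iota F n (g * (fun i => h (σ⁻¹ i))) * piHom F n (σ * τ) := by
          rw [map_mul, map_mul]
  one_mem' := ⟨1, 1, fun _ => Q.one_mem, T0.one_mem, by rw [map_one, map_one, mul_one]⟩
  inv_mem' := by
    rintro x ⟨g, σ, hg, hσ, rfl⟩
    refine ⟨fun i => g⁻¹ ((σ⁻¹)⁻¹ i), σ⁻¹, fun i => Q.inv_mem (hg _), T0.inv_mem hσ, ?_⟩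
    rw [_root_.mul_inv_rev, ← map_inv, ← map_inv]
    exact Cfsg.Agent.Lib.Helper15.SpW.star σ⁻¹ g⁻¹

theorem card_T (n : ℕ) (Q : Subgroup (Sp2 F)) (T0 : Subgroup (Equiv.Perm (Fin n))) :
    Nat.card (T n Q T0) = Nat.card Q ^ n * Nat.card T0 := by
  have hbij : Function.Bijective
      (fun p : {g : Fin n → Sp2 F // ∀ i, g i ∈ Q} × T0 =>
        (⟨iota F n p.1.1 * piHom F n p.2.1, ⟨p.1.1, p.2.1, p.1.2, p.2.2, rfl⟩⟩ :
          ↥(T n Q T0))) := by
    constructor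
    · rintro ⟨⟨g, hg⟩, ⟨σ, hσ⟩⟩ ⟨⟨g', hg'⟩, ⟨σ', hσ'⟩⟩ hpp
      have h0 : iota F n g * piHom F n σ = iota F n g' * piHom F n σ' :=
        congrArg Subtype.val hpp
      have h1 := @psi_injective F _ n (g, σ) (g', σ') h0
      simp only [Prod.mk.injEq] at h1
      obtain ⟨h2, h3⟩ := h1
      subst h2; subst h3; rfl
    · rintro ⟨x, g, σ, hg, hσ, rfl⟩
      exact ⟨(⟨g, hg⟩, ⟨σ, hσ⟩), rfl⟩
  rw [← Nat.card_eq_of_bijective _ hbij, Nat.card_prod]
  congr 1
  rw [Nat.card_congr (Equiv.subtypePiEquivPi (β := fun _ : Fin n => Sp2 F)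
    (p := fun _ b => b ∈ Q)), Nat.card_fun, Nat.card_fin]

theorem card_T_sylow [Fintype F] (hF : Odd (Fintype.card F)) (n : ℕ)
    (Q : Sylow 2 (Sp2 F)) (T0 : Sylow 2 (Equiv.Perm (Fin n))) :
    Nat.card (T n (Q : Subgroup (Sp2 F)) (T0 : Subgroup (Equiv.Perm (Fin n)))) =
      2 ^ (Nat.card ↥(symplecticGroup (Fin n) F)).factorization 2 := by
  have hq : 1 < Fintype.card F := Fintype.one_lt_card
  have hq2 : 1 < Fintype.card F ^ 2 := Nat.one_lt_pow (by norm_num) hq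
  have hne : Fintype.card F * (Fintype.card F ^ 2 - 1) ≠ 0 :=
    Nat.mul_ne_zero (by omega) (by omega)
  rw [card_T, ← fact_eq F hF n, card_W, Sylow.card_eq_multiplicity Q,
    Sylow.card_eq_multiplicity T0, card_Sp2, Nat.card_perm, Nat.card_fin,
    Nat.factorization_mul (pow_ne_zero _ hne) (Nat.factorial_ne_zero n),
    Nat.factorization_pow]
  simp only [Finsupp.coe_add, Finsupp.coe_smul, Pi.add_apply, Pi.smul_apply, smul_eq_mul]
  rw [pow_add, ← pow_mul, mul_comm n]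

theorem sq_mem_commutator_T (n : ℕ) (Q : Subgroup (Sp2 F))
    (T0 : Subgroup (Equiv.Perm (Fin n)))
    (hQ : ∀ u : ↥Q, u ^ 2 ∈ commutator ↥Q) (hT0 : ∀ τ : ↥T0, τ ^ 2 ∈ commutator ↥T0) :
    ∀ x : ↥(T n Q T0), x ^ 2 ∈ commutator ↥(T n Q T0) := by
  intro x
  let φA : (Fin n → ↥Q) →* ↥(T n Q T0) :=
    MonoidHom.mk' (fun h => ⟨iota F n (fun i => (h i : Sp2 F)),
        ⟨fun i => (h i : Sp2 F), 1, fun i => (h i).2, T0.one_mem, by rw [map_one, mul_one]⟩⟩)
      (fun a b => Subtype.ext (by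
        show iota F n (fun i => ((a * b) i : Sp2 F)) =
          iota F n (fun i => (a i : Sp2 F)) * iota F n (fun i => (b i : Sp2 F))
        rw [← map_mul]; rfl))
  let φB : ↥T0 →* ↥(T n Q T0) :=
    MonoidHom.mk' (fun τ => ⟨piHom F n (τ : Equiv.Perm (Fin n)),
        ⟨1, τ, fun _ => Q.one_mem, τ.2, by rw [map_one, one_mul]⟩⟩)
      (fun a b => Subtype.ext (by
        show piHom F n ((a * b : ↥T0) : Equiv.Perm (Fin n)) =
          piHom F n (a : Equiv.Perm (Fin n)) * piHom F n (b : Equiv.Perm (Fin n))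
        rw [← map_mul]; rfl))
  apply Cfsg.Agent.Lib.Helper26.GenOrdP.pow_mem_commutator_of_closure 2
    (Set.range φA ∪ Set.range φB)
  · rw [eq_top_iff]
    rintro ⟨y, g, σ, hg, hσ, rfl⟩ _
    have h1 : (⟨iota F n g * piHom F n σ, ⟨g, σ, hg, hσ, rfl⟩⟩ : ↥(T n Q T0)) =
        φA (fun i => ⟨g i, hg i⟩) * φB ⟨σ, hσ⟩ := Subtype.ext rfl
    rw [h1]
    exact Subgroup.mul_mem _ (Subgroup.subset_closure (Or.inl ⟨_, rfl⟩))
      (Subgroup.subset_closure (Or.inr ⟨_, rfl⟩))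
  · rintro s (⟨h, rfl⟩ | ⟨τ, rfl⟩)
    · rw [← map_pow]
      exact map_mem_commutator φA (pi_sq_mem_commutator hQ h)
    · rw [← map_pow]
      exact map_mem_commutator φB (hT0 τ)

theorem main [Fintype F] (hF : Odd (Fintype.card F)) (n : ℕ)
    (hbase : ∀ Q : Sylow 2 (Sp2 F), ∀ u : ↥(Q : Subgroup (Sp2 F)),
      u ^ 2 ∈ commutator ↥(Q : Subgroup (Sp2 F)))
    (P : Sylow 2 (Matrix.symplecticGroup (Fin n) F)) :
    ∀ x : (P : Subgroup (Matrix.symplecticGroup (Fin n) F)),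
      x ^ 2 ∈ commutator (P : Subgroup (Matrix.symplecticGroup (Fin n) F)) := by
  obtain ⟨Q⟩ : Nonempty (Sylow 2 (Sp2 F)) := inferInstance
  obtain ⟨T0⟩ : Nonempty (Sylow 2 (Equiv.Perm (Fin n))) := inferInstance
  obtain ⟨A0⟩ : Nonempty (Sylow 2 (alternatingGroup (Fin n))) := inferInstance
  have hT0 := (Cfsg.Agent.S4623.result 2 n T0 A0).1
  have hcard := card_T_sylow hF n Q T0
  have hsq := sq_mem_commutator_T n (Q : Subgroup (Sp2 F))
    (T0 : Subgroup (Equiv.Perm (Fin n))) (hbase Q) hT0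
  obtain ⟨g, hg⟩ := MulAction.exists_smul_eq ↥(symplecticGroup (Fin n) F)
    (Sylow.ofCard _ hcard) P
  have h1 : (P : Subgroup ↥(symplecticGroup (Fin n) F)) =
      MulAut.conj g • (T n (Q : Subgroup (Sp2 F)) (T0 : Subgroup (Equiv.Perm (Fin n)))) := by
    rw [← hg, Sylow.coe_subgroup_smul, Sylow.coe_ofCard]
  let e : ↥(T n (Q : Subgroup (Sp2 F)) (T0 : Subgroup (Equiv.Perm (Fin n)))) ≃*
      ↥(P : Subgroup ↥(symplecticGroup (Fin n) F)) :=
    (Subgroup.equivSMul (MulAut.conj g) _).trans (MulEquiv.subgroupCongr h1.symm)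
  exact Cfsg.Agent.Lib.Helper26.GenOrdP.pow_mem_commutator_of_surjective e.toMonoidHom
    e.surjective 2 hsq

end

end Cfsg.Agent.Lib.Helper12.SpAb
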