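import Mathlib

/-!
A Sylow 2-subgroup of the symmetric group on `2 ^ j` points is transitive.
-/

namespace Cfsg.Agent.Lib.Helper12.SylPermTrans

open scoped Pointwise

theorem addRight_pow {n : ℕ} [NeZero n] (a : Fin n) (k : ℕ) :
    (Equiv.addRight a : Equiv.Perm (Fin n)) ^ k = Equiv.addRight (k • a) := by
  induction k with
  | zero =>
    ext x
    simp
  | succ k ih =>
    rw [pow_succ, ih]
    ext x
    simp [succ_nsmul, add_assoc, add_comm]

theorem sylow_two_perm_transitive (m : ℕ) (hm : ∃ j : ℕ, m = 2 ^ j)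
    (T : Sylow 2 (Equiv.Perm (Fin m))) :
    ∀ i k : Fin m, ∃ σ ∈ (T : Subgroup (Equiv.Perm (Fin m))), σ i = k := by
  obtain ⟨j, rfl⟩ := hm
  have : NeZero (2 ^ j) := ⟨by positivity⟩
  let H : Subgroup (Equiv.Perm (Fin (2 ^ j))) :=
    { carrier := {σ | ∃ a : Fin (2 ^ j), σ = Equiv.addRight a}
      mul_mem' := by
        rintro _ _ ⟨a, rfl⟩ ⟨b, rfl⟩
        refine ⟨b + a, ?_⟩
        ext x
        simp [add_assoc]
      one_mem' := ⟨0, by ext x; simp⟩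
      inv_mem' := by
        rintro _ ⟨a, rfl⟩
        refine ⟨-a, ?_⟩
        rw [inv_eq_iff_mul_eq_one]
        ext x
        simp }
  have hH : IsPGroup 2 H := by
    rintro ⟨_, a, rfl⟩
    refine ⟨j, ?_⟩
    apply Subtype.ext
    show (Equiv.addRight a : Equiv.Perm (Fin (2 ^ j))) ^ 2 ^ j = 1
    rw [addRight_pow]
    have h0 : (2 ^ j) • a = 0 := by
      have := card_nsmul_eq_zero (G := Fin (2 ^ j)) (x := a)
      rwa [Fintype.card_fin] at this
    rw [h0]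
    ext x
    simp
  obtain ⟨S, hS⟩ := hH.exists_le_sylow
  obtain ⟨g, hg⟩ := MulAction.exists_smul_eq (Equiv.Perm (Fin (2 ^ j))) S T
  intro i k
  let τ : Equiv.Perm (Fin (2 ^ j)) := Equiv.addRight (g⁻¹ k - g⁻¹ i)
  have hτH : τ ∈ H := ⟨_, rfl⟩
  have hτS : τ ∈ (S : Subgroup (Equiv.Perm (Fin (2 ^ j)))) := hS hτH
  refine ⟨g * τ * g⁻¹, ?_, ?_⟩
  · have h1 : (T : Subgroup (Equiv.Perm (Fin (2 ^ j)))) =
        MulAut.conj g • (S : Subgroup (Equiv.Perm (Fin (2 ^ j)))) := by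
      rw [← hg, Sylow.coe_subgroup_smul]
    rw [h1, Subgroup.mem_pointwise_smul_iff_inv_smul_mem]
    have h2 : (MulAut.conj g)⁻¹ • (g * τ * g⁻¹) = τ := by
      show g⁻¹ * (g * τ * g⁻¹) * g⁻¹⁻¹ = τ
      group
    rw [h2]
    exact hτS
  · show g (τ (g⁻¹ i)) = k
    have h3 : τ (g⁻¹ i) = g⁻¹ k := by
      show g⁻¹ i + (g⁻¹ k - g⁻¹ i) = g⁻¹ k
      abel
    rw [h3]
    simp

end Cfsg.Agent.Lib.Helper12.SylPermTrans
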