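import Mathlib
import Cfsg.Agent.Lib.Helper12.XsOdd
import Cfsg.Agent.S1446
import Cfsg.Agent.Lib.Helper21.FittingK
import Cfsg.Agent.Lib.Helper21.CharSub
import Cfsg.Agent.Lib.Helper21.CoprimeAbs
import Cfsg.Agent.Lib.Helper18.PGroupFrat
import Cfsg.Agent.Lib.Helper18.Basic
import Cfsg.Agent.Lib.Helper11.Basic

set_option autoImplicit false
set_option linter.style.haveILetI false

namespace Cfsg.Agent.Lib.Helper12.XsFit

open Cfsg.Agent.Lib.Helper12
open Cfsg.Agent.S1545 (theta Vq Vq_exp fmap fmap_theta cj cj_apply fix_count mem_kermap kermap_inv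
  kermap_norm one_lt_card_Vq theta_surj)
open Cfsg.Agent.S1446 (psiV psiV_apply)
open scoped commutatorElement

variable {X : Type*} [Group X]

theorem fitOf_le (K : Subgroup X) : Cfsg.fittingOf K ≤ K := Subgroup.map_subtype_le _

theorem fitOf_norm [Finite X] (K : Subgroup X) :
    Subgroup.normalizer (K : Set X) ≤ Subgroup.normalizer (Cfsg.fittingOf K : Set X) := by
  haveI : (Cfsg.fittingSubgroup ↥K).Characteristic :=
    Cfsg.Agent.Lib.Helper21.fittingSubgroup_characteristic
  exact Cfsg.Agent.Lib.Helper1.normalizer_le_normalizer_map_of_characteristic _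

theorem fitOf_mono [Finite X] {M K : Subgroup X} (hMK : M ≤ K)
    (hKM : K ≤ Subgroup.normalizer (M : Set X)) : Cfsg.fittingOf M ≤ Cfsg.fittingOf K := by
  have hFM : Cfsg.fittingOf M ≤ K := (fitOf_le M).trans hMK
  have hn : ((Cfsg.fittingOf M).subgroupOf K).Normal :=
    Subgroup.normal_subgroupOf_of_le_normalizer (hKM.trans (fitOf_norm M))
  have hnil : Group.IsNilpotent ↥((Cfsg.fittingOf M).subgroupOf K) := by
    have e1 : ↥((Cfsg.fittingOf M).subgroupOf K) ≃* ↥(Cfsg.fittingOf M) :=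
      Subgroup.subgroupOfEquivOfLe hFM
    have e2 : ↥(Cfsg.fittingSubgroup ↥M) ≃* ↥(Cfsg.fittingOf M) :=
      Subgroup.equivMapOfInjective _ M.subtype M.subtype_injective
    have h0 : Group.IsNilpotent ↥(Cfsg.fittingSubgroup ↥M) :=
      Cfsg.Agent.Lib.Helper24.fitting_nilpotent
    exact (Group.isNilpotent_congr (e2.trans e1.symm)).mp h0
  have h1 : (Cfsg.fittingOf M).subgroupOf K ≤ Cfsg.fittingSubgroup ↥K :=
    Cfsg.Agent.Lib.Helper24.le_fitting _ hn hnil
  intro g hg
  exact ⟨⟨g, hFM hg⟩, h1 hg, rfl⟩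

theorem kermap_le_frattini [Finite X] (P : Subgroup X) (p : ℕ) [Fact p.Prime]
    (hP : IsPGroup p P) : (theta P p).ker ≤ frattini ↥P := by
  intro h hh
  rw [MonoidHom.mem_ker] at hh
  have h1 : (Abelianization.of h : Abelianization ↥P) ∈ Cfsg.Agent.S1545.Pw P p := by
    have h0 : (QuotientGroup.mk' (Cfsg.Agent.S1545.Pw P p)) (Abelianization.of h) = 1 := hh
    exact (QuotientGroup.eq_one_iff _).mp h0
  obtain ⟨y, hy⟩ := h1
  obtain ⟨h', hh'⟩ := QuotientGroup.mk_surjective y
  have hy' : (Abelianization.of h' : Abelianization ↥P) ^ p = Abelianization.of h := by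
    have h0 : (Abelianization.of h' : Abelianization ↥P) = y := hh'
    rw [h0]; exact hy
  have h2 : (Abelianization.of (h'⁻¹ ^ p * h) : Abelianization ↥P) = 1 := by
    rw [map_mul, map_pow, map_inv, ← hy', inv_pow]
    exact inv_mul_cancel _
  have h3 : h'⁻¹ ^ p * h ∈ commutator ↥P := by
    rw [← Abelianization.ker_of]; exact h2
  haveI : Group.IsNilpotent ↥P := hP.isNilpotent
  have h4 : h'⁻¹ ^ p * h ∈ frattini ↥P :=
    Cfsg.Agent.Lib.Helper18.commutator_le_frattini_of_isNilpotent h3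
  have h5 : h' ^ p ∈ frattini ↥P := Cfsg.Agent.Lib.Helper21.pow_mem_frattini' hP h'
  have h6 : h = h' ^ p * (h'⁻¹ ^ p * h) := by rw [inv_pow]; group
  rw [h6]; exact (frattini ↥P).mul_mem h5 h4

/-- Burnside: a `p'`-element normalising a `p`-group `A` and acting trivially on `A / Φ(A)`
centralises `A`. -/
theorem burn_frat [Finite X] {p : ℕ} [Fact p.Prime] {A : Subgroup X}
    (hA : IsPGroup p A) {x : X} (hxA : x ∈ Subgroup.normalizer (A : Set X))
    (hx : (orderOf x).Coprime p)
    (h : ⁅A, Subgroup.zpowers x⁆ ≤ (frattini ↥A).map A.subtype) :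
    x ∈ Subgroup.centralizer (A : Set X) := by
  have hAK : Subgroup.zpowers x ≤ Subgroup.normalizer (A : Set X) :=
    (Subgroup.zpowers_le).mpr hxA
  have hcop : (Nat.card (Subgroup.zpowers x)).Coprime (Nat.card A) := by
    obtain ⟨k, hk⟩ := IsPGroup.iff_card.mp hA
    rw [Nat.card_zpowers, hk]
    exact Nat.Coprime.pow_right k hx
  have hnil : Group.IsNilpotent A := hA.isNilpotent
  have hsup := Cfsg.Agent.Lib.Helper1.coprime_commutator_sup (Subgroup.zpowers x) A hAK hcop
    (Or.inr inferInstance)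
  have h1 : (frattini ↥A).map A.subtype ⊔
      (A ⊓ Subgroup.centralizer ((Subgroup.zpowers x : Subgroup X) : Set X)) = A := by
    apply le_antisymm (sup_le (Subgroup.map_subtype_le _) inf_le_left)
    conv_lhs => rw [← hsup]
    exact sup_le_sup_right h _
  have h2 : (A ⊓ Subgroup.centralizer ((Subgroup.zpowers x : Subgroup X) : Set X)).subgroupOf A ⊔
      frattini ↥A = ⊤ := by
    apply Subgroup.map_injective A.subtype_injective
    rw [Subgroup.map_sup, Subgroup.map_subgroupOf_eq_of_le inf_le_left, sup_comm, h1,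
      ← MonoidHom.range_eq_map, Subgroup.range_subtype]
  have h3 := frattini_nongenerating h2
  rw [Subgroup.mem_centralizer_iff]
  intro a ha
  have h4 : (⟨a, ha⟩ : A) ∈
      (A ⊓ Subgroup.centralizer ((Subgroup.zpowers x : Subgroup X) : Set X)).subgroupOf A := by
    rw [h3]; exact Subgroup.mem_top _
  rw [Subgroup.mem_subgroupOf] at h4
  exact ((Subgroup.mem_centralizer_iff.mp (Subgroup.mem_inf.mp h4).2) x
    (Subgroup.mem_zpowers x)).symm

theorem pow_mul_mem (F : Subgroup X) (f t : X) (hf : f ∈ F)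
    (ht : ∀ g ∈ F, ∀ i : ℕ, t ^ i * g * (t ^ i)⁻¹ ∈ F) (n : ℕ) :
    (f * t) ^ n * (t ^ n)⁻¹ ∈ F := by
  induction n with
  | zero => simp [F.one_mem]
  | succ n ih =>
    have h1 : (f * t) ^ (n + 1) * (t ^ (n + 1))⁻¹
        = ((f * t) ^ n * (t ^ n)⁻¹) * (t ^ n * f * (t ^ n)⁻¹) := by
      rw [pow_succ, pow_succ]; group
    rw [h1]
    exact F.mul_mem ih (ht f hf n)

/-- consequence of the Hall–Higman type theorem: `[T, x]` centralizes the `p`-group `P`. -/
theorem comm_cent [Finite X] (P T : Subgroup X) (x : X) (p q r : ℕ)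
    [Fact p.Prime] (hq : q.Prime) (hr : r.Prime) (hP : IsPGroup p P) (hT : IsPGroup q T)
    (hpq : p ≠ q) (hpr : p ≠ r) (hqr : q ≠ r) (hTodd : Odd (Nat.card T)) (hx : orderOf x = r)
    (hTP : T ≤ Subgroup.normalizer (P : Set X)) (hxP : x ∈ Subgroup.normalizer (P : Set X))
    (hxT : x ∈ Subgroup.normalizer (T : Set X))
    (hfix : ∀ h ∈ P, x * h = h * x → h = 1) :
    ∀ t ∈ T, ∀ y ∈ Subgroup.zpowers x, y * t * y⁻¹ * t⁻¹ ∈ Subgroup.centralizer (P : Set X) := by
  classical
  have hp : p.Prime := Fact.out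
  haveI : Fact q.Prime := ⟨hq⟩
  set R : Subgroup X := Subgroup.zpowers x with hR
  have hRcard : Nat.card R = r := by rw [hR, Nat.card_zpowers, hx]
  have hRT : R ≤ Subgroup.normalizer (T : Set X) := Subgroup.zpowers_le.mpr hxT
  have hRP : R ≤ Subgroup.normalizer (P : Set X) := Subgroup.zpowers_le.mpr hxP
  set S : Subgroup X := R ⊔ T with hS
  have hSP : S ≤ Subgroup.normalizer (P : Set X) := sup_le hRP hTP
  have hRS : R ≤ S := le_sup_left
  have hTS : T ≤ S := le_sup_right
  have hxS : x ∈ S := hRS (Subgroup.mem_zpowers x)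
  have hpR : ¬ p ∣ Nat.card R := by
    rw [hRcard]; intro h; exact hpr ((Nat.prime_dvd_prime_iff_eq hp hr).mp h)
  have hpT : ¬ p ∣ Nat.card T := by
    intro h
    obtain ⟨k, hk⟩ := IsPGroup.iff_card.mp hT
    rw [hk] at h
    exact hpq ((Nat.prime_dvd_prime_iff_eq hp hq).mp (hp.dvd_of_dvd_pow h))
  have hpS : ¬ p ∣ Nat.card ↥S := XsGlue.not_dvd_card_sup R T hRT p hp hpR hpT
  set ψ : ↥S →* MulAut (Vq P p) := psiV S P hSP p with hψ
  have hkerC : ∀ s : ↥S, ψ s = 1 → (orderOf (s : X)).Coprime p →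
      (s : X) ∈ Subgroup.centralizer (P : Set X) := by
    intro s hs hcop
    apply burn_frat hP (hSP s.2) hcop
    rw [Subgroup.commutator_le]
    intro h hh y hy
    obtain ⟨i, rfl⟩ := Subgroup.mem_zpowers_iff.mp hy
    rw [commutatorElement_def]
    have hsi : ψ (s ^ i) = 1 := by rw [map_zpow, hs, one_zpow]
    have h1 : fmap S P hSP p (s ^ i) (theta P p ⟨h⁻¹, P.inv_mem hh⟩)
        = theta P p ⟨h⁻¹, P.inv_mem hh⟩ := by
      rw [← psiV_apply, ← hψ, hsi, MulAut.one_apply]
    rw [fmap_theta] at h1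
    have hmem : h * (s : X) ^ i * h⁻¹ * ((s : X) ^ i)⁻¹ ∈ P := by
      have h0 := (cj S P hSP (s ^ i) ⟨h⁻¹, P.inv_mem hh⟩).2
      rw [cj_apply, Subgroup.coe_zpow] at h0
      have h2 : h * (s : X) ^ i * h⁻¹ * ((s : X) ^ i)⁻¹
          = h * ((s : X) ^ i * h⁻¹ * ((s : X) ^ i)⁻¹) := by group
      rw [h2]
      exact P.mul_mem hh h0
    refine ⟨⟨_, hmem⟩, kermap_le_frattini P p hP ?_, rfl⟩
    rw [MonoidHom.mem_ker]
    have h6 : (⟨h * (s : X) ^ i * h⁻¹ * ((s : X) ^ i)⁻¹, hmem⟩ : ↥P)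
        = (⟨h, hh⟩ : ↥P) * cj S P hSP (s ^ i) ⟨h⁻¹, P.inv_mem hh⟩ := by
      apply Subtype.ext
      rw [Subgroup.coe_mul, cj_apply, Subgroup.coe_zpow]
      group
    rw [h6, map_mul, h1, ← map_mul]
    have h7 : (⟨h, hh⟩ : ↥P) * ⟨h⁻¹, P.inv_mem hh⟩ = 1 := Subtype.ext (mul_inv_cancel h)
    rw [h7, map_one]
  set xS : ↥S := ⟨x, hxS⟩ with hxSdef
  by_cases hx1 : ψ xS = 1
  · have hxc : x ∈ Subgroup.centralizer (P : Set X) :=
      hkerC xS hx1 (by rw [hx]; exact (Nat.coprime_primes hr hp).mpr (Ne.symm hpr))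
    have hP1 : ∀ h ∈ P, h = 1 :=
      fun h hh => hfix h hh ((Subgroup.mem_centralizer_iff.mp hxc h hh).symm)
    intro t ht y hy
    rw [Subgroup.mem_centralizer_iff]
    intro h hh
    rw [hP1 h hh, one_mul, mul_one]
  · set A : Subgroup (MulAut (Vq P p)) := ψ.range with hAdef
    set xA : ↥A := ⟨ψ xS, ⟨xS, rfl⟩⟩ with hxAdef
    have hxAo : orderOf xA = r := by
      have h1 : orderOf xA ∣ r := by
        rw [orderOf_dvd_iff_pow_eq_one]
        apply Subtype.ext
        rw [Subgroup.coe_pow, Subgroup.coe_one]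
        change (ψ xS) ^ r = 1
        rw [← map_pow]
        have h0 : xS ^ r = 1 := Subtype.ext (by
          rw [Subgroup.coe_pow, ← hx]; exact pow_orderOf_eq_one x)
        rw [h0, map_one]
      rcases (Nat.dvd_prime hr).mp h1 with h | h
      · exfalso; apply hx1
        exact congrArg Subtype.val (orderOf_eq_one_iff.mp h)
      · exact h
    have hAcard : Nat.card ↥A ∣ Nat.card ↥S := Subgroup.card_range_dvd ψ
    have hA : ¬ p ∣ Nat.card ↥A := fun h => hpS (h.trans hAcard)
    have hfixV : ∀ v : Vq P p, A.subtype xA v = v → v = 1 := by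
      have hcopR : (Nat.card R).Coprime (Nat.card P) := by
        obtain ⟨k, hk⟩ := IsPGroup.iff_card.mp hP
        rw [hRcard, hk]
        exact Nat.Coprime.pow_right _ ((Nat.coprime_primes hr hp).mpr (Ne.symm hpr))
      have hPsolv : Group.IsSolvable ↥P := by
        haveI := hP.isNilpotent
        infer_instance
      have h0 := fix_count S P R hSP hRS hcopR hPsolv p
      have hbot : P ⊓ Subgroup.centralizer (R : Set X) = ⊥ := by
        rw [eq_bot_iff]
        rintro h ⟨hh, hc⟩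
        exact Subgroup.mem_bot.mpr
          (hfix h hh (Subgroup.mem_centralizer_iff.mp hc x (Subgroup.mem_zpowers x)))
      rw [hbot, Subgroup.card_bot] at h0
      have h1 : Nat.card {v : Vq P p | ∀ a : S, (a : X) ∈ R → fmap S P hSP p a v = v} = 1 :=
        Nat.eq_one_of_mul_eq_one_right h0.symm
      intro v hv
      have hv' : ψ xS v = v := hv
      have hvfix : ∀ a : S, (a : X) ∈ R → fmap S P hSP p a v = v := by
        intro a ha
        obtain ⟨i, hi⟩ := Subgroup.mem_zpowers_iff.mp ha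
        have ha' : a = xS ^ i := Subtype.ext (by rw [Subgroup.coe_zpow]; exact hi.symm)
        rw [ha']
        have hst : xS ∈ WComm.stabOf ψ v := hv'
        exact (WComm.stabOf ψ v).zpow_mem hst i
      have h2 := (Nat.card_eq_one_iff_unique.mp h1).1
      have h3 := Subsingleton.elim
        (⟨v, hvfix⟩ : {v : Vq P p | ∀ a : S, (a : X) ∈ R → fmap S P hSP p a v = v})
        ⟨1, fun a _ => map_one _⟩
      exact congrArg Subtype.val h3
    set Tb : Subgroup ↥A := (T.subgroupOf S).map ψ.rangeRestrict with hTb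
    have hTbq : IsPGroup q Tb := (hT.comap_subtype).map _
    have hxTb : ∀ g ∈ Tb, xA * g * xA⁻¹ ∈ Tb := by
      rintro _ ⟨t, ht, rfl⟩
      refine ⟨xS * t * xS⁻¹, ?_, ?_⟩
      · exact (Subgroup.mem_normalizer_iff.mp hxT (t : X)).mp ht
      · apply Subtype.ext
        simp [hxAdef]
        rfl
    have hcentTb : ∀ g ∈ Tb, xA * g = g * xA := by
      by_contra hcon
      push Not at hcon
      obtain ⟨g, hg, hne⟩ := hcon
      obtain ⟨h2, -, a, ha, b, hb, hab⟩ := XsHH.hh p (Vq_exp P p) hA A.subtype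
        A.subtype_injective xA r hr hxAo hfixV q hq hqr _ Tb rfl hTbq hxTb ⟨g, hg, hne⟩
      have h3 : Tb ≠ ⊥ := by
        intro h
        rw [h] at ha hb
        rw [Subgroup.mem_bot.mp ha, Subgroup.mem_bot.mp hb] at hab
        exact hab rfl
      obtain ⟨k, hk⟩ := IsPGroup.iff_card.mp hTbq
      have hk0 : k ≠ 0 := by
        rintro rfl
        rw [pow_zero] at hk
        exact h3 (Subgroup.eq_bot_of_card_eq _ hk)
      have h4 : 2 ∣ Nat.card T := by
        have h5 : Nat.card Tb ∣ Nat.card T := by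
          have h0 := Subgroup.card_map_dvd (T.subgroupOf S) ψ.rangeRestrict
          rwa [Nat.card_congr (Subgroup.subgroupOfEquivOfLe hTS).toEquiv] at h0
        rw [← h2]
        exact ((dvd_pow_self q hk0).trans (hk ▸ dvd_refl _)).trans h5
      exact (Nat.not_even_iff_odd.mpr hTodd) (even_iff_two_dvd.mpr h4)
    intro t ht y hy
    obtain ⟨i, rfl⟩ := Subgroup.mem_zpowers_iff.mp hy
    set tS : ↥S := ⟨t, hTS ht⟩ with htS
    have h1 : ψ (xS ^ i * tS * (xS ^ i)⁻¹ * tS⁻¹) = 1 := by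
      have hc : ψ xS * ψ tS = ψ tS * ψ xS :=
        congrArg Subtype.val (hcentTb (ψ.rangeRestrict tS) ⟨tS, ht, rfl⟩)
      have hc2 : Commute ((ψ xS) ^ i) (ψ tS) := (show Commute (ψ xS) (ψ tS) from hc).zpow_left i
      rw [map_mul, map_mul, map_mul, map_inv, map_inv, map_zpow, hc2.eq, mul_inv_cancel_right,
        mul_inv_cancel]
    have hmemT : x ^ i * t * (x ^ i)⁻¹ * t⁻¹ ∈ T :=
      T.mul_mem ((Subgroup.mem_normalizer_iff.mp (hRT (Subgroup.zpow_mem_zpowers x i)) t).mp ht)
        (T.inv_mem ht)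
    have hcop : (orderOf (x ^ i * t * (x ^ i)⁻¹ * t⁻¹)).Coprime p := by
      obtain ⟨k, hk⟩ := (IsPGroup.iff_orderOf.mp hT) ⟨_, hmemT⟩
      rw [Subgroup.orderOf_mk] at hk
      rw [hk]
      exact Nat.Coprime.pow_left _ ((Nat.coprime_primes hq hp).mpr (Ne.symm hpq))
    exact hkerC (xS ^ i * tS * (xS ^ i)⁻¹ * tS⁻¹) h1 hcop

/-- **Main theorem**: `x` of prime order `r` acting coprimely on the solvable group `K` of odd
order with `C_{F(K)}(x) = 1` satisfies `[K, x] ≤ F(K)`. -/
theorem fit_main [Finite X] (x : X) (r : ℕ) (hr : r.Prime) (hx : orderOf x = r) :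
    ∀ (n : ℕ) (K : Subgroup X), Nat.card K = n → Group.IsSolvable K → Odd (Nat.card K) →
      ¬ r ∣ Nat.card K → x ∈ Subgroup.normalizer (K : Set X) →
      (∀ f ∈ Cfsg.fittingOf K, x * f = f * x → f = 1) →
      ⁅K, Subgroup.zpowers x⁆ ≤ Cfsg.fittingOf K := by
  intro n
  induction n using Nat.strong_induction_on with
  | _ n ih =>
  intro K hn hsolv hodd hrK hxK hfix
  classical
  set R : Subgroup X := Subgroup.zpowers x with hR
  have hRcard : Nat.card R = r := by rw [hR, Nat.card_zpowers, hx]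
  have hRK : R ≤ Subgroup.normalizer (K : Set X) := Subgroup.zpowers_le.mpr hxK
  have hcop : (Nat.card R).Coprime (Nat.card K) := by
    rw [hRcard]; exact (Nat.Prime.coprime_iff_not_dvd hr).mpr hrK
  have hRsolv : Group.IsSolvable ↥R := Group.isSolvable_of_comm (fun a b => by
    obtain ⟨i, hi⟩ := Subgroup.mem_zpowers_iff.mp a.2
    obtain ⟨j, hj⟩ := Subgroup.mem_zpowers_iff.mp b.2
    apply Subtype.ext
    rw [Subgroup.coe_mul, Subgroup.coe_mul, ← hi, ← hj]
    exact zpow_mul_comm x i j)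
  set F : Subgroup X := Cfsg.fittingOf K with hF
  have hFK : F ≤ K := fitOf_le K
  have hKF : K ≤ Subgroup.normalizer (F : Set X) := Subgroup.le_normalizer.trans (fitOf_norm K)
  have hK₁K : ⁅K, R⁆ ≤ K := Cfsg.Agent.Lib.Helper1.commutator_le_of_le_normalizer hRK
  have hK₁n : K ⊔ R ≤ Subgroup.normalizer ((⁅K, R⁆ : Subgroup X) : Set X) :=
    Cfsg.Agent.Lib.Helper1.commutator_normalizer hRK
  have hsub : ∀ M : Subgroup X, M ≤ K → M ≠ K → K ≤ Subgroup.normalizer (M : Set X) →
      x ∈ Subgroup.normalizer (M : Set X) → ⁅M, R⁆ ≤ F := by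
    intro M hMK hMne hKM hxM
    have hlt : Nat.card M < n := by
      rw [← hn]
      exact lt_of_le_of_ne (Subgroup.card_le_of_le hMK)
        (fun h => hMne (Subgroup.eq_of_le_of_card_ge hMK h.ge))
    have hMsolv : Group.IsSolvable ↥M := by
      haveI := hsolv
      exact Group.isSolvable_of_isSolvable_injective (Subgroup.inclusion_injective hMK)
    have hMF : Cfsg.fittingOf M ≤ F := fitOf_mono hMK hKM
    have h1 := ih _ hlt M rfl hMsolv (hodd.of_dvd_nat (Subgroup.card_dvd_of_le hMK))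
      (fun h => hrK (h.trans (Subgroup.card_dvd_of_le hMK))) hxM
      (fun f hf hc => hfix f (hMF hf) hc)
    exact h1.trans hMF
  by_cases hK₁ne : ⁅K, R⁆ ≠ K
  · have h1 := hsub ⁅K, R⁆ hK₁K hK₁ne (le_sup_left.trans hK₁n)
      (hK₁n ((le_sup_right : R ≤ K ⊔ R) (Subgroup.mem_zpowers x)))
    have h2 := Cfsg.Agent.Lib.Helper1.coprime_commutator_commutator R K hRK hcop (Or.inl hRsolv)
    rw [← h2]
    exact h1
  · push Not at hK₁ne
    by_cases hKbot : K = ⊥
    · refine hK₁K.trans ?_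
      rw [hKbot]; exact bot_le
    haveI : Nontrivial ↥K := (Subgroup.nontrivial_iff_ne_bot K).mpr hKbot
    haveI := hsolv
    have hcomm_lt := Group.IsSolvable.commutator_lt_top_of_nontrivial ↥K
    have hQ1 : Nat.card (Abelianization ↥K) ≠ 1 := fun h =>
      hcomm_lt.ne (Subgroup.index_eq_one.mp h)
    obtain ⟨q, hqdef⟩ : ∃ q : ℕ, q = (Nat.card (Abelianization ↥K)).minFac := ⟨_, rfl⟩
    have hq : q.Prime := hqdef ▸ Nat.minFac_prime hQ1
    haveI : Fact q.Prime := ⟨hq⟩
    have hqQ : q ∣ Nat.card (Abelianization ↥K) := hqdef ▸ Nat.minFac_dvd _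
    have hqK : q ∣ Nat.card K := hqQ.trans (Subgroup.index_dvd_card (commutator ↥K))
    have hqr : q ≠ r := fun h => hrK (h ▸ hqK)
    set M : Subgroup X := (theta K q).ker.map K.subtype with hM
    have hMK : M ≤ K := Subgroup.map_subtype_le _
    have hKM : K ≤ Subgroup.normalizer (M : Set X) := kermap_norm K q
    have hxM : x ∈ Subgroup.normalizer (M : Set X) :=
      XsSub.mem_normalizer_of_conj M x
        (kermap_inv (Subgroup.normalizer (K : Set X)) K le_rfl q x hxK)
    have hMne : M ≠ K := by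
      intro h
      have hV1 := one_lt_card_Vq K q hqQ
      have hall : ∀ v : Vq K q, v = 1 := by
        intro v
        obtain ⟨k, rfl⟩ := theta_surj K q v
        have hk : (k : X) ∈ M := by rw [h]; exact k.2
        obtain ⟨hkK, hθ⟩ := (mem_kermap K q _).mp hk
        exact hθ
      have h1 : Nat.card (Vq K q) = 1 :=
        Nat.card_eq_one_iff_unique.mpr ⟨⟨fun a b => by rw [hall a, hall b]⟩, ⟨1⟩⟩
      omega
    have hMR : ⁅M, R⁆ ≤ F := hsub M hMK hMne hKM hxM
    obtain ⟨Ts, hTs⟩ := Cfsg.Agent.Lib.Helper1.exists_invariant_sylow R K hRK hcop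
      (Or.inl hRsolv) q
    set T : Subgroup X := (Ts : Subgroup ↥K).map K.subtype with hT
    have hTK : T ≤ K := Subgroup.map_subtype_le _
    have hTq : IsPGroup q T := Ts.isPGroup'.map K.subtype
    have hRT : R ≤ Subgroup.normalizer (T : Set X) := hTs
    have hxT : x ∈ Subgroup.normalizer (T : Set X) := hTs (Subgroup.mem_zpowers x)
    have hTodd : Odd (Nat.card T) := hodd.of_dvd_nat (Subgroup.card_dvd_of_le hTK)
    have hsupT : (Ts : Subgroup ↥K) ⊔ (theta K q).ker = ⊤ := by
      rw [← Subgroup.index_eq_one]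
      have d1 : ((Ts : Subgroup ↥K) ⊔ (theta K q).ker).index ∣ (Ts : Subgroup ↥K).index :=
        Subgroup.index_dvd_of_le le_sup_left
      have d2 : ((Ts : Subgroup ↥K) ⊔ (theta K q).ker).index ∣ (theta K q).ker.index :=
        Subgroup.index_dvd_of_le le_sup_right
      have hVq : IsPGroup q (Vq K q) := fun v => ⟨1, by rw [pow_one]; exact Vq_exp K q v⟩
      obtain ⟨k, hk⟩ := IsPGroup.iff_card.mp hVq
      have hidx : (theta K q).ker.index = q ^ k := by
        rw [Subgroup.index_ker, MonoidHom.range_eq_top.mpr (theta_surj K q), Subgroup.card_top, hk]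
      rw [hidx] at d2
      obtain ⟨i, -, hi⟩ := (Nat.dvd_prime_pow hq).mp d2
      rcases i with _ | i
      · simpa using hi
      · exfalso
        apply Ts.not_dvd_index
        exact Dvd.dvd.trans (by rw [hi, pow_succ]; exact dvd_mul_left q _) d1
    have hdecomp : ∀ k ∈ K, ∃ t ∈ T, ∃ m ∈ M, k = t * m := by
      intro k hk
      have h1 : (⟨k, hk⟩ : ↥K) ∈ ((Ts : Subgroup ↥K) ⊔ (theta K q).ker) := by
        rw [hsupT]; exact Subgroup.mem_top _
      rw [← SetLike.mem_coe, Subgroup.mul_normal] at h1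
      obtain ⟨t, ht, m, hm, htm⟩ := Set.mem_mul.mp h1
      refine ⟨t, Subgroup.mem_map_of_mem _ ht, m, Subgroup.mem_map_of_mem _ hm, ?_⟩
      exact (congrArg Subtype.val htm).symm
    have hT₁T : ⁅T, R⁆ ≤ T := Cfsg.Agent.Lib.Helper1.commutator_le_of_le_normalizer hRT
    have hKsup : K ≤ F ⊔ ⁅T, R⁆ := by
      refine hK₁ne.ge.trans ?_
      rw [Subgroup.commutator_le]
      intro k hk y hy
      obtain ⟨t, ht, m, hm, rfl⟩ := hdecomp k hk
      have h1 : ⁅t * m, y⁆ = (t * ⁅m, y⁆ * t⁻¹) * ⁅t, y⁆ := by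
        simp only [commutatorElement_def]; group
      rw [h1]
      refine Subgroup.mul_mem_sup ?_ (Subgroup.commutator_mem_commutator ht hy)
      exact (Subgroup.mem_normalizer_iff.mp (hKF (hTK ht)) _).mp
        (hMR (Subgroup.commutator_mem_commutator hm hy))
    have hpowF : ∀ k ∈ K, ∃ j : ℕ, k ^ (q ^ j) ∈ F := by
      intro k hk
      have h1 : (⟨k, hk⟩ : ↥K) ∈ (F.subgroupOf K ⊔ (⁅T, R⁆).subgroupOf K) := by
        rw [← Subgroup.subgroupOf_sup hFK (hT₁T.trans hTK)]
        exact hKsup hk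
      haveI : (F.subgroupOf K).Normal := Subgroup.normal_subgroupOf_of_le_normalizer hKF
      rw [← SetLike.mem_coe, Subgroup.normal_mul] at h1
      obtain ⟨f, hf, t, ht, hft⟩ := Set.mem_mul.mp h1
      have hk' : k = (f : X) * (t : X) := (congrArg Subtype.val hft).symm
      obtain ⟨j, hj⟩ := (IsPGroup.iff_orderOf.mp hTq) ⟨(t : X), hT₁T ht⟩
      refine ⟨j, ?_⟩
      have h2 := pow_mul_mem F (f : X) (t : X) hf
        (fun g hg i => (Subgroup.mem_normalizer_iff.mp (hKF (K.pow_mem t.2 i)) g).mp hg) (q ^ j)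
      have h3 : (t : X) ^ (q ^ j) = 1 := by
        rw [Subgroup.orderOf_mk] at hj
        rw [← hj]; exact pow_orderOf_eq_one _
      rw [h3, inv_one, mul_one, ← hk'] at h2
      exact h2
    set C₀ : Subgroup ↥K :=
      { carrier := {k | ∀ p : ℕ, p.Prime → p ≠ q → ∀ y ∈ Cfsg.pCore p ↥K, k * y = y * k}
        one_mem' := fun p _ _ y _ => by rw [one_mul, mul_one]
        mul_mem' := by
          intro a b ha hb p hp hpq y hy
          rw [mul_assoc, hb p hp hpq y hy, ← mul_assoc, ha p hp hpq y hy, mul_assoc]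
        inv_mem' := by
          intro a ha p hp hpq y hy
          have h := ha p hp hpq y hy
          calc a⁻¹ * y = a⁻¹ * (y * a) * a⁻¹ := by group
            _ = a⁻¹ * (a * y) * a⁻¹ := by rw [h]
            _ = y * a⁻¹ := by group } with hC₀
    haveI hC₀n : C₀.Normal := by
      constructor
      intro k hk g p hp hpq y hy
      haveI : (Cfsg.pCore p ↥K).Normal := Cfsg.Agent.Lib.Helper1.pCore_normal p
      have hy' : g⁻¹ * y * g ∈ Cfsg.pCore p ↥K := by
        have h0 := Subgroup.Normal.conj_mem (inferInstance : (Cfsg.pCore p ↥K).Normal) y hy g⁻¹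
        simpa using h0
      have h := hk p hp hpq _ hy'
      calc g * k * g⁻¹ * y = g * (k * (g⁻¹ * y * g)) * g⁻¹ := by group
        _ = g * ((g⁻¹ * y * g) * k) * g⁻¹ := by rw [h]
        _ = y * (g * k * g⁻¹) := by group
    have hC₀F : C₀ ≤ Cfsg.fittingSubgroup ↥K := by
      apply Cfsg.Agent.Lib.Helper21.le_fitting_core C₀ (q := q)
      · intro m hm
        obtain ⟨j, hj⟩ := hpowF (m : X) m.2
        refine ⟨j, ?_⟩
        obtain ⟨z, hz, hzm⟩ := hj
        have hzm' : z = m ^ (q ^ j) := Subtype.ext (by rw [Subgroup.coe_pow]; exact hzm)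
        rw [← hzm']; exact hz
      · intro p hp hpq y hy _ z hz
        exact hy p hp hpq z hz
    have hT₁F : ⁅T, R⁆ ≤ F := by
      have hcentall : ∀ p : ℕ, p.Prime → p ≠ q →
          ⁅T, R⁆ ≤ Subgroup.centralizer (Cfsg.pCoreOf p K : Set X) := by
        intro p hp hpq
        haveI : Fact p.Prime := ⟨hp⟩
        have hPp : IsPGroup p (Cfsg.pCoreOf p K) := Cfsg.Agent.Lib.Helper18.pCoreOf_isPGroup p K
        have hPK : Cfsg.pCoreOf p K ≤ K := Cfsg.Agent.Lib.Helper18.pCoreOf_le p K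
        by_cases hpr : p = r
        · have hPbot : Cfsg.pCoreOf p K = ⊥ := by
            obtain ⟨k, hk⟩ := IsPGroup.iff_card.mp hPp
            have hk0 : k = 0 := by
              by_contra hk0
              apply hrK
              rw [← hpr]
              exact (dvd_pow_self p hk0).trans (hk ▸ Subgroup.card_dvd_of_le hPK)
            rw [hk0, pow_zero] at hk
            exact Subgroup.eq_bot_of_card_eq _ hk
          rw [hPbot]
          intro g _
          rw [Subgroup.mem_centralizer_iff]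
          intro h hh
          rw [Subgroup.mem_bot.mp hh, one_mul, mul_one]
        · have hPF : Cfsg.pCoreOf p K ≤ F :=
            Subgroup.map_mono (Cfsg.Agent.Lib.Helper11.pCore_le_fitting p)
          have hcc := comm_cent (Cfsg.pCoreOf p K) T x p q r hq hr hPp hTq hpq hpr hqr hTodd hx
            (hTK.trans (Cfsg.Agent.Lib.Helper18.le_normalizer_pCoreOf p K))
            (Cfsg.Agent.Lib.Helper18.normalizer_le_normalizer_pCoreOf p K hxK) hxT
            (fun h hh hc => hfix h (hPF hh) hc)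
          rw [Subgroup.commutator_le]
          intro t ht y hy
          have h1 := hcc t ht y hy
          have h2 : ⁅t, y⁆ = (y * t * y⁻¹ * t⁻¹)⁻¹ := by
            rw [commutatorElement_def]; group
          rw [h2]
          exact Subgroup.inv_mem _ h1
      intro g hg
      have hgK : g ∈ K := hTK (hT₁T hg)
      have hgC : (⟨g, hgK⟩ : ↥K) ∈ C₀ := by
        intro p hp hpq y hy
        have h1 := Subgroup.mem_centralizer_iff.mp (hcentall p hp hpq hg) (y : X)
          (Subgroup.mem_map_of_mem K.subtype hy)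
        exact Subtype.ext h1.symm
      exact ⟨⟨g, hgK⟩, hC₀F hgC, rfl⟩
    exact hK₁K.trans (hKsup.trans (sup_le le_rfl hT₁F))

end Cfsg.Agent.Lib.Helper12.XsFit
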